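import Cfsg.Agent.Lib.ClassK.ChevalleyGrading
import Cfsg.Agent.Lib.Twisted.Twist

/-!
Subgroups of a Chevalley group containing the points fixed by a field endomorphism: the action of
the endomorphism on the standard subgroups, and elementary consequences of the commutator formula.
-/

set_option autoImplicit false
set_option linter.unusedSectionVars false

open Matrix

namespace CfsgLib.ClassK.Subfield

open Cfsg.Lie CfsgLib.Chevalley CfsgLib.ClassK.Grading

variable {D : ChevalleyDatum} {A : Aux} {F : Type*} [Field F]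

/-- A field endomorphism applied to the entries. -/
noncomputable def frob (φ : F →+* F) : GL D.Idx F →* GL D.Idx F :=
  Matrix.GeneralLinearGroup.map φ

/-- The subgroup generated by the root elements with parameters fixed by the endomorphism. -/
def fixElem (hC : Cert D A) (φ : F →+* F) : Subgroup (GL D.Idx F) :=
  Subgroup.closure {g | ∃ r t, φ t = t ∧ g = xG hC r t}

theorem xG_mem_fixElem (hC : Cert D A) {φ : F →+* F} (r : ℕ) {t : F} (ht : φ t = t) :
    xG hC r t ∈ fixElem hC φ := Subgroup.subset_closure ⟨r, t, ht, rfl⟩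

theorem xG_one_mem_fixElem (hC : Cert D A) (φ : F →+* F) (r : ℕ) :
    xG hC r (1 : F) ∈ fixElem hC φ := xG_mem_fixElem hC r (map_one φ)

theorem nG_mem_fixElem (hC : Cert D A) {φ : F →+* F} (r : ℕ) {c : F} (hc : φ c = c) :
    nG hC r c ∈ fixElem hC φ := by
  rw [nG]
  exact mul_mem (mul_mem (xG_mem_fixElem hC _ hc)
    (xG_mem_fixElem hC _ (by rw [map_neg, map_inv₀, hc]))) (xG_mem_fixElem hC _ hc)

theorem hG_mem_fixElem (hC : Cert D A) {φ : F →+* F} (r : ℕ) {c : F} (hc : φ c = c) :
    hG hC r c ∈ fixElem hC φ := by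
  rw [hG]
  exact mul_mem (nG_mem_fixElem hC _ hc) (nG_mem_fixElem hC _ (by simp))

theorem nW_mem_fixElem (hC : Cert D A) (φ : F →+* F) (l : List (Fin D.rank)) :
    nW hC F l ∈ fixElem hC φ :=
  Subgroup.list_prod_mem _ fun x hx => by
    obtain ⟨i, -, rfl⟩ := List.mem_map.1 hx
    exact nG_mem_fixElem hC _ (map_one φ)

theorem fixElem_le_group (hC : Cert D A) (φ : F →+* F) : fixElem hC φ ≤ D.group F :=
  (Subgroup.closure_le _).2 fun _ ⟨r, t, _, e⟩ => e ▸ xG_mem_group hC r t

theorem fixElem_fixed (hC : Cert D A) (φ : F →+* F) {g : GL D.Idx F} (hg : g ∈ fixElem hC φ) :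
    Matrix.GeneralLinearGroup.map φ g = g := by
  induction hg using Subgroup.closure_induction with
  | mem g hg =>
    obtain ⟨r, t, ht, rfl⟩ := hg
    exact (CfsgLib.Twisted.map_xG hC φ r t).trans (by rw [ht])
  | one => exact map_one _
  | mul x y _ _ hx hy => rw [map_mul, hx, hy]
  | inv x _ hx => rw [map_inv, hx]

/-- A subgroup between the elementary group over the fixed field and the whole group. -/
structure Setting (h : Full D A) (φ : F →+* F) (H : Subgroup (GL D.Idx F)) : Prop where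
  /-- `H` lies in the group -/
  leG : H ≤ D.group F
  /-- `H` contains the root elements with fixed parameters -/
  mem : fixElem h.cert φ ≤ H

theorem frob_apply (φ : F →+* F) (g : GL D.Idx F) (i j : D.Idx) :
    (frob φ g : Matrix D.Idx D.Idx F) i j = φ ((g : Matrix D.Idx D.Idx F) i j) := rfl

theorem frob_injective (φ : F →+* F) : Function.Injective (frob (D := D) φ) := fun g g' e =>
  Units.ext (Matrix.ext fun i j => φ.injective (by rw [← frob_apply, ← frob_apply, e]))

theorem frob_xG (hC : Cert D A) (φ : F →+* F) (r : ℕ) (t : F) :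
    frob φ (xG hC r t) = xG hC r (φ t) := CfsgLib.Twisted.map_xG hC φ r t

theorem frob_mem_group (hC : Cert D A) (φ : F →+* F) {g : GL D.Idx F} (hg : g ∈ D.group F) :
    frob φ g ∈ D.group F := CfsgLib.Twisted.map_mem_group hC φ hg

theorem frob_rootsU (hC : Cert D A) (φ : F →+* F) {S : Set ℕ} {g : GL D.Idx F}
    (hg : g ∈ rootsU D F S) : frob φ g ∈ rootsU D F S := by
  have : rootsU D F S ≤ (rootsU D F S).comap (frob φ) :=
    (rootsU_le_iff hC).2 fun r hr t => by
      rw [Subgroup.mem_comap, frob_xG]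
      exact xG_mem_rootsU hC hr _
  exact this hg

theorem frob_posU (hC : Cert D A) (φ : F →+* F) {g : GL D.Idx F} (hg : g ∈ D.posUnipotent F) :
    frob φ g ∈ D.posUnipotent F := frob_rootsU (S := {r | D.IsPosRoot r}) hC φ hg

theorem frob_prodU (hC : Cert D A) (φ : F →+* F) (L : List ℕ) (t : ℕ → F) :
    frob φ (prodU hC L t) = prodU hC L fun r => φ (t r) := by
  induction L with
  | nil => simp [prodU]
  | cons k L ih => rw [prodU_cons, prodU_cons, map_mul, ih, frob_xG]

theorem frob_nG (hC : Cert D A) (φ : F →+* F) (r : ℕ) (c : F) :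
    frob φ (nG hC r c) = nG hC r (φ c) := by
  simp only [nG, map_mul, frob_xG, map_neg, map_inv₀]

theorem frob_hG (hC : Cert D A) (φ : F →+* F) (r : ℕ) (c : F) :
    frob φ (hG hC r c) = hG hC r (φ c) := by
  simp only [hG, map_mul, frob_nG, map_neg, map_one]

theorem frob_nW (hC : Cert D A) (φ : F →+* F) (l : List (Fin D.rank)) :
    frob φ (nW hC F l) = nW hC F l := by
  induction l with
  | nil => rw [nW_nil, map_one]
  | cons i l ih => rw [nW_cons, map_mul, frob_nG, map_one, ih]

theorem frob_monomial (h : Full D A) (φ : F →+* F) {g : GL D.Idx F}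
    (hg : g ∈ D.monomialSubgroup F) : frob φ g ∈ D.monomialSubgroup F := by
  obtain ⟨l, t, ht, rfl⟩ := (mem_monomial_iff h).1 hg
  rw [map_mul, frob_nW]
  refine Subgroup.mul_mem _ (nW_mem_monomial h l) (diagonal_le_monomial ?_)
  have : D.diagonalSubgroup F ≤ (D.diagonalSubgroup F).comap (frob φ) := by
    conv_lhs => rw [ChevalleyDatum.diagonalSubgroup]
    rw [Subgroup.closure_le]
    rintro g ⟨r, t, hr, ht, hg⟩
    rw [SetLike.mem_coe, Subgroup.mem_comap,
      show g = hG h.cert r t from Units.ext (hg.trans (coe_hG h.cert r t).symm), frob_hG]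
    exact Subgroup.subset_closure ⟨r, φ t, hr, (map_ne_zero φ).2 ht, coe_hG _ _ _⟩
  exact this ht

theorem deg_frob (φ : F →+* F) {v : D.Idx → ℝ} {c : ℝ} {g : GL D.Idx F}
    (hg : Deg v c ((g : Matrix D.Idx D.Idx F) - 1)) :
    Deg v c ((frob φ g : Matrix D.Idx D.Idx F) - 1) := by
  intro a b hne
  refine hg a b fun e => hne ?_
  rw [Matrix.sub_apply, frob_apply]
  rw [Matrix.sub_apply] at e
  rcases eq_or_ne a b with rfl | hab
  · rw [Matrix.one_apply_eq] at e ⊢
    rw [sub_eq_zero.1 e, map_one, sub_self]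
  · rw [Matrix.one_apply_ne hab] at e ⊢
    rw [sub_eq_zero.1 e, map_zero, sub_self]

theorem deg_frob_zero (φ : F →+* F) {v : D.Idx → ℝ} {g : GL D.Idx F}
    (hg : Deg v 0 (g : Matrix D.Idx D.Idx F)) : Deg v 0 (frob φ g : Matrix D.Idx D.Idx F) :=
  fun a b hne => hg a b fun e => hne (by rw [frob_apply, e, map_zero])

/-! ### The commutator formula -/

/-- The right-hand side of the commutator formula. -/
noncomputable def terms (hC : Cert D A) (r s : ℕ) (t u : F) : GL D.Idx F :=
  ((D.commTerms r s).map fun c =>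
    xG hC c.1 ((c.2.1 : F) * t ^ c.2.2.1 * u ^ c.2.2.2)).prod

theorem conj_eq_terms (h : Full D A) {r s : ℕ} (hr : r < D.nroots) (hs : s < D.nroots)
    (hne : s ≠ r) (hneg : s ≠ D.neg r) (t u : F) :
    xG h.cert r t * xG h.cert s u * (xG h.cert r t)⁻¹ = xG h.cert s u * terms h.cert r s t u := by
  have e := x_mul_x h.mem hr hs hne hneg (-t) u
  rw [wordMat_eq_prod h.cert] at e
  simp only [ChevalleyDatum.commWord, List.map_map, neg_neg, Function.comp_def] at e
  have h' : xG h.cert s u * xG h.cert r (-t) =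
      xG h.cert r (-t) * xG h.cert s u * terms h.cert r s t u :=
    Units.ext (by simpa [terms] using e)
  rw [← xG_inv] at h'
  rw [mul_assoc, h', ← mul_assoc, ← mul_assoc, mul_inv_cancel, one_mul]

theorem terms_mem (h : Full D A) {H : Subgroup (GL D.Idx F)} {r s : ℕ} (hr : r < D.nroots)
    (hs : s < D.nroots) (hne : s ≠ r) (hneg : s ≠ D.neg r) {t u : F}
    (ht : xG h.cert r t ∈ H) (hu : xG h.cert s u ∈ H) : terms h.cert r s t u ∈ H := by
  have e := conj_eq_terms h hr hs hne hneg t u
  rw [← inv_mul_eq_iff_eq_mul] at e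
  rw [← e]
  exact mul_mem (inv_mem hu) (mul_mem (mul_mem ht hu) (inv_mem ht))

theorem commute_of_terms (h : Full D A) {r s : ℕ} (hr : r < D.nroots) (hs : s < D.nroots)
    (hne : s ≠ r) (hneg : s ≠ D.neg r) (he : D.commTerms r s = []) (t u : F) :
    Commute (xG h.cert r t) (xG h.cert s u) := by
  have e := conj_eq_terms h hr hs hne hneg t u
  rw [terms, he, List.map_nil, List.prod_nil, mul_one, mul_inv_eq_iff_eq_mul] at e
  exact e

theorem xG_pow (hC : Cert D A) (r : ℕ) (t : F) (n : ℕ) :
    xG hC r t ^ n = xG hC r ((n : F) * t) := by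
  induction n with
  | zero => rw [pow_zero, Nat.cast_zero, zero_mul, xG_zero]
  | succ n ih => rw [pow_succ, ih, xG_mul, Nat.cast_succ, add_mul, one_mul]

/-- Splitting off the least root of a closed set above a bound. -/
theorem split_at (h : Full D A) {S : Set ℕ} (hc : IsClosedRoots D S) {k : ℕ} (hk : k ∈ S)
    {g : GL D.Idx F} (hg : g ∈ rootsU D F (S ∩ Set.Ici k)) :
    ∃ a : F, ∃ v ∈ rootsU D F (S ∩ Set.Ici (k + 1)), g = xG h.cert k a * v := by
  induction hg using rootsU_induction h.cert with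
  | h1 => exact ⟨0, 1, Subgroup.one_mem _, by rw [xG_zero, one_mul]⟩
  | hx r hr t =>
    rcases eq_or_lt_of_le (show k ≤ r from hr.2) with e | hlt
    · subst e
      exact ⟨t, 1, Subgroup.one_mem _, by rw [mul_one]⟩
    · exact ⟨0, _, xG_mem_rootsU h.cert (show r ∈ S ∩ Set.Ici (k + 1) from ⟨hr.1, hlt⟩) t,
        by rw [xG_zero, one_mul]⟩
  | hmul x y _ _ hx hy =>
    obtain ⟨a, v, hv, rfl⟩ := hx
    obtain ⟨b, w, hw, rfl⟩ := hy
    refine ⟨a + b, _, Subgroup.mul_mem _ (conj_mem_tail h.toStd hc hk (-b) v hv) hw, ?_⟩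
    rw [← xG_mul, ← xG_inv]
    group

theorem rootsU_inter_empty (hC : Cert D A) {S : Set ℕ} (hS : ∀ r ∈ S, r < D.nroots) {k : ℕ}
    (hk : D.nroots ≤ k) {g : GL D.Idx F} (hg : g ∈ rootsU D F (S ∩ Set.Ici k)) : g = 1 := by
  rw [← Subgroup.mem_bot]
  exact (rootsU_le_iff hC (K := ⊥)).2
    (fun r hr => absurd (hS r hr.1) (not_lt.2 (le_trans hk hr.2))) hg

end CfsgLib.ClassK.Subfield
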