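import Cfsg.Agent.Lib.ClassK.Subfield.Degree

/-!
The coordinates of an element of `U` at the fundamental roots are additive and invariant under
conjugation in `U`.
-/

set_option autoImplicit false
set_option linter.unusedSectionVars false

open Matrix

namespace CfsgLib.ClassK.Subfield

open Cfsg.Lie CfsgLib.Chevalley CfsgLib.ClassK.Grading CfsgLib.ClassK.BorelTits

variable {D : ChevalleyDatum} {A : Aux} {F : Type*} [Field F]

/-- The entry giving the coordinate of an element of `U` at a fundamental root. -/
noncomputable def coord (hC : Cert D A) (j i : Fin D.rank) (g : GL D.Idx F) : F :=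
  ((g : Matrix D.Idx D.Idx F) - 1) (Sum.inl j) (Sum.inr (ngR hC (smp hC i)))

theorem coord_mul (h : Full D A) (j i : Fin D.rank) {a b : GL D.Idx F}
    (ha : a ∈ D.posUnipotent F) (hb : b ∈ D.posUnipotent F) :
    coord h.cert j i (a * b) = coord h.cert j i a + coord h.cert j i b := by
  set v : Fin D.rank → ℝ := fun _ => 1
  have hval : ∀ r : ℕ, D.IsPosRoot r → (1 : ℝ) ≤ val D A v r := by
    intro r hr
    obtain ⟨k, hk⟩ := exists_crd_pos h hr
    refine le_trans ?_ (Finset.single_le_sum (f := fun i : Fin D.rank => (crd A i r : ℝ) * v i)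
      (fun i _ => mul_nonneg (by exact_mod_cast h.crd_nonneg hr i.isLt) zero_le_one)
      (Finset.mem_univ k))
    simp only [v, mul_one]
    exact_mod_cast hk
  have hd : ∀ u ∈ D.posUnipotent F, Deg (valI D A v) 1 ((u : Matrix D.Idx D.Idx F) - 1) :=
    fun u hu => deg_rootsU h.cert (fun r hr => hr.1) zero_le_one (fun r hr => hval r hr) hu
  have h2 : (((a : Matrix D.Idx D.Idx F) - 1) * ((b : Matrix D.Idx D.Idx F) - 1))
      (Sum.inl j) (Sum.inr (ngR h.cert (smp h.cert i))) = 0 := by
    by_contra hne
    have := (hd a ha).mul (hd b hb) _ _ hne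
    simp only [valI, val_ngR, show ((smp h.cert i : Fin D.nroots) : ℕ) = D.simple i from rfl,
      val_simple h, v] at this
    linarith
  unfold coord
  rw [Units.val_mul, show (a : Matrix D.Idx D.Idx F) * b - 1 =
    ((a : Matrix D.Idx D.Idx F) - 1) + ((b : Matrix D.Idx D.Idx F) - 1) +
      ((a : Matrix D.Idx D.Idx F) - 1) * ((b : Matrix D.Idx D.Idx F) - 1) by noncomm_ring,
    Matrix.add_apply, Matrix.add_apply, h2, add_zero]

theorem coord_conj (h : Full D A) (j i : Fin D.rank) {a u : GL D.Idx F}
    (ha : a ∈ D.posUnipotent F) (hu : u ∈ D.posUnipotent F) :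
    coord h.cert j i (u * a * u⁻¹) = coord h.cert j i a := by
  have h1 := coord_mul h j i (mul_mem hu ha) (inv_mem hu)
  have h2 := coord_mul h j i hu ha
  have h3 := coord_mul h j i hu (inv_mem hu)
  have h4 : coord h.cert j i (1 : GL D.Idx F) = 0 := by simp [coord]
  rw [mul_inv_cancel, h4] at h3
  rw [h1, h2]
  linear_combination -h3

theorem coord_xG (h : Full D A) (j i : Fin D.rank) (r : Fin D.nroots) (t : F) :
    coord h.cert j i (xG h.cert r t) = if r = smp h.cert i then (cor D r j : F) * t else 0 := by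
  unfold coord
  rw [coe_xG, x_eq_xR D F r.isLt, Matrix.sub_apply, Matrix.one_apply_ne (by simp), sub_zero]
  have hn : D.negIdx.getD (r : ℕ) 0 = D.neg r := rfl
  simp only [xR, Matrix.of_apply, Fin.eta, hn]
  set s := smp h.cert i
  by_cases h1 : ngR h.cert s = r
  · rw [if_pos h1, if_neg]
    intro e
    rw [e] at h1
    exact h.cert.wf.neg_ne s s.isLt (congrArg Fin.val h1)
  · rw [if_neg h1]
    by_cases h2 : r = s
    · rw [if_pos h2, if_pos]
      · rfl
      · rw [h2]; rfl
    · rw [if_neg h2, if_neg]
      intro h3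
      refine h2 (Fin.ext ?_)
      have := congrArg D.neg h3
      simp only [ngR, h.cert.wf.neg_neg _ s.isLt, h.cert.wf.neg_neg _ r.isLt] at this
      exact this.symm

end CfsgLib.ClassK.Subfield
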