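import Cfsg.Agent.Lib.ClassK.Subfield.CertData
import Cfsg.Agent.Lib.Chevalley.Torus

/-! The meaning of the table checks. -/

set_option autoImplicit false
set_option linter.unusedSectionVars false

namespace CfsgLib.ClassK.Subfield

open Cfsg.Lie CfsgLib.Chevalley

variable {D : ChevalleyDatum} {A : Aux}

/-- A positive root adds to `k` with a constant of absolute value `c`. -/
def HasConst (D : ChevalleyDatum) (k c : ℕ) : Prop :=
  ∃ d e, D.IsPosRoot d ∧ d ≠ k ∧ D.chainRoot k d 1 = some e ∧ (D.chainM k d 1).natAbs = c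

/-- The properties read off the tables. -/
structure Props (h : Full D A) (T : Tbl) : Prop where
  /-- constants upwards -/
  term : ∀ k, D.IsPosRoot k → k ≠ topRoot D →
    HasConst D k 1 ∨ (HasConst D k 2 ∧ HasConst D k 3) ∨ (k = T.s ∧ HasConst D k T.c)
  /-- the radicals span -/
  span : ∀ i < D.rank, ∀ j < D.rank, i ≠ j → ∃ r q, D.IsPosRoot r ∧ 0 < crd A i r ∧ q < D.nroots ∧
    D.IsPosRoot q ∧ ∀ l < D.rank, crd A l q = crd A l (D.simple j) + crd A l r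
  /-- the radicals detect -/
  lead : ∀ k, D.IsPosRoot k → ∀ i < D.rank, 0 < crd A i k ∨
    ∃ b e : Fin D.nroots, D.IsPosRoot b ∧ 0 < crd A i b ∧ e ≠ b ∧
      phi D A e = phi D A k + phi D A b ∧
      (D.chainCoeff k b e = [(1, 1)] ∨ D.chainCoeff k b e = [(1, -1)]) ∧
      (b : ℕ) ≠ k ∧ (b : ℕ) ≠ D.neg k
  /-- climbing -/
  climb : ∀ r < D.nroots, (r = topRoot D ∧ r ∉ T.sh) ∨ (r = T.s ∧ r ∈ T.sh) ∨
    ∃ i < D.rank, r < D.reflectRoot i r ∧ D.reflectRoot i r < D.nroots ∧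
      (D.reflectRoot i r ∈ T.sh ↔ r ∈ T.sh)
  /-- the index is a fundamental one -/
  hi : T.i < D.rank
  /-- the letters are fundamental ones -/
  hq : ∀ a ∈ T.q, a < D.rank
  /-- the path leads to the top -/
  path : follow D T.q (D.simple T.i) = topRoot D
  /-- the pairings of the fundamental roots -/
  pair : ∀ j < D.rank, D.cartan T.i (follow D T.q.reverse (D.simple j)) = T.P.getD j 0
  /-- the grading of the positive roots -/
  grade : ∀ d, D.IsPosRoot d → d ≠ topRoot D → pairing D A T.P d = 1 ∨ pairing D A T.P d = 0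
  /-- the highest root has pairing two -/
  grade_top : pairing D A T.P (topRoot D) = 2
  /-- some root is orthogonal -/
  grade_zero : ∃ d, D.IsPosRoot d ∧ pairing D A T.P d = 0 ∧ d ≠ topRoot D
  /-- no negative root but the lowest is opposite to the highest for all coweights -/
  opp : ∀ u, D.IsNegRoot u → u = D.neg (topRoot D) ∨ ∃ i < D.rank, ∃ j < D.rank,
    crd A j (topRoot D) * crd A i u < crd A i (topRoot D) * crd A j u

theorem topRoot_pos (h : Full D A) : D.IsPosRoot (topRoot D) := by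
  have h1 := h.pos.half_pos
  have h2 := h.pos.nroots_eq
  exact h.pos.isPos_iff.2 ⟨by simp only [topRoot]; omega, by simp only [topRoot]; omega⟩

theorem pos_le_top (h : Full D A) {r : ℕ} (hr : D.IsPosRoot r) : r ≤ topRoot D := by
  have := hr.1
  simp only [topRoot]
  omega

theorem mem_upper (h : Full D A) {k : ℕ} : k ∈ upper D ↔ D.IsPosRoot k := by
  rw [h.pos.isPos_iff, upper, List.mem_range'_1]
  have := h.pos.nroots_eq
  omega

theorem hasConst_of_row (h : Full D A) {k c : ℕ} (hk : k < D.nroots)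
    (hB : rowConst D k c = true) : HasConst D k c := by
  simp only [rowConst, List.any_eq_true, Bool.and_eq_true, Option.isSome_iff_exists] at hB
  obtain ⟨e, he, ⟨⟨h1, -⟩, q, hq⟩, h2⟩ := hB
  obtain ⟨hlt, hne, -⟩ := h.cert.wf.chain_ok k hk e he
  exact ⟨e.1, q, h.pos.isPos_iff.2 ⟨Nat.le_of_ble_eq_true h1, hlt⟩, hne, hq, Nat.eq_of_beq_eq_true h2⟩

theorem props_of_dataB (h : Full D A) {T : Tbl} (hB : dataB D A T = true) : Props h T := by
  simp only [dataB, Bool.and_eq_true] at hB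
  obtain ⟨⟨⟨⟨⟨h1, h2⟩, h3⟩, h4⟩, h5⟩, h6⟩ := hB
  simp only [gradeTopB, Bool.and_eq_true, Sparse.lall_eq, List.all_eq_true, List.any_eq_true,
    Bool.or_eq_true, decide_eq_true_eq] at h4
  obtain ⟨⟨⟨⟨⟨⟨g1, g2⟩, g3⟩, g4⟩, g5⟩, g6⟩, g7⟩ := h4
  refine ⟨?_, ?_, ?_, ?_, Nat.le_of_ble_eq_true g1, fun a ha => Nat.le_of_ble_eq_true (g2 a ha),
    Nat.eq_of_beq_eq_true g3, fun j hj => g4 j (List.mem_range.2 hj), ?_, g6, ?_, ?_⟩
  · intro k hk hne
    simp only [termB, Sparse.lall_eq, List.all_eq_true, Bool.or_eq_true, Bool.and_eq_true] at h1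
    rcases h1 k ((mem_upper h).2 hk) with ((e | e) | ⟨e, e'⟩) | ⟨e, e'⟩
    · exact absurd (Nat.eq_of_beq_eq_true e) hne
    · exact Or.inl (hasConst_of_row h hk.1 e)
    · exact Or.inr (Or.inl ⟨hasConst_of_row h hk.1 e, hasConst_of_row h hk.1 e'⟩)
    · exact Or.inr (Or.inr ⟨Nat.eq_of_beq_eq_true e, hasConst_of_row h hk.1 e'⟩)
  · intro i hi j hj hij
    simp only [spanB, Sparse.lall_eq, List.all_eq_true, Bool.or_eq_true, List.any_eq_true,
      Bool.and_eq_true, decide_eq_true_eq, Option.isSome_iff_exists, List.mem_range] at h2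
    rcases h2 j hj i hi with e | ⟨e, -, ⟨⟨h7, h8⟩, h9⟩, q, hq⟩
    · exact absurd (Nat.eq_of_beq_eq_true e) hij
    have hr : D.IsPosRoot e.1 :=
      h.pos.isPos_iff.2 ⟨Nat.le_of_ble_eq_true h7, Nat.le_of_ble_eq_true h8⟩
    have hcr : ∀ l < D.rank, crd A l q = crd A l (D.simple j) + crd A l e.1 := fun l hl => by
      rw [h.chain_crd (h.cert.wf.simple_lt j hj) hq hl]; norm_num
    obtain ⟨hqlt, hphi⟩ := h.pos.chain_phi h.cert (h.cert.wf.simple_lt j hj) hq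
    refine ⟨e.1, q, hr, h9, hqlt, h.pos.isPos_of_phi_pos hqlt ?_, hcr⟩
    rw [hphi]
    have := h.pos.phi_pos (h.simple_pos hj)
    have := h.pos.phi_pos hr
    push_cast
    omega
  · intro k hk i hi
    simp only [leadB, Sparse.lall_eq, List.all_eq_true, Bool.or_eq_true, List.any_eq_true,
      Bool.and_eq_true, decide_eq_true_eq, List.mem_range] at h3
    rcases h3 k ((mem_upper h).2 hk) i hi with e | ⟨e, he, ⟨⟨⟨h7, h8⟩, h9⟩, -⟩, hm⟩
    · exact Or.inl e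
    right
    obtain ⟨hlt, hne, hne', -, -⟩ := h.cert.wf.chain_ok k hk.1 e he
    split at hm
    · exact absurd hm (by simp)
    rename_i q l hl
    simp only [Bool.and_eq_true, Bool.or_eq_true, beq_iff_eq, Bool.not_eq_true'] at hm
    obtain ⟨⟨⟨hqlt, hqne⟩, hroot⟩, hcoef⟩ := hm
    refine ⟨⟨e.1, hlt⟩, ⟨q.1, Nat.le_of_ble_eq_true hqlt⟩,
      h.pos.isPos_iff.2 ⟨Nat.le_of_ble_eq_true h7, hlt⟩, h9, fun eq => ?_, ?_, hcoef, hne, hne'⟩
    · have h10 : q.1 = e.1 := congrArg Fin.val eq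
      rw [h10] at hqne
      exact absurd (Nat.beq_refl e.1) (by rw [hqne]; simp)
    · have := (h.pos.chain_phi h.cert hk.1 hroot).2
      simpa using this
  · intro r hr
    simp only [climbB, Sparse.lall_eq, List.all_eq_true, Bool.or_eq_true, List.any_eq_true,
      Bool.and_eq_true, List.mem_range, beq_iff_eq, List.elem_eq_mem,
      decide_eq_true_eq, decide_eq_decide] at h5
    rcases h5 r hr with (⟨e, e'⟩ | ⟨e, e'⟩) | ⟨i, hi, ⟨⟨-, h8⟩, h9⟩, h10⟩
    · exact Or.inl ⟨Nat.eq_of_beq_eq_true e, by simpa using e'⟩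
    · exact Or.inr (Or.inl ⟨Nat.eq_of_beq_eq_true e, e'⟩)
    · exact Or.inr (Or.inr ⟨i, hi, Nat.le_of_ble_eq_true h8, Nat.le_of_ble_eq_true h9, h10⟩)
  · intro d hd hne
    rcases g5 d ((mem_upper h).2 hd) with (e | e) | e
    · exact absurd (Nat.eq_of_beq_eq_true e) hne
    · exact Or.inl e
    · exact Or.inr e
  · obtain ⟨d, hd, e⟩ := g7
    refine ⟨d, (mem_upper h).1 hd, e.1, fun eq => ?_⟩
    have := e.2
    rw [eq, Nat.beq_refl] at this
    simp at this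
  · intro u hu
    simp only [oppB, Sparse.lall_eq, List.all_eq_true, Bool.or_eq_true, List.any_eq_true,
      List.mem_range, decide_eq_true_eq] at h6
    rcases h6 u (h.pos.isNeg_iff.1 hu) with e | e
    · exact Or.inl (Nat.eq_of_beq_eq_true e)
    · obtain ⟨i, hi, j, hj, e⟩ := e
      exact Or.inr ⟨i, hi, j, hj, e⟩

/-- Properties shared by the seven data. -/
theorem exists_props {D : ChevalleyDatum}
    (hD : D ∈ [chevG2, chevB2, chevD4, chevF4, chevE6, chevE7, chevE8]) :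
    ∃ (A : Aux) (h : Full D A) (T : Tbl), Props h T ∧
      ((D = chevG2 ∧ T = tblG2) ∨ (D = chevB2 ∧ T = tblB2) ∨ (D = chevF4 ∧ T = tblF4) ∨
        ((D = chevD4 ∨ D = chevE6 ∨ D = chevE7 ∨ D = chevE8) ∧ T.s = 0 ∧ T.sh = [])) := by
  have hD' := hD
  simp only [List.mem_cons, List.not_mem_nil, or_false] at hD'
  rcases hD' with rfl | rfl | rfl | rfl | rfl | rfl | rfl
  · exact ⟨auxG2, _, tblG2, props_of_dataB ⟨⟨cert_G2, posG2, hD⟩, extraG2⟩ dataG2, Or.inl ⟨rfl, rfl⟩⟩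
  · exact ⟨auxB2, _, tblB2, props_of_dataB ⟨⟨cert_B2, posB2, hD⟩, extraB2⟩ dataB2,
      Or.inr (Or.inl ⟨rfl, rfl⟩)⟩
  · exact ⟨auxD4, _, tblD4, props_of_dataB ⟨⟨cert_D4, posD4, hD⟩, extraD4⟩ dataD4,
      Or.inr (Or.inr (Or.inr ⟨Or.inl rfl, rfl, rfl⟩))⟩
  · exact ⟨auxF4, _, tblF4, props_of_dataB ⟨⟨cert_F4, posF4, hD⟩, extraF4⟩ dataF4,
      Or.inr (Or.inr (Or.inl ⟨rfl, rfl⟩))⟩
  · exact ⟨auxE6, _, tblE6, props_of_dataB ⟨⟨cert_E6, posE6, hD⟩, extraE6⟩ dataE6,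
      Or.inr (Or.inr (Or.inr ⟨Or.inr (Or.inl rfl), rfl, rfl⟩))⟩
  · exact ⟨auxE7, _, tblE7, props_of_dataB ⟨⟨cert_E7, posE7, hD⟩, extraE7⟩ dataE7,
      Or.inr (Or.inr (Or.inr ⟨Or.inr (Or.inr (Or.inl rfl)), rfl, rfl⟩))⟩
  · exact ⟨auxE8, _, tblE8, props_of_dataB ⟨⟨cert_E8, posE8, hD⟩, extraE8⟩ dataE8,
      Or.inr (Or.inr (Or.inr ⟨Or.inr (Or.inr (Or.inr rfl)), rfl, rfl⟩))⟩

end CfsgLib.ClassK.Subfield
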