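import Cfsg.Agent.Lib.ClassK.Subfield.Basic
import Cfsg.Agent.Lib.ClassK.Subfield.Props
import Cfsg.Agent.Lib.SmallDim.Subfield

/-!
The parameters of the root elements in `H`: they agree along the fundamental reflections, and a
multiplicatively closed additive set of them containing a non-fixed element is everything when the
fixed field has prime index.
-/

set_option autoImplicit false
set_option linter.unusedSectionVars false

namespace CfsgLib.ClassK.Subfield

open Cfsg.Lie CfsgLib.Chevalley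

variable {D : ChevalleyDatum} {A : Aux} {F : Type*} [Field F] {φ : F →+* F}
  {H : Subgroup (GL D.Idx F)}

theorem nG_conj_sign (h : Full D A) (i : Fin D.rank) (s : Fin D.nroots) :
    ∃ ε : F, (ε = 1 ∨ ε = -1) ∧ ∀ t : F,
      nG h.cert (D.simple i) (1 : F) * xG h.cert s t * (nG h.cert (D.simple i) 1)⁻¹ =
        xG h.cert (D.reflectRoot i s) (ε * t) := by
  have hA := acts_nG_simple (F := F) h i one_ne_zero
  have hi : etaAt A i (s : ℕ) * etaAt A i (ngR h.cert s) = 1 :=
    (refl_spec h.cert i.isLt s.isLt).2.2.2.2.2.1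
  refine ⟨(etaAt A i s : F) * (1 : F) ^ (-D.cartan i s), ?_, fun t => hA.conj s t⟩
  rw [_root_.one_zpow, mul_one]
  rcases Int.eq_one_or_neg_one_of_mul_eq_one hi with e | e <;> simp [e]

theorem xG_sign_iff (h : Full D A) (r : ℕ) {ε : F} (hε : ε = 1 ∨ ε = -1) (t : F) :
    xG h.cert r (ε * t) ∈ H ↔ xG h.cert r t ∈ H := by
  rcases hε with rfl | rfl
  · rw [one_mul]
  · rw [neg_one_mul, ← xG_inv, Subgroup.inv_mem_iff]

theorem nG_mem {h : Full D A} (hS : Setting h φ H) (r : ℕ) :
    nG h.cert r (1 : F) ∈ H := hS.mem (nG_mem_fixElem h.cert r (map_one φ))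

theorem mem_reflect_iff {h : Full D A} (hS : Setting h φ H) (i : Fin D.rank) {r : ℕ}
    (hr : r < D.nroots) (t : F) :
    xG h.cert r t ∈ H ↔ xG h.cert (D.reflectRoot i r) t ∈ H := by
  obtain ⟨ε, hε, hc⟩ := nG_conj_sign (F := F) h i ⟨r, hr⟩
  rw [← xG_sign_iff h (D.reflectRoot i r) hε t, ← hc t]
  exact ⟨fun hx => mul_mem (mul_mem (nG_mem hS _) hx) (inv_mem (nG_mem hS _)), fun hx => by
    simpa [mul_assoc] using mul_mem (mul_mem (inv_mem (nG_mem hS (D.simple i))) hx) (nG_mem hS (D.simple i))⟩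

/-- The dominant root of the same length. -/
def dom (D : ChevalleyDatum) (T : Tbl) (r : ℕ) : ℕ := if r ∈ T.sh then T.s else topRoot D

theorem mem_dom_iff {T : Tbl} {h : Full D A} (P : Props h T) (hS : Setting h φ H) :
    ∀ {r : ℕ}, r < D.nroots → ∀ t : F,
      (xG h.cert r t ∈ H ↔ xG h.cert (dom D T r) t ∈ H) := by
  intro r
  induction hn : D.nroots - r using Nat.strong_induction_on generalizing r with
  | _ n ih =>
    intro hr t
    rcases P.climb r hr with ⟨rfl, hns⟩ | ⟨rfl, hs⟩ | ⟨i, hi, hlt, hlt', hsh⟩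
    · rw [dom, if_neg hns]
    · rw [dom, if_pos hs]
    · rw [mem_reflect_iff hS ⟨i, hi⟩ hr t, ih _ (by omega) rfl hlt' t]
      simp only [dom, hsh]

/-- The parameters in `H` at the highest root. -/
def topSet (h : Full D A) (H : Subgroup (GL D.Idx F)) : Set F :=
  {x | xG h.cert (topRoot D) x ∈ H}

theorem mem_of_dom {T : Tbl} {h : Full D A} (P : Props h T) (hS : Setting h φ H) {r : ℕ}
    (hr : r < D.nroots) {t : F} (htop : t ∈ topSet h H)
    (hs : r ∈ T.sh → xG h.cert T.s t ∈ H) : xG h.cert r t ∈ H := by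
  rw [mem_dom_iff P hS hr]
  unfold dom
  split_ifs with hsh
  · exact hs hsh
  · exact htop

theorem halve {p : ℕ} [Fact p.Prime] [CharP F p] (hp2 : p ≠ 2) (h : Full D A) (r : ℕ) (a : F)
    (hm : xG h.cert r (2 * a) ∈ H) : xG h.cert r a ∈ H := by
  have hodd := (Fact.out : p.Prime).eq_two_or_odd.resolve_left hp2
  have hn : 2 * ((p + 1) / 2) = p + 1 := by omega
  have := H.pow_mem hm ((p + 1) / 2)
  rw [xG_pow, ← mul_assoc, show (((p + 1) / 2 : ℕ) : F) * 2 = ((2 * ((p + 1) / 2) : ℕ) : F) by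
    push_cast; ring, hn, Nat.cast_succ, CharP.cast_eq_zero, zero_add, one_mul] at this
  exact this

/-- The fixed field has prime index. -/
structure PrimeIndex (φ : F →+* F) : Prop where
  /-- every proper overfield is everything -/
  eq_top : ∀ S : Subfield F, (∀ x, φ x = x → x ∈ S) → (∃ x ∈ S, φ x ≠ x) → S = ⊤

theorem primeIndex_frobenius [Fintype F] (p : ℕ) [Fact p.Prime] [CharP F p] {a r : ℕ} (ha : 1 ≤ a)
    (hr : r.Prime) (hK : Fintype.card F = (p ^ a) ^ r) :
    PrimeIndex (iterateFrobenius F p a) := by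
  refine ⟨fun S hfix hnon => ?_⟩
  have hq : Fintype.card F = p ^ (a * r) := by rw [hK, pow_mul]
  set K0 := CfsgLib.SmallDim.fixedField (F := F) p a
  have hmem : ∀ x, x ∈ K0 ↔ iterateFrobenius F p a x = x := fun x => Iff.rfl
  obtain ⟨d, hd0, ⟨m, hm⟩, hcard, hSeq⟩ := CfsgLib.SmallDim.exists_fixedField_eq hq S
  have hle : K0 ≤ S := fun x hx => hfix x ((hmem x).1 hx)
  obtain ⟨l, hl⟩ : a ∣ d := by
    letI : Algebra K0 S := (Subfield.inclusion hle).toAlgebra
    have := Module.natCard_eq_pow_finrank (K := K0) (V := S)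
    rw [hcard, CfsgLib.SmallDim.card_fixedField hq ha (Dvd.intro r rfl), ← pow_mul] at this
    exact ⟨_, Nat.pow_right_injective (Fact.out : p.Prime).two_le this⟩
  have hlr : l ∣ r := ⟨m, by
    have : a * r = a * (l * m) := by rw [hm, hl, mul_assoc]
    exact Nat.eq_of_mul_eq_mul_left (by omega) this⟩
  rcases (Nat.dvd_prime hr).1 hlr with rfl | rfl
  · exfalso
    obtain ⟨x, hx, hne⟩ := hnon
    rw [hSeq, hl, mul_one] at hx
    exact hne ((hmem x).1 hx)
  · refine eq_top_iff.2 fun x _ => ?_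
    rw [hSeq, CfsgLib.SmallDim.mem_fixedField, hl, ← hq, FiniteField.pow_card]

theorem eq_univ_of_closed [Fintype F] (hφ : PrimeIndex φ) {S : Set F}
    (hfix : ∀ x, φ x = x → x ∈ S) (hnon : ∃ x ∈ S, φ x ≠ x)
    (hadd : ∀ x ∈ S, ∀ y ∈ S, x + y ∈ S) (hmul : ∀ x ∈ S, ∀ y ∈ S, x * y ∈ S) (x : F) : x ∈ S := by
  have h1 : (1 : F) ∈ S := hfix 1 (map_one φ)
  have hm1 : (-1 : F) ∈ S := hfix _ (by rw [map_neg, map_one])
  have hpow : ∀ y ∈ S, ∀ n : ℕ, y ^ n ∈ S := fun y hy n => by
    induction n with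
    | zero => simpa using h1
    | succ n ih => rw [pow_succ]; exact hmul _ ih _ hy
  let K : Subfield F :=
    { carrier := S
      mul_mem' := fun {a b} ha hb => hmul a ha b hb
      one_mem' := h1
      add_mem' := fun {a b} ha hb => hadd a ha b hb
      zero_mem' := hfix 0 (map_zero φ)
      neg_mem' := fun {a} ha => by simpa using hmul _ hm1 a ha
      inv_mem' := fun a ha => by
        rcases eq_or_ne a 0 with rfl | ha0
        · simpa using hfix 0 (map_zero φ)
        · have hc : 1 < Fintype.card F := Fintype.one_lt_card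
          have e := FiniteField.pow_card_sub_one_eq_one a ha0
          rw [show a⁻¹ = a ^ (Fintype.card F - 2) by
            refine inv_eq_of_mul_eq_one_right ?_
            rw [← pow_succ', show Fintype.card F - 2 + 1 = Fintype.card F - 1 by omega, e]]
          exact hpow a ha _ }
  have := hφ.eq_top K hfix hnon
  exact (this ▸ Subfield.mem_top x : x ∈ K)

theorem xG_add_mem (h : Full D A) {r : ℕ} {s t : F} (hs : xG h.cert r s ∈ H)
    (ht : xG h.cert r t ∈ H) : xG h.cert r (s + t) ∈ H := by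
  rw [← xG_mul]; exact mul_mem hs ht

theorem xG_fixed_mem {h : Full D A} (hS : Setting h φ H) (r : ℕ) {s : F} (hs : φ s = s) :
    xG h.cert r s ∈ H := hS.mem (xG_mem_fixElem h.cert r hs)

/-- A triple of long roots with a unit constant makes the parameters at the highest root
multiplicatively closed. -/
theorem mul_mem_of_triple {T : Tbl} {h : Full D A}
    (P : Props h T) (hS : Setting h φ H) {r d e : ℕ} {c : ℤ} (hr : r < D.nroots) (hd : d < D.nroots)
    (he : e < D.nroots) (hrd : d ≠ r) (hrd' : d ≠ D.neg r) (hc : c = 1 ∨ c = -1)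
    (hterm : D.commTerms r d = [(e, c, 1, 1)]) (hrs : r ∉ T.sh) (hds : d ∉ T.sh) (hes : e ∉ T.sh)
    {x y : F} (hx : x ∈ topSet h H) (hy : y ∈ topSet h H) : x * y ∈ topSet h H := by
  have hx' : xG h.cert r x ∈ H := by rw [mem_dom_iff P hS hr, dom, if_neg hrs]; exact hx
  have hy' : xG h.cert d y ∈ H := by rw [mem_dom_iff P hS hd, dom, if_neg hds]; exact hy
  have := terms_mem h hr hd hrd hrd' hx' hy'
  rw [terms, hterm] at this
  simp only [List.map_cons, List.map_nil, List.prod_cons, List.prod_nil, mul_one, pow_one] at this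
  rw [mem_dom_iff P hS he, dom, if_neg hes, mul_assoc, xG_sign_iff h _ ?_] at this
  · exact this
  · rcases hc with rfl | rfl <;> simp

end CfsgLib.ClassK.Subfield
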