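import Cfsg.Agent.Lib.ClassK.Subfield.Basic
import Mathlib.FieldTheory.Finite.Basic

/-!
Fixed elements of `U` and fixed elements of `p`-power order lie in the subgroup generated by the
root elements with fixed parameters.
-/

set_option autoImplicit false
set_option linter.unusedSectionVars false

namespace CfsgLib.ClassK.Subfield

open Cfsg.Lie CfsgLib.Chevalley

variable {D : ChevalleyDatum} {A : Aux} {F : Type*} [Field F] {φ : F →+* F}

theorem posU_mem_fixElem (h : Full D A) {u : GL D.Idx F} (hu : u ∈ D.posUnipotent F)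
    (hfix : frob φ u = u) : u ∈ fixElem h.cert φ := by
  obtain ⟨hsort, hset, -⟩ := h.toStd.posList
  have hcl : IsClosedRoots D {r | r ∈ D.posRoots} := by
    rw [show {r | r ∈ D.posRoots} = {r | D.IsPosRoot r} from hset]
    exact h.toStd.isClosed_pos
  obtain ⟨t, -, rfl⟩ := exists_prodU h.toStd hsort hcl
    (show u ∈ rootsU D F {r | r ∈ D.posRoots} by
      rw [show {r | r ∈ D.posRoots} = {r | D.IsPosRoot r} from hset]; exact hu)
  rw [frob_prodU] at hfix
  have ht := prodU_injOn h.toStd hsort hcl hfix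
  exact Subgroup.list_prod_mem _ fun x hx => by
    obtain ⟨r, hr, rfl⟩ := List.mem_map.1 hx
    exact xG_mem_fixElem h.cert r (ht r hr)

theorem rootsU_frob_sub_posU (h : Full D A) {S : Set ℕ} (hS : ∀ r ∈ S, D.IsPosRoot r)
    {u : GL D.Idx F} (hu : u ∈ rootsU D F S) (hfix : frob φ u = u) : u ∈ fixElem h.cert φ :=
  posU_mem_fixElem h (rootsU_mono (T := {r | D.IsPosRoot r}) hS hu) hfix

variable [Fintype F]

/-- A fixed element is a product of the elementary subgroup and a fixed torus element. -/
theorem exists_fixElem_torus (h : Full D A) {g : GL D.Idx F} (hg : g ∈ D.group F)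
    (hfix : frob φ g = g) :
    ∃ e ∈ fixElem h.cert φ, ∃ c : Fin D.rank → Fˣ, frob φ (torusHom D F c) = torusHom D F c ∧
      g = e * torusHom D F c := by
  obtain ⟨u, hu, n, hn, σ, η, hA, u', hu', rfl⟩ := exists_canonical h hg
  obtain ⟨q, t, ht, rfl⟩ := (mem_monomial_iff h).1 hn
  obtain ⟨c, rfl⟩ : t ∈ (torusHom D F).range := by rwa [← diagonalSubgroup_eq_range h]
  obtain ⟨η', hA'⟩ := acts_nW (F := F) h q
  have hσ : σ = wPerm h.cert q := by
    rw [hA.perm_eq (hA'.mul (acts_torus h.cert c)), mul_one]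
  have hfn : frob φ (nW h.cert F q * torusHom D F c) ∈ D.monomialSubgroup F :=
    frob_monomial h φ hn
  obtain ⟨σ', η'', hB⟩ := exists_acts h hfn
  obtain ⟨c', hc'⟩ : frob φ (torusHom D F c) ∈ (torusHom D F).range := by
    rw [← diagonalSubgroup_eq_range h]
    have : D.diagonalSubgroup F ≤ (D.diagonalSubgroup F).comap (frob φ) := by
      conv_lhs => rw [ChevalleyDatum.diagonalSubgroup]
      rw [Subgroup.closure_le]
      rintro g ⟨r, t, hr, ht, hg⟩
      rw [SetLike.mem_coe, Subgroup.mem_comap,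
        show g = hG h.cert r t from Units.ext (hg.trans (coe_hG h.cert r t).symm), frob_hG]
      exact Subgroup.subset_closure ⟨r, φ t, hr, (map_ne_zero φ).2 ht, coe_hG _ _ _⟩
    exact this ht
  have hσ' : σ' = σ := by
    rw [hσ]
    have := hA'.mul (acts_torus (F := F) h.cert c')
    rw [hc', ← frob_nW h.cert φ q, ← map_mul, mul_one] at this
    exact hB.perm_eq this
  subst hσ'
  have hu'' : frob φ u' ∈ rootsU D F (invSet D σ') := frob_rootsU h.cert φ hu'
  rw [map_mul, map_mul] at hfix
  obtain ⟨e1, e2, e3⟩ := canonical_unique h (frob_posU h.cert φ hu) hu hfn hn hB hA hu'' hu' hfix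
  have htfix : frob φ (torusHom D F c) = torusHom D F c := by
    rw [map_mul, frob_nW] at e2
    exact mul_left_cancel e2
  refine ⟨u * nW h.cert F q * (torusHom D F c * u' * (torusHom D F c)⁻¹), ?_, c, htfix, by group⟩
  refine mul_mem (mul_mem (posU_mem_fixElem h hu e1) (nW_mem_fixElem h.cert φ q)) ?_
  refine posU_mem_fixElem h ?_ (by rw [map_mul, map_mul, map_inv, htfix, e3])
  exact diagonal_conj_rootsU h {r | D.IsPosRoot r} _ ht u'
    (rootsU_mono (T := {r | D.IsPosRoot r}) (fun r hr => hr.1) hu')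

theorem torus_conj_fixElem (h : Full D A) {c : Fin D.rank → Fˣ}
    (hc : frob φ (torusHom D F c) = torusHom D F c) {w : GL D.Idx F}
    (hw : w ∈ fixElem h.cert φ) :
    torusHom D F c * w * (torusHom D F c)⁻¹ ∈ fixElem h.cert φ := by
  induction hw using Subgroup.closure_induction with
  | mem w hw =>
    obtain ⟨r, t, ht, rfl⟩ := hw
    rcases lt_or_ge r D.nroots with hr | hr
    · rw [(acts_torus h.cert c).conj ⟨r, hr⟩ t, Equiv.Perm.one_apply]
      refine xG_mem_fixElem h.cert r ?_
      have hchi : φ ((chi D r c : Fˣ) : F) = ((chi D r c : Fˣ) : F) := by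
        have := congrArg (fun M : GL D.Idx F =>
          (M : Matrix D.Idx D.Idx F) (Sum.inr ⟨r, hr⟩) (Sum.inr ⟨r, hr⟩)) hc
        simpa [frob_apply, coe_torusHom] using this
      rw [map_mul, hchi, ht]
    · rw [show xG h.cert r t = 1 from Units.ext (by simp [ChevalleyDatum.x, not_lt.2 hr]), mul_one,
        mul_inv_cancel]
      exact one_mem _
  | one => rw [mul_one, mul_inv_cancel]; exact one_mem _
  | mul x y _ _ hx hy =>
    rw [show torusHom D F c * (x * y) * (torusHom D F c)⁻¹ = torusHom D F c * x * (torusHom D F c)⁻¹ *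
      (torusHom D F c * y * (torusHom D F c)⁻¹) by group]
    exact mul_mem hx hy
  | inv x _ hx =>
    rw [show torusHom D F c * x⁻¹ * (torusHom D F c)⁻¹ =
      (torusHom D F c * x * (torusHom D F c)⁻¹)⁻¹ by group]
    exact inv_mem hx

/-- A fixed element of `p`-power order lies in the elementary subgroup over the fixed field. -/
theorem pElement_mem_fixElem (h : Full D A) {p : ℕ} [Fact p.Prime] [CharP F p] {g : GL D.Idx F}
    (hg : g ∈ D.group F) (hfix : frob φ g = g) {k : ℕ} (hgp : g ^ p ^ k = 1) :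
    g ∈ fixElem h.cert φ := by
  classical
  obtain ⟨e, he, c, hc, rfl⟩ := exists_fixElem_torus h hg hfix
  set t := torusHom D F c
  set m := Fintype.card F - 1
  have hpow : ∀ j : ℕ, ∃ e' ∈ fixElem h.cert φ, (e * t) ^ j = e' * t ^ j := by
    intro j
    induction j with
    | zero => exact ⟨1, one_mem _, by simp⟩
    | succ j ih =>
      obtain ⟨e', he', e1⟩ := ih
      refine ⟨e * (t * e' * t⁻¹), mul_mem he (torus_conj_fixElem h hc he'), ?_⟩
      rw [pow_succ', e1, pow_succ']
      group
  have htm : t ^ m = 1 := by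
    rw [← map_pow, show c ^ m = 1 from funext fun i => Units.ext (by
      simpa using FiniteField.pow_card_sub_one_eq_one (c i : F) (c i).ne_zero), map_one]
  obtain ⟨e', he', e1⟩ := hpow m
  rw [htm, mul_one] at e1
  have hmem : (e * t) ^ m ∈ fixElem h.cert φ := e1 ▸ he'
  have hcop : Nat.Coprime m (p ^ k) := by
    refine Nat.Coprime.pow_right _ (((Fact.out : p.Prime).coprime_iff_not_dvd).2 fun hd => ?_).symm
    have h1 : (m : F) = 0 := (CharP.cast_eq_zero_iff F p m).2 hd
    rw [Nat.cast_sub Fintype.card_pos, FiniteField.cast_card_eq_zero, Nat.cast_one, zero_sub,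
      neg_eq_zero] at h1
    exact one_ne_zero h1
  rw [show e * t = ((e * t) ^ m) ^ Nat.gcdA m (p ^ k) by
    conv_lhs => rw [← pow_one (e * t), ← hcop.gcd_eq_one, ← zpow_natCast, Nat.gcd_eq_gcd_ab,
      zpow_add, zpow_mul, zpow_mul, zpow_natCast, zpow_natCast, hgp, one_zpow, mul_one]]
  exact zpow_mem hmem _

end CfsgLib.ClassK.Subfield
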