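import Cfsg.Agent.Lib.ClassK.Subfield.Degree
import Cfsg.Agent.Lib.ClassK.Subfield.FixElem

/-!
The part of `H` preserving the filtration of a coweight consists of fixed points, once the
unipotent elements of `H` in `U` are fixed: an element of degree zero fixing all root vectors of
the radical is trivial.
-/

set_option autoImplicit false
set_option linter.unusedSectionVars false

open Matrix

namespace CfsgLib.ClassK.Subfield

open Cfsg.Lie CfsgLib.Chevalley CfsgLib.ClassK.Grading CfsgLib.ClassK.BorelTits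

variable {D : ChevalleyDatum} {A : Aux} {F : Type*} [Field F] [Fintype F]

theorem val_comb (h : Full D A) (x : Fin D.rank → ℝ) {r s q : ℕ} {a b : ℤ}
    (e : ∀ k < D.rank, crd A k q = a * crd A k r + b * crd A k s) :
    val D A x q = (a : ℝ) * val D A x r + (b : ℝ) * val D A x s := by
  simp only [val, Finset.mul_sum, ← Finset.sum_add_distrib]
  exact Finset.sum_congr rfl fun i _ => by rw [e i i.isLt]; push_cast; ring

theorem levSet_closed (h : Full D A) (x : Fin D.rank → ℝ) : IsClosedRoots D (levSet D A x) := by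
  refine ⟨fun r hr => hr.1, fun r hr s hs _ c hc => ⟨(h.toStd.lt_commTerms hr.1 hs.1 hc).1, ?_⟩⟩
  obtain ⟨-, i, j, -, -, e⟩ := h.commTerms_crd hr.1.1 hs.1.1 hc
  rw [val_comb h x e, hr.2, hs.2, mul_zero, mul_zero, add_zero]

theorem val_pos_of_crd (h : Full D A) {x : Fin D.rank → ℝ} (hx : IsDominant x) {r : ℕ}
    (hr : D.IsPosRoot r) {i : Fin D.rank} (hi : 0 < x i) (hri : 0 < crd A i r) :
    0 < val D A x r := by
  refine Finset.sum_pos' (fun j _ => mul_nonneg ?_ (hx j)) ⟨i, Finset.mem_univ i, mul_pos ?_ hi⟩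
  · exact_mod_cast h.crd_nonneg hr j.isLt
  · exact_mod_cast hri

theorem root_ext (h : Full D A) {r s : Fin D.nroots}
    (e : ∀ k < D.rank, crd A k r = crd A k s) : r = s := by
  refine Fin.ext (h.pos.phi_inj r.isLt s.isLt ?_)
  unfold phi
  exact congrArg List.sum (List.map_congr_left fun i hi => by rw [e i (List.mem_range.1 hi)])

theorem chi_mul_of_crd (h : Full D A) {r s q : Fin D.nroots}
    (e : ∀ k < D.rank, crd A k q = crd A k r + crd A k s) (c : Fin D.rank → Fˣ) :
    chi D q c = chi D r c * chi D s c := by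
  show ∏ k : Fin D.rank, c k ^ D.cartan k q =
    (∏ k : Fin D.rank, c k ^ D.cartan k r) * ∏ k : Fin D.rank, c k ^ D.cartan k s
  rw [← Finset.prod_mul_distrib]
  refine Finset.prod_congr rfl fun k _ => ?_
  rw [← _root_.zpow_add, cartan_eq_sum h k q, cartan_eq_sum h k r, cartan_eq_sum h k s,
    ← Finset.sum_add_distrib]
  congr 1
  exact Finset.sum_congr rfl fun j _ => by rw [e j j.isLt, add_mul]

theorem eq_one_of_chi (h : Full D A) {c : Fin D.rank → Fˣ}
    (hc : ∀ j : Fin D.rank, chi D (D.simple j) c = 1) : torusHom D F c = 1 := by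
  have hall : ∀ s : Fin D.nroots, chi D s c = 1 := by
    intro s
    refine h.root_induction (P := fun s => chi D s c = 1) hc (fun i s ih => ?_) s
    show ∏ k : Fin D.rank, c k ^ D.cartan k (D.reflectRoot i s) = 1
    have e : ∀ k : Fin D.rank, D.cartan k (D.reflectRoot i s) =
        D.cartan k s - D.cartan i s * D.cartan k (D.simple i) := fun k =>
      ((refl_spec h.cert i.isLt s.isLt).2.2.2.2.2.2.2 k k.isLt).1
    simp only [e, _root_.zpow_sub, mul_comm (D.cartan i s), _root_.zpow_mul,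
      Finset.prod_mul_distrib, Finset.prod_inv_distrib, Finset.prod_zpow]
    rw [show (∏ k : Fin D.rank, c k ^ D.cartan k s) = 1 from ih,
      show (∏ k : Fin D.rank, c k ^ D.cartan k (D.simple i)) = 1 from hc i]
    simp
  refine Units.ext ?_
  rw [coe_torusHom, Units.val_one, ← Matrix.diagonal_one]
  congr 1
  funext a
  rcases a with j | s
  · rfl
  · simp [hall s]

/-- A unipotent element of the Levi part fixing the root vectors of the radical is trivial. -/
theorem eq_one_of_fix_lev {T : Tbl} {h : Full D A} (P : Props h T) {x : Fin D.rank → ℝ}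
    (hx : IsDominant x) {i : Fin D.rank} (hi : 0 < x i) {u : GL D.Idx F}
    (hu : u ∈ rootsU D F (levSet D A x))
    (hfix : ∀ b : Fin D.nroots, (b : ℕ) ∈ radSet D A x → ∀ a,
      (u : Matrix D.Idx D.Idx F) a (Sum.inr b) = if a = Sum.inr b then 1 else 0) : u = 1 := by
  suffices key : ∀ m ≤ D.nroots, ∀ u ∈ rootsU D F (levSet D A x ∩ Set.Ici (D.nroots - m)),
      (∀ b : Fin D.nroots, (b : ℕ) ∈ radSet D A x → ∀ a,
        (u : Matrix D.Idx D.Idx F) a (Sum.inr b) = if a = Sum.inr b then 1 else 0) → u = 1 by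
    exact key D.nroots le_rfl u
      (rootsU_mono (T := levSet D A x ∩ Set.Ici (D.nroots - D.nroots)) (fun r hr => ⟨hr, by simp⟩) hu)
      hfix
  intro m
  induction m with
  | zero => exact fun _ u hu _ => rootsU_inter_empty h.cert (fun r hr => hr.1.1) (by simp) hu
  | succ m ih =>
    intro hm u hu hfix
    set k := D.nroots - (m + 1) with hk
    have hk1 : D.nroots - m = k + 1 := by omega
    by_cases hkQ : k ∈ levSet D A x
    swap
    · refine ih (by omega) u (rootsU_mono (T := levSet D A x ∩ Set.Ici (D.nroots - m)) ?_ hu) hfix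
      intro r hr
      refine ⟨hr.1, ?_⟩
      rw [hk1]
      exact Nat.succ_le_of_lt (lt_of_le_of_ne hr.2 fun e => hkQ (e ▸ hr.1))
    obtain ⟨t, v, hv, rfl⟩ := split_at h (levSet_closed h x) hkQ hu
    obtain ⟨hkpos, hk0⟩ := hkQ
    rcases P.lead k hkpos i i.isLt with e | ⟨b, e, hb, hbi, heb, hphi, hcoef, hbk, hbk'⟩
    · refine absurd hk0 (ne_of_gt ?_)
      exact val_pos_of_crd h hx hkpos hi e
    have hbP : (b : ℕ) ∈ radSet D A x := ⟨hb, val_pos_of_crd h hx hb hi hbi⟩
    have hv1 := raiseBy_rootsU h.toStd (fun r hr => hr.1.1) (d := phi D A k + 1)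
      (by have := h.pos.phi_pos hkpos; omega)
      (fun r hr => by have := h.pos.phi_lt (u := k) (v := r) hr.2 hr.1.1.1; omega) hv
    have hx1 := raiseBy_x h.toStd hkpos (le_refl (phi D A k)) t
    have hkp := h.pos.phi_pos hkpos
    have hvb : (v : Matrix D.Idx D.Idx F) (Sum.inr b) (Sum.inr b) = 1 := by
      by_contra hne
      have := hv1 (Sum.inr b) (Sum.inr b)
        (by rw [Matrix.sub_apply, Matrix.one_apply_eq]; exact sub_ne_zero.2 hne)
      omega
    have hent : ((xG h.cert k t * v : GL D.Idx F) : Matrix D.Idx D.Idx F) (Sum.inr e) (Sum.inr b) =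
        D.x F k t (Sum.inr e) (Sum.inr b) := by
      rw [Units.val_mul, coe_xG, Matrix.mul_apply, Finset.sum_eq_single (Sum.inr b : D.Idx),
        hvb, mul_one]
      · intro a _ hab
        by_contra hne
        have h1 := hv1 a (Sum.inr b) (by
          rw [Matrix.sub_apply, Matrix.one_apply_ne hab, sub_zero]; exact right_ne_zero_of_mul hne)
        have h2 : wt D (phi D A) a ≤ wt D (phi D A) (Sum.inr e) := by
          by_cases hae : Sum.inr e = a
          · rw [hae]
          · have := hx1 (Sum.inr e) a (by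
              rw [Matrix.sub_apply, Matrix.one_apply_ne hae, sub_zero]
              exact left_ne_zero_of_mul hne)
            omega
        simp only [wt, Sum.elim_inr] at h1 h2
        omega
      · simp
    have hent2 : D.x F k t (Sum.inr e) (Sum.inr b) = t ∨
        D.x F k t (Sum.inr e) (Sum.inr b) = -t := by
      rw [x_eq_xR D F hkpos.1]
      have h1 : b ≠ (⟨k, hkpos.1⟩ : Fin D.nroots) := fun e' => hbk (congrArg Fin.val e')
      have h2 : ¬ (b : ℕ) = D.negIdx.getD k 0 := hbk'
      simp only [xR, Matrix.of_apply, if_neg h1, if_neg h2, if_neg heb, zero_add]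
      rcases hcoef with hc | hc <;> simp [hc]
    have ht : t = 0 := by
      have := hfix b hbP (Sum.inr e)
      rw [hent, if_neg (fun e' => heb (Sum.inr.inj e'))] at this
      rcases hent2 with e2 | e2 <;> rw [e2] at this
      · exact this
      · exact neg_eq_zero.1 this
    subst ht
    rw [xG_zero, one_mul] at hfix ⊢
    exact ih (by omega) v (by rw [hk1]; exact hv) hfix

/-- An element preserving the filtration both ways and fixing the root vectors of the radical
is trivial. -/
theorem eq_one_of_fix {T : Tbl} {h : Full D A} (P : Props h T) {x : Fin D.rank → ℝ}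
    (hx : IsDominant x) (hx0 : x ≠ 0) {g : GL D.Idx F} (hg : InStab D A x g)
    (hg' : Deg (valI D A (-x)) 0 (g : Matrix D.Idx D.Idx F))
    (hfix : ∀ b : Fin D.nroots, (b : ℕ) ∈ radSet D A x → ∀ a,
      (g : Matrix D.Idx D.Idx F) a (Sum.inr b) = if a = Sum.inr b then 1 else 0) : g = 1 := by
  classical
  obtain ⟨i, hi⟩ : ∃ i, 0 < x i := by
    by_contra hno
    push Not at hno
    exact hx0 (funext fun i => le_antisymm (hno i) (hx i))
  obtain ⟨aU, haU, aL, haL, n, hn, σ, η, hA, hpull, bL, hbL, bU, hbU, e, hl, hl', -⟩ :=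
    exists_levi h hx hg
  obtain ⟨δ, hδ, -, hδr⟩ := exists_small_bound (A := A) x one_pos
  have hPd : ∀ u ∈ rootsU D F (radSet D A x),
      Deg (valI D A x) δ ((u : Matrix D.Idx D.Idx F) - 1) := fun u hu =>
    deg_rootsU h.cert (fun r hr => hr.1.1) hδ.le (fun r hr => hδr ⟨r, hr.1.1⟩ hr.2) hu
  have hgl : g = aL * n * bL := by
    refine Units.ext (sub_eq_zero.1 (eq_zero_of_deg_opp (c := δ) (d := 0) ?_ (Deg.sub hg' hl')
      (valI_neg x) (by linarith)))
    set L : Matrix D.Idx D.Idx F := ((aL * n * bL : GL D.Idx F) : Matrix D.Idx D.Idx F) with hL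
    have hgm : (g : Matrix D.Idx D.Idx F) = (aU : Matrix D.Idx D.Idx F) * L * bU := by
      rw [hL, e, Units.val_mul, Units.val_mul]
    have h1 : (g : Matrix D.Idx D.Idx F) - L = ((aU : Matrix D.Idx D.Idx F) - 1) * L * bU +
        L * ((bU : Matrix D.Idx D.Idx F) - 1) := by
      rw [hgm]
      noncomm_ring
    rw [h1]
    refine Deg.add ?_ ?_
    · have h2 := ((hPd _ haU).mul hl.2.1).mul (deg_of_sub (hPd _ hbU) hδ.le)
      rwa [← hL, add_zero, add_zero] at h2
    · have h2 := hl.2.1.mul (hPd _ hbU)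
      rwa [← hL, zero_add] at h2
  have hraise : ∀ u ∈ rootsU D F (levSet D A x),
      RaiseBy (wt D (phi D A)) 1 (u : Matrix D.Idx D.Idx F) := fun u hu =>
    raiseBy_posU h (rootsU_mono (T := {r | D.IsPosRoot r}) (fun r hr => hr.1) hu)
  have hdiag : ∀ u ∈ rootsU D F (levSet D A x), ∀ b,
      (u : Matrix D.Idx D.Idx F) b b = 1 := by
    intro u hu b
    by_contra hne
    have := hraise u hu b b (by rw [Matrix.sub_apply, Matrix.one_apply_eq]; exact sub_ne_zero.2 hne)
    omega
  have hentry : ∀ (b s : Fin D.nroots), (b : ℕ) ∈ radSet D A x →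
      η s * (bL : Matrix D.Idx D.Idx F) (Sum.inr s) (Sum.inr b) =
        ((aL⁻¹ : GL D.Idx F) : Matrix D.Idx D.Idx F) (Sum.inr (σ s)) (Sum.inr b) := by
    intro b s hb
    have h1 : ((aL⁻¹ * g : GL D.Idx F) : Matrix D.Idx D.Idx F) (Sum.inr (σ s)) (Sum.inr b) =
        ((n * bL : GL D.Idx F) : Matrix D.Idx D.Idx F) (Sum.inr (σ s)) (Sum.inr b) := by
      rw [hgl, show aL⁻¹ * (aL * n * bL) = n * bL by group]
    rw [Units.val_mul, Units.val_mul, Matrix.mul_apply, Matrix.mul_apply,
      Finset.sum_eq_single (Sum.inr b : D.Idx), Finset.sum_eq_single (Sum.inr s : D.Idx)] at h1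
    · rw [hfix b hb, if_pos rfl, mul_one, hA.col, if_pos rfl] at h1
      exact h1.symm
    · intro a _ ha
      rcases a with j | s'
      · rw [hA.row, zero_mul]
      · rw [hA.col, if_neg (fun e' => ha (by rw [σ.injective (Sum.inr.inj e')])), zero_mul]
    · simp
    · intro a _ ha
      rw [hfix b hb, if_neg ha, mul_zero]
    · simp
  have hval : ∀ s : Fin D.nroots, val D A x (σ s : ℕ) = val D A x s := fun s => by
    rw [← val_pull hA, hpull]
  have hposP : ∀ s : Fin D.nroots, 0 < val D A x s → D.IsPosRoot s := fun s hs =>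
    (h.pos.pos_or_neg s.isLt).resolve_right fun hn => by
      have := val_nonneg h hx (h.neg_isPos hn)
      rw [show (D.neg (s : ℕ)) = ((ngR h.cert s : Fin D.nroots) : ℕ) from rfl, val_ngR] at this
      linarith
  have hge : ∀ b : Fin D.nroots, (b : ℕ) ∈ radSet D A x → phi D A b ≤ phi D A (σ.symm b : ℕ) := by
    intro b hb
    have h1 := hentry b (σ.symm b) hb
    rw [Equiv.apply_symm_apply, hdiag _ (inv_mem haL)] at h1
    by_contra hlt
    have hne : (Sum.inr (σ.symm b) : D.Idx) ≠ Sum.inr b := fun e' => hlt (by rw [Sum.inr.inj e'])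
    have := hraise _ hbL (Sum.inr (σ.symm b)) (Sum.inr b) (by
      rw [Matrix.sub_apply, Matrix.one_apply_ne hne, sub_zero]
      exact right_ne_zero_of_mul_eq_one h1)
    simp only [wt, Sum.elim_inr] at this
    omega
  have hfixσ : ∀ b : Fin D.nroots, (b : ℕ) ∈ radSet D A x → σ b = b ∧ η b = 1 := by
    set S := Finset.univ.filter fun b : Fin D.nroots => (b : ℕ) ∈ radSet D A x with hS
    have hmem : ∀ b : Fin D.nroots, b ∈ S → σ b ∈ S ∧ σ.symm b ∈ S := by
      intro b hb
      simp only [hS, Finset.mem_filter, Finset.mem_univ, true_and] at hb ⊢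
      have h1 : 0 < val D A x (σ b : ℕ) := by rw [hval]; exact hb.2
      have h2 : 0 < val D A x (σ.symm b : ℕ) := by
        rw [← hval, Equiv.apply_symm_apply]; exact hb.2
      exact ⟨⟨hposP _ h1, h1⟩, ⟨hposP _ h2, h2⟩⟩
    have hsum : ∑ b ∈ S, phi D A (σ.symm b : ℕ) = ∑ b ∈ S, phi D A (b : ℕ) :=
      Finset.sum_nbij' σ.symm σ (fun b hb => (hmem b hb).2) (fun b hb => (hmem b hb).1)
        (fun b _ => σ.apply_symm_apply b) (fun b _ => σ.symm_apply_apply b) (fun b _ => rfl)
    intro b hb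
    have hbS : b ∈ S := by simp [hS, hb]
    have heq := (Finset.sum_eq_sum_iff_of_le (fun c hc => hge c (by simpa [hS] using hc))).1
      hsum.symm b hbS
    have hσ : σ.symm b = b := Fin.ext (h.pos.phi_inj (σ.symm b).isLt b.isLt heq.symm)
    have h1 := hentry b b hb
    have hσ' : σ b = b := by conv_lhs => rw [← hσ, Equiv.apply_symm_apply]
    rw [hσ', hdiag _ (inv_mem haL), hdiag _ hbL, mul_one] at h1
    exact ⟨hσ', h1⟩
  have hsimp : ∀ j : Fin D.rank, (D.simple j) ∈ radSet D A x ∨
      ∃ r q : Fin D.nroots, (r : ℕ) ∈ radSet D A x ∧ (q : ℕ) ∈ radSet D A x ∧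
        ∀ l < D.rank, crd A l q = crd A l (smp h.cert j) + crd A l r := by
    intro j
    by_cases hij : i = j
    · subst hij
      left
      refine ⟨h.simple_pos i.isLt, ?_⟩
      rw [val_simple h x i]
      exact hi
    obtain ⟨r, q, hr, hri, hq, hqp, hcr⟩ := P.span i i.isLt j j.isLt (fun e' => hij (Fin.ext e'))
    refine Or.inr ⟨⟨r, hr.1⟩, ⟨q, hq⟩, ⟨hr, ?_⟩, ⟨hqp, ?_⟩, hcr⟩
    · exact val_pos_of_crd h hx hr hi hri
    · refine val_pos_of_crd h hx hqp hi ?_
      show 0 < crd A i q
      have h1 := hcr i i.isLt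
      have h2 := h.crd_nonneg (h.simple_pos j.isLt) i.isLt
      omega
  have hσsimple : ∀ j : Fin D.rank, σ (smp h.cert j) = smp h.cert j := by
    intro j
    rcases hsimp j with hj | ⟨r, q, hr, hq, hcr⟩
    · exact (hfixσ (smp h.cert j) hj).1
    refine root_ext h fun l hl => ?_
    have h1 := hA.crd_comb h (r := smp h.cert j) (s := r) (q := q) (a := 1) (b := 1)
      (fun k hk => by rw [hcr k hk]; ring) hl
    rw [(hfixσ q hq).1, (hfixσ r hr).1, hcr l hl, one_mul, one_mul] at h1
    linarith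
  have hnd := mem_diagonal_of_perm h hn hA fun j => by
    rw [hσsimple j]; exact h.simple_pos j.isLt
  obtain ⟨c, hc⟩ : n ∈ (torusHom D F).range := by rwa [← diagonalSubgroup_eq_range h]
  have hσ1 : σ = 1 := hA.perm_eq (hc ▸ acts_torus h.cert c)
  have hchi : ∀ b : Fin D.nroots, (b : ℕ) ∈ radSet D A x → chi D b c = 1 := by
    intro b hb
    have h1 := hA.col (Sum.inr b) b
    rw [← hc, coe_torusHom, Matrix.diagonal_apply_eq, hσ1] at h1
    simp only [Sum.elim_inr, Equiv.Perm.one_apply, if_true] at h1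
    rw [(hfixσ b hb).2] at h1
    exact Units.ext h1
  have hn1 : n = 1 := by
    rw [← hc]
    refine eq_one_of_chi h fun j => ?_
    rcases hsimp j with hj | ⟨r, q, hr, hq, hcr⟩
    · exact hchi (smp h.cert j) hj
    have h1 := chi_mul_of_crd (F := F) h hcr c
    rw [hchi q hq, hchi r hr, mul_one] at h1
    exact h1.symm
  rw [hgl, hn1, mul_one] at hfix ⊢
  exact eq_one_of_fix_lev P hx hi (mul_mem haL hbL) hfix

variable {φ : F →+* F} {H : Subgroup (GL D.Idx F)}

/-- The elements of `p`-power order of `H` preserving the filtration of a non-zero dominant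
coweight are fixed, provided those of `H` in `U` are. -/
theorem frob_eq_of_inStab {T : Tbl} {h : Full D A} (P : Props h T) (hS : Setting h φ H)
    (hU : ∀ y ∈ H, y ∈ D.posUnipotent F → frob φ y = y)
    {x : Fin D.rank → ℝ} (hx : IsDominant x) (hx0 : x ≠ 0) {p : ℕ} [Fact p.Prime] [CharP F p]
    {g : GL D.Idx F} (hgp : ∃ k, g ^ p ^ k = 1) (hgH : g ∈ H)
    (hg : InStab D A x g) : frob φ g = g := by
  obtain ⟨aU, haU, aL, haL, n, hn, σ, η, hA, hpull, bL, hbL, bU, hbU, e, hl, hl', hl'i⟩ :=
    exists_levi h hx hg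
  set l := aL * n * bL with hldef
  obtain ⟨δ, hδ, -, hδr⟩ := exists_small_bound (A := A) x one_pos
  have hPd : ∀ u ∈ rootsU D F (radSet D A x),
      Deg (valI D A x) δ ((u : Matrix D.Idx D.Idx F) - 1) := fun u hu =>
    deg_rootsU h.cert (fun r hr => hr.1.1) hδ.le (fun r hr => hδr ⟨r, hr.1.1⟩ hr.2) hu
  set z := l⁻¹ * aU * l * bU with hz
  have hgz : g = l * z := by rw [hz, e]; group
  have hzG : z ∈ D.group F := mul_mem (mul_mem (mul_mem (inv_mem hl.1)
    (rootsU_le_group h.cert _ haU)) hl.1) (rootsU_le_group h.cert _ hbU)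
  have hz1 : Deg (valI D A x) δ ((z : Matrix D.Idx D.Idx F) - 1) := by
    have h1 := deg_conj_sub hl.2.2 (by rw [inv_inv]; exact hl.2.1) (hPd aU haU)
    rw [inv_inv] at h1
    rw [hz, Units.val_mul]
    exact h1.mul_sub_one (hPd bU hbU) hδ.le
  have hrad : D.unipotentRadical F (zeroSet x) ≤ D.posUnipotent F := by
    refine (Subgroup.closure_le _).2 ?_
    rintro w ⟨r, t, hr, -, hw⟩
    rw [(eq_xG_iff h.cert).1 hw]
    exact xG_mem_rootsU (S := {r | D.IsPosRoot r}) h.cert hr t
  have hlG' := frob_mem_group h.cert φ hl.1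
  set lam := l⁻¹ * frob φ l with hlam
  have hlamG : lam ∈ D.group F := mul_mem (inv_mem hl.1) hlG'
  have hlam0 : Deg (valI D A x) 0 (lam : Matrix D.Idx D.Idx F) := by
    simpa [hlam] using hl.2.2.mul (deg_frob_zero φ hl.2.1)
  have hlam0' : Deg (valI D A (-x)) 0 (lam : Matrix D.Idx D.Idx F) := by
    simpa [hlam] using hl'i.mul (deg_frob_zero φ hl')
  have hlamI : InStab D A x lam := ⟨hlamG, hlam0, by
    rw [hlam, _root_.mul_inv_rev, inv_inv, ← map_inv]
    simpa using (deg_frob_zero φ hl.2.2).mul hl.2.1⟩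
  set d := g⁻¹ * frob φ g with hd
  have hdl : Deg (valI D A x) δ ((d : Matrix D.Idx D.Idx F) - (lam : Matrix D.Idx D.Idx F)) := by
    have e1 : d = z⁻¹ * lam * frob φ z := by rw [hd, hgz, hlam, map_mul]; group
    have hz' : Deg (valI D A x) δ (((z⁻¹ : GL D.Idx F) : Matrix D.Idx D.Idx F) - 1) := by
      rw [hz, _root_.mul_inv_rev, Units.val_mul]
      refine (hPd _ (inv_mem hbU)).mul_sub_one ?_ hδ.le
      have h1 := deg_conj_sub hl.2.2 (by rw [inv_inv]; exact hl.2.1) (hPd _ (inv_mem haU))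
      rw [inv_inv] at h1
      rwa [show (l⁻¹ * aU * l)⁻¹ = l⁻¹ * aU⁻¹ * l by group]
    rw [e1, Units.val_mul, Units.val_mul,
      show ∀ a b c : Matrix D.Idx D.Idx F, a * b * c - b = (a - 1) * b * c + b * (c - 1) from
        fun a b c => by noncomm_ring]
    refine Deg.add ?_ ?_
    · simpa using (hz'.mul hlam0).mul (deg_of_sub (deg_frob φ hz1) hδ.le)
    · simpa using hlam0.mul (deg_frob φ hz1)
  have hfix : lam = 1 := by
    refine eq_one_of_fix P hx hx0 hlamI hlam0' fun b hb => ?_
    refine col_of_commute h hlamG hlam0 hb.2 (coef_commute h hδ hlam0 hlam0' hdl (hδr b hb.2) ?_)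
    set y := xG h.cert (b : ℕ) (1 : F) with hy
    have hyU : y ∈ rootsU D F (radSet D A x) := xG_mem_rootsU h.cert hb _
    have hyfix : frob φ y = y := by rw [hy, frob_xG, map_one]
    have hyH : y ∈ H := hS.mem (xG_one_mem_fixElem h.cert φ _)
    have hcH : g * y * g⁻¹ ∈ H := mul_mem (mul_mem hgH hyH) (inv_mem hgH)
    have hcU : g * y * g⁻¹ ∈ D.posUnipotent F := hrad (mem_radical_of_deg h hx hδ (hS.leG hcH)
      (deg_conj_sub hg.2.1 hg.2.2 (hPd y hyU)))
    have := hU _ hcH hcU
    rw [map_mul, map_mul, hyfix, map_inv] at this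
    show d * y = y * d
    rw [hd]
    calc g⁻¹ * frob φ g * y = g⁻¹ * (frob φ g * y * (frob φ g)⁻¹) * frob φ g := by group
      _ = g⁻¹ * (g * y * g⁻¹) * frob φ g := by rw [this]
      _ = y * (g⁻¹ * frob φ g) := by group
  have hlfix : frob φ l = l := (inv_mul_eq_one.1 hfix).symm
  have hzH : z ∈ H := by
    rw [show z = l⁻¹ * g by rw [hgz]; group]
    obtain ⟨k, hk⟩ := hgp
    -- the Levi part has `p`-power order
    have hgl0 : Deg (valI D A x) δ ((g : Matrix D.Idx D.Idx F) - (l : Matrix D.Idx D.Idx F)) := by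
      rw [hgz, Units.val_mul, show ∀ a b : Matrix D.Idx D.Idx F, a * b - a = a * (b - 1) from
        fun a b => by noncomm_ring]
      simpa using hl.2.1.mul hz1
    have hpow : ∀ n : ℕ, Deg (valI D A x) 0 ((g ^ n : GL D.Idx F) : Matrix D.Idx D.Idx F) ∧
        Deg (valI D A x) 0 ((l ^ n : GL D.Idx F) : Matrix D.Idx D.Idx F) ∧
        Deg (valI D A (-x)) 0 ((l ^ n : GL D.Idx F) : Matrix D.Idx D.Idx F) ∧
        Deg (valI D A x) δ (((g ^ n : GL D.Idx F) : Matrix D.Idx D.Idx F) -
          ((l ^ n : GL D.Idx F) : Matrix D.Idx D.Idx F)) := by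
      intro n
      induction n with
      | zero =>
        simp only [pow_zero, Units.val_one, sub_self]
        exact ⟨deg_one, deg_one, deg_one, fun a b hne => absurd (Matrix.zero_apply a b) hne⟩
      | succ n ih =>
        obtain ⟨i1, i2, i3, i4⟩ := ih
        simp only [pow_succ, Units.val_mul]
        refine ⟨by simpa using i1.mul hg.2.1, by simpa using i2.mul hl.2.1,
          by simpa using i3.mul hl', ?_⟩
        rw [show ∀ a b c d : Matrix D.Idx D.Idx F, a * b - c * d = (a - c) * b + c * (b - d) from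
          fun a b c d => by noncomm_ring]
        exact Deg.add (by simpa using i4.mul hg.2.1) (by simpa using i2.mul hgl0)
    obtain ⟨-, -, i3, i4⟩ := hpow (p ^ k)
    rw [hk, Units.val_one] at i4
    have hlp : l ^ p ^ k = 1 := Units.ext (sub_eq_zero.1 (by
      rw [Units.val_one]
      exact eq_zero_of_deg_opp (v := valI D A x) (w := valI D A (-x)) (d := 0) i4
        (Deg.sub deg_one i3) (valI_neg x) (by linarith))).symm
    exact mul_mem (inv_mem (hS.mem (pElement_mem_fixElem h hl.1 hlfix hlp))) hgH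
  rw [hgz, map_mul, hlfix, hU z hzH (hrad (mem_radical_of_deg h hx hδ hzG hz1))]

end CfsgLib.ClassK.Subfield
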