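import Cfsg.Agent.Lib.ClassK.Subfield.TopGrade
import Cfsg.Agent.Lib.ClassK.Subfield.Stab
import Cfsg.Agent.Lib.ClassK.Subfield.Coord
import Cfsg.Agent.Lib.ClassK.Subfield.Fill

/-!
No non-trivial element commutes with all conjugates of the highest root element under the
elementary group over a fixed field.
-/

set_option autoImplicit false
set_option linter.unusedSectionVars false

namespace CfsgLib.ClassK.Subfield

open Cfsg.Lie CfsgLib.Chevalley CfsgLib.ClassK.Grading

variable {D : ChevalleyDatum} {A : Aux} {F : Type*} [Field F] {φ : F →+* F}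

/-- The subgroup generated by the conjugates of the highest root element. -/
def rootClosure (hC : Cert D A) (φ : F →+* F) : Subgroup (GL D.Idx F) :=
  Subgroup.closure {w | ∃ a ∈ fixElem hC φ, w = a * xG hC (topRoot D) (1 : F) * a⁻¹}

theorem rootClosure_conj (hC : Cert D A) {a w : GL D.Idx F} (ha : a ∈ fixElem hC φ)
    (hw : w ∈ rootClosure hC φ) : a * w * a⁻¹ ∈ rootClosure hC φ := by
  induction hw using Subgroup.closure_induction with
  | mem w hw =>
    obtain ⟨b, hb, rfl⟩ := hw
    exact Subgroup.subset_closure ⟨a * b, mul_mem ha hb, by group⟩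
  | one => rw [mul_one, mul_inv_cancel]; exact one_mem _
  | mul x y _ _ hx hy =>
    rw [show a * (x * y) * a⁻¹ = a * x * a⁻¹ * (a * y * a⁻¹) by group]
    exact mul_mem hx hy
  | inv x _ hx =>
    rw [show a * x⁻¹ * a⁻¹ = (a * x * a⁻¹)⁻¹ by group]
    exact inv_mem hx

theorem xG_one_mem_rootClosure {T : Tbl} {h : Full D A} (P : Props h T) :
    ∀ {r : ℕ}, r < D.nroots → (r ∈ T.sh → xG h.cert T.s (1 : F) ∈ rootClosure h.cert φ) →
      xG h.cert r (1 : F) ∈ rootClosure h.cert φ := by
  intro r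
  induction hn : D.nroots - r using Nat.strong_induction_on generalizing r with
  | _ n ih =>
    intro hr hs
    rcases P.climb r hr with ⟨rfl, -⟩ | ⟨rfl, hsh⟩ | ⟨i, hi, hlt, hlt', hsh⟩
    · exact Subgroup.subset_closure ⟨1, one_mem _, by simp⟩
    · exact hs hsh
    · have h1 := ih _ (by omega) rfl hlt' (fun e => hs (hsh.1 e))
      obtain ⟨ε, hε, hc⟩ := nG_conj_sign (F := F) h ⟨i, hi⟩ ⟨r, hr⟩
      have hn' : nG h.cert (D.simple i) (1 : F) ∈ fixElem h.cert φ :=
        nG_mem_fixElem h.cert _ (map_one φ)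
      rw [← xG_sign_iff (H := rootClosure h.cert φ) h (D.reflectRoot i r) hε, ← hc] at h1
      have := rootClosure_conj h.cert (inv_mem hn') h1
      simpa [mul_assoc] using this

theorem terms_mem_rootClosure (h : Full D A) {r s : ℕ} (hr : r < D.nroots) (hs : s < D.nroots)
    (hne : s ≠ r) (hneg : s ≠ D.neg r) (hsK : xG h.cert s (1 : F) ∈ rootClosure h.cert φ) :
    terms h.cert r s (1 : F) 1 ∈ rootClosure h.cert φ := by
  have e := conj_eq_terms h hr hs hne hneg (1 : F) 1
  rw [← inv_mul_eq_iff_eq_mul] at e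
  rw [← e]
  exact mul_mem (inv_mem hsK) (rootClosure_conj h.cert (xG_one_mem_fixElem h.cert φ r) hsK)

/-- A leading element for every fundamental root in the closure. -/
def HasLead (h : Full D A) (φ : F →+* F) : Prop :=
  ∀ i : Fin D.rank, ∃ a : F, a ≠ 0 ∧ ∃ v ∈ rootsU D F
    ({r | D.IsPosRoot r} ∩ Set.Ici (D.simple i + 1)),
      xG h.cert (D.simple i) a * v ∈ rootClosure h.cert φ

theorem hasLead_of_one {T : Tbl} {h : Full D A} (P : Props h T) (i : Fin D.rank)
    (hi : D.simple i ∈ T.sh → xG h.cert T.s (1 : F) ∈ rootClosure h.cert φ) :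
    ∃ a : F, a ≠ 0 ∧ ∃ v ∈ rootsU D F ({r | D.IsPosRoot r} ∩ Set.Ici (D.simple i + 1)),
      xG h.cert (D.simple i) a * v ∈ rootClosure h.cert φ :=
  ⟨1, one_ne_zero, 1, one_mem _, by
    rw [mul_one]; exact xG_one_mem_rootClosure P (h.cert.wf.simple_lt i i.isLt) hi⟩

/-- The coordinate of a leading element at its fundamental root. -/
theorem coord_lead (h : Full D A) (i j : Fin D.rank) (a : F) {v : GL D.Idx F}
    (hv : v ∈ rootsU D F ({r | D.IsPosRoot r} ∩ Set.Ici (D.simple i + 1))) :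
    coord h.cert j i (xG h.cert (D.simple i) a * v) = (cor D (smp h.cert i : ℕ) j : F) * a := by
  have hz : coord h.cert j i v = 0 ∧ v ∈ D.posUnipotent F := by
    induction hv using rootsU_induction h.cert with
    | h1 => exact ⟨by simp [coord], one_mem _⟩
    | hx r hr t =>
      have hr' : D.simple i + 1 ≤ r := hr.2
      refine ⟨?_, xG_mem_rootsU (S := {r | D.IsPosRoot r}) h.cert hr.1 t⟩
      rw [coord_xG h j i ⟨r, hr.1.1⟩, if_neg]
      intro e
      have := congrArg Fin.val e
      simp only [smp] at this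
      omega
    | hmul x y _ _ hx hy =>
      exact ⟨by rw [coord_mul h j i hx.2 hy.2, hx.1, hy.1, add_zero], mul_mem hx.2 hy.2⟩
  rw [coord_mul h j i (xG_mem_rootsU (S := {r | D.IsPosRoot r}) h.cert (h.simple_pos i.isLt) a) hz.2,
    hz.1, add_zero, show xG h.cert (D.simple i) a = xG h.cert (smp h.cert i : ℕ) a from rfl,
    coord_xG h, if_pos rfl]

/-- The centralizer is trivial. -/
theorem eq_one_of_commute_rootClosure [Fintype F] (h : Full D A) (hlead : HasLead h φ) {c : GL D.Idx F}
    (hcG : c ∈ D.group F) (hc : ∀ w ∈ rootClosure h.cert φ, Commute c w) : c = 1 := by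
  classical
  -- every such element lies in `U`
  have key : ∀ d ∈ D.group F, (∀ w ∈ rootClosure h.cert φ, Commute d w) →
      d ∈ D.posUnipotent F := by
    intro d hd hcd
    obtain ⟨u, hu, n, hn, σ, η, hA, u', hu', rfl⟩ := exists_canonical h hd
    have hu'U : u' ∈ D.posUnipotent F :=
      rootsU_mono (T := {r | D.IsPosRoot r}) (fun r hr => hr.1) hu'
    have hσ : ∀ i : Fin D.rank, D.IsPosRoot (σ (smp h.cert i) : ℕ) := by
      intro i
      obtain ⟨a, ha, v, hv, hyK⟩ := hlead i
      have hyU : xG h.cert (D.simple i) a * v ∈ D.posUnipotent F :=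
        mul_mem (xG_mem_rootsU (S := {r | D.IsPosRoot r}) h.cert (h.simple_pos i.isLt) _)
          (rootsU_mono (T := {r | D.IsPosRoot r}) (fun r hr => hr.1) hv)
      obtain ⟨j, hj, hne⟩ := h.pos.cor_primitive h.cert (K := F) (smp h.cert i).isLt
      have hco := coord_lead h i ⟨j, hj⟩ a hv
      set y := xG h.cert (D.simple i) a * v
      have hz : n * (u' * y * u'⁻¹) * n⁻¹ = u⁻¹ * y * u := by
        have e := (hcd y hyK).eq
        calc n * (u' * y * u'⁻¹) * n⁻¹ = u⁻¹ * (u * n * u' * y) * u'⁻¹ * n⁻¹ := by group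
          _ = u⁻¹ * (y * (u * n * u')) * u'⁻¹ * n⁻¹ := by rw [e]
          _ = u⁻¹ * y * u := by group
      by_contra hneg
      -- split `u' y u'⁻¹` along the sign of `σ`
      set P : Set ℕ := {r | ∀ s : Fin D.nroots, (s : ℕ) = r → D.IsPosRoot (σ s)}
      obtain ⟨p1, hp1, p2, hp2, e12⟩ := split_pos h.toStd (P := P) (Q := invSet D σ)
        (fun r hr => by
          rcases h.pos.pos_or_neg (σ ⟨r, hr.1⟩).isLt with hp | hneg'
          · exact Or.inl fun s hs => (show s = ⟨r, hr.1⟩ from Fin.ext hs) ▸ hp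
          · exact Or.inr ⟨hr, ⟨r, hr.1⟩, rfl, hneg'⟩)
        (mul_mem (mul_mem hu'U hyU) (inv_mem hu'U))
      have hp2' : p2 ∈ rootsU D F (invSet D σ) := rootsU_mono (fun r hr => hr.2) hp2
      have hn1 : n * p1 * n⁻¹ ∈ D.posUnipotent F :=
        hA.conj_rootsU (T := {r | D.IsPosRoot r}) (fun s hs => hs.2 s rfl) p1 hp1
      have hp21 : p2 = 1 := by
        obtain ⟨-, -, e3⟩ := canonical_unique h
          (mul_mem hu hn1 : u * (n * p1 * n⁻¹) ∈ D.posUnipotent F)
          (mul_mem hyU hu : y * u ∈ D.posUnipotent F)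
          hn hn hA hA hp2' (one_mem _) (by
            rw [show u * (n * p1 * n⁻¹) * n * p2 = u * n * (p1 * p2) by group, ← e12,
              show u * n * (u' * y * u'⁻¹) = u * (n * (u' * y * u'⁻¹) * n⁻¹) * n by group, hz]
            group)
        exact e3
      rw [hp21, mul_one] at e12
      have hp0 : coord h.cert ⟨j, hj⟩ i p1 = 0 ∧ p1 ∈ D.posUnipotent F := by
        clear e12 hn1
        induction hp1 using rootsU_induction h.cert with
        | h1 => exact ⟨by simp [coord], one_mem _⟩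
        | hx r hr t =>
          refine ⟨?_, xG_mem_rootsU (S := {r | D.IsPosRoot r}) h.cert hr.1 t⟩
          rw [coord_xG h ⟨j, hj⟩ i ⟨r, hr.1.1⟩, if_neg]
          exact fun e => hneg (e ▸ hr.2 ⟨r, hr.1.1⟩ rfl)
        | hmul x y _ _ hx hy =>
          exact ⟨by rw [coord_mul h ⟨j, hj⟩ i hx.2 hy.2, hx.1, hy.1, add_zero], mul_mem hx.2 hy.2⟩
      rw [← e12, coord_conj h ⟨j, hj⟩ i hyU hu'U, hco] at hp0
      exact mul_ne_zero hne ha hp0.1
    have hnd := mem_diagonal_of_perm h hn hA fun j => hσ j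
    obtain ⟨t, rfl⟩ : n ∈ (torusHom D F).range := by rwa [← diagonalSubgroup_eq_range h]
    have hσ1 : σ = 1 := hA.perm_eq (acts_torus h.cert t)
    have hu'1 : u' = 1 := by
      rw [← Subgroup.mem_bot]
      refine (rootsU_le_iff h.cert (K := ⊥)).2 (fun r hr => ?_) hu'
      obtain ⟨hrpos, s, hs, hneg⟩ := hr
      rw [hσ1, Equiv.Perm.one_apply, hs] at hneg
      exact (h.pos_not_neg hrpos hneg).elim
    subst hu'1
    rw [mul_one] at hcd ⊢
    suffices ht : torusHom D F t = 1 by rw [ht, mul_one]; exact hu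
    refine eq_one_of_chi h fun i => ?_
    obtain ⟨a, ha, v, hv, hyK⟩ := hlead i
    obtain ⟨j, hj, hne⟩ := h.pos.cor_primitive h.cert (K := F) (smp h.cert i).isLt
    set T' := torusHom D F t
    have hv' : T' * v * T'⁻¹ ∈ rootsU D F ({r | D.IsPosRoot r} ∩ Set.Ici (D.simple i + 1)) :=
      diagonal_conj_rootsU h _ T' (torus_mem_diagonal h t) v hv
    have hconj : T' * xG h.cert (D.simple i) a * T'⁻¹ =
        xG h.cert (D.simple i) ((chi D (D.simple i) t : F) * a) :=
      (acts_torus h.cert t).conj (smp h.cert i) a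
    have e := (hcd _ hyK).eq
    have e' : u * (xG h.cert (D.simple i) ((chi D (D.simple i) t : F) * a) * (T' * v * T'⁻¹)) * u⁻¹ =
        xG h.cert (D.simple i) a * v := by
      rw [← hconj]
      calc _ = u * T' * (xG h.cert (D.simple i) a * v) * T'⁻¹ * u⁻¹ := by group
        _ = xG h.cert (D.simple i) a * v := by rw [e]; group
    have hyU : xG h.cert (D.simple i) ((chi D (D.simple i) t : F) * a) * (T' * v * T'⁻¹) ∈
        D.posUnipotent F :=
      mul_mem (xG_mem_rootsU (S := {r | D.IsPosRoot r}) h.cert (h.simple_pos i.isLt) _)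
        (rootsU_mono (T := {r | D.IsPosRoot r}) (fun r hr => hr.1) hv')
    have h1 := congrArg (coord h.cert ⟨j, hj⟩ i) e'
    rw [coord_conj h ⟨j, hj⟩ i hyU hu, coord_lead h i _ _ hv', coord_lead h i _ _ hv] at h1
    exact Units.ext (mul_right_cancel₀ ha ((mul_left_cancel₀ hne h1).trans (one_mul a).symm))
  obtain ⟨w, hw, σ, η, hA, hpn, -⟩ := exists_longest_acts h F
  obtain ⟨q, t, ht, rfl⟩ := (mem_monomial_iff h).1 hw
  set n := nW h.cert F q
  have hn : n ∈ fixElem h.cert φ := nW_mem_fixElem h.cert φ q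
  have hd : ∀ w ∈ rootClosure h.cert φ, Commute (n⁻¹ * c * n) w := fun w hw => by
    have h1 := (hc _ (rootClosure_conj h.cert hn hw)).eq
    show _ = _
    calc n⁻¹ * c * n * w = n⁻¹ * (c * (n * w * n⁻¹)) * n := by group
      _ = n⁻¹ * ((n * w * n⁻¹) * c) * n := by rw [h1]
      _ = w * (n⁻¹ * c * n) := by group
  have h1 := key _ (mul_mem (mul_mem (inv_mem (fixElem_le_group h.cert φ hn)) hcG)
    (fixElem_le_group h.cert φ hn)) hd
  have h2 := key c hcG hc
  have h3 : c ∈ D.negUnipotent F := by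
    have ht' := diagonal_conj_rootsU h {r | D.IsPosRoot r} t⁻¹ (inv_mem ht) _ h1
    rw [inv_inv] at ht'
    have := hA.conj_rootsU (T := {r | D.IsNegRoot r}) (fun s hs => hpn s hs) _ ht'
    rwa [show n * t * (t⁻¹ * (n⁻¹ * c * n) * t) * (n * t)⁻¹ = c by group] at this
  rw [← Subgroup.mem_bot, ← borel_inf_negUnipotent h]
  exact ⟨Subgroup.mem_sup_left h2, h3⟩

end CfsgLib.ClassK.Subfield
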