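import Cfsg.Agent.Lib.Chevalley.ExtraData
import Cfsg.Agent.Lib.Chevalley.Weyl

/-!
Table checks for the maximality of subfield subgroups of Chevalley groups: every positive root but
the dominant ones has a unit upward structure constant, every root but the dominant ones climbs,
the highest root grades the roots by its pairing, and the radicals of maximal parabolics detect
all root elements. Searches run along the rows of the chain table.
-/

set_option autoImplicit false
set_option linter.unusedSectionVars false

namespace CfsgLib.ClassK.Subfield

open Cfsg.Lie CfsgLib.Chevalley Sparse

/-- The highest root. -/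
def topRoot (D : ChevalleyDatum) : ℕ := D.nroots - 1

/-- The positive roots as a range. -/
def upper (D : ChevalleyDatum) : List ℕ := List.range' (D.nroots / 2) (D.nroots - D.nroots / 2)

/-- The chain row of a root. -/
def row (D : ChevalleyDatum) (k : ℕ) : List (ℕ × Array (ℕ × ℤ)) := (D.chain.getD k #[]).toList

/-- The first constant of a chain entry has the given absolute value. -/
def headAbs (c : ℕ) (e : ℕ × Array (ℕ × ℤ)) : Bool :=
  match e.2.toList with
  | [] => false
  | q :: _ => Nat.beq q.2.natAbs c

/-- A chain with a positive root whose constant has the given absolute value. -/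
def rowConst (D : ChevalleyDatum) (k c : ℕ) : Bool :=
  (row D k).any fun e => Nat.ble (D.nroots / 2) e.1 && headAbs c e &&
    (D.chainRoot k e.1 1).isSome && Nat.beq (D.chainM k e.1 1).natAbs c

/-- Every positive root but the highest has a unit, or two coprime, upward constants, or is the
exceptional root with constant `c`. -/
noncomputable def termB (D : ChevalleyDatum) (s c : ℕ) : Bool :=
  lall (fun k => Nat.beq k (topRoot D) || rowConst D k 1 || (rowConst D k 2 && rowConst D k 3) ||
    (Nat.beq k s && rowConst D k c)) (upper D)

/-- Each radical has two roots differing by each fundamental root. -/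
noncomputable def spanB (D : ChevalleyDatum) (A : Aux) : Bool :=
  lall (fun j => lall (fun i => Nat.beq i j || (row D (D.simple j)).any fun e =>
    Nat.ble (D.nroots / 2) e.1 && Nat.blt e.1 D.nroots && decide (0 < crd A i e.1) &&
      (D.chainRoot (D.simple j) e.1 1).isSome) (List.range D.rank)) (List.range D.rank)

/-- A positive root outside a radical acts non-trivially on it. -/
noncomputable def leadB (D : ChevalleyDatum) (A : Aux) : Bool :=
  lall (fun k => lall (fun i => decide (0 < crd A i k) || (row D k).any fun e =>
    Nat.ble (D.nroots / 2) e.1 && Nat.blt e.1 D.nroots && decide (0 < crd A i e.1) &&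
      headAbs 1 e && (match e.2.toList with
        | [] => false
        | q :: _ => Nat.blt q.1 D.nroots && !Nat.beq q.1 e.1 &&
          (D.chainRoot k e.1 1 == some q.1) &&
          (D.chainCoeff k e.1 q.1 == [(1, 1)] || D.chainCoeff k e.1 q.1 == [(1, -1)])))
      (List.range D.rank)) (upper D)

/-- Follow a list of reflections. -/
def follow (D : ChevalleyDatum) (q : List ℕ) (r : ℕ) : ℕ :=
  q.foldl (fun u i => D.reflectRoot i u) r

/-- The pairing with the highest root, from its values `P` at the fundamental roots. -/
noncomputable def pairing (D : ChevalleyDatum) (A : Aux) (P : List ℤ) (d : ℕ) : ℤ :=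
  ((List.range D.rank).map fun j => crd A j d * P.getD j 0).sum

/-- The pairing with the highest root grades the positive roots by 0, 1, 2. -/
noncomputable def gradeTopB (D : ChevalleyDatum) (A : Aux) (i : ℕ) (q : List ℕ) (P : List ℤ) :
    Bool :=
  Nat.blt i D.rank && lall (fun a => Nat.blt a D.rank) q &&
  Nat.beq (follow D q (D.simple i)) (topRoot D) &&
  lall (fun j => decide (D.cartan i (follow D q.reverse (D.simple j)) = P.getD j 0))
    (List.range D.rank) &&
  lall (fun d => Nat.beq d (topRoot D) || decide (pairing D A P d = 1) ||
    decide (pairing D A P d = 0)) (upper D) &&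
  decide (pairing D A P (topRoot D) = 2) &&
  (upper D).any fun d => decide (pairing D A P d = 0) && !Nat.beq d (topRoot D)

/-- Every root moves up to the dominant root of its length (`sh` lists the short roots, with
dominant one `s`). -/
noncomputable def climbB (D : ChevalleyDatum) (A : Aux) (s : ℕ) (sh : List ℕ) : Bool :=
  lall (fun r => (Nat.beq r (topRoot D) && !sh.elem r) || (Nat.beq r s && sh.elem r) ||
    (List.range D.rank).any fun i => decide (fCart A i r < 0) && Nat.blt r (D.reflectRoot i r) &&
      Nat.blt (D.reflectRoot i r) D.nroots && (sh.elem (D.reflectRoot i r) == sh.elem r))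
    (List.range D.nroots)

/-- The two lengths are stable under the fundamental reflections. -/
noncomputable def orbitB (D : ChevalleyDatum) (sh : List ℕ) : Bool :=
  lall (fun i => lall (fun r => sh.elem (D.reflectRoot i r) == sh.elem r) (List.range D.nroots))
    (List.range D.rank)

/-- Only the negative of the highest root is opposite to it for all coweights. -/
noncomputable def oppB (D : ChevalleyDatum) (A : Aux) : Bool :=
  lall (fun u => Nat.beq u (D.neg (topRoot D)) || (List.range D.rank).any fun i =>
    (List.range D.rank).any fun j => decide
      (crd A j (topRoot D) * crd A i u < crd A i (topRoot D) * crd A j u))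
    (List.range (D.nroots / 2))

/-- The tabulated choices: an exceptional dominant root `s` with its constant `c`, the short
roots `sh`, a path `q` from the fundamental root `i` to the highest root, and the pairings `P` of
the fundamental roots with it. -/
structure Tbl where
  /-- the dominant short root -/
  s : ℕ
  /-- its structure constant -/
  c : ℕ
  /-- the short roots -/
  sh : List ℕ
  /-- a fundamental root conjugate to the highest one -/
  i : ℕ
  /-- a path to the highest root -/
  q : List ℕ
  /-- the pairings -/
  P : List ℤ

/-- All checks. -/
noncomputable def dataB (D : ChevalleyDatum) (A : Aux) (T : Tbl) : Bool :=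
  termB D T.s T.c && spanB D A && leadB D A && gradeTopB D A T.i T.q T.P &&
    climbB D A T.s T.sh && oppB D A

end CfsgLib.ClassK.Subfield
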