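import Cfsg.Agent.Lib.ClassK.Subfield.Cert

/-! The table checks of the seven data. -/

set_option autoImplicit false
set_option maxRecDepth 100000

namespace CfsgLib.ClassK.Subfield

open Cfsg.Lie CfsgLib.Chevalley

/-- The choices for `G2`. -/
def tblG2 : Tbl where
  s := 9
  c := 3
  sh := [2, 3, 4, 7, 8, 9]
  i := 1
  q := [0, 1]
  P := [0, 1]

theorem dataG2 : dataB chevG2 auxG2 tblG2 = true := by decide +kernel

/-- The choices for `B2`. -/
def tblB2 : Tbl where
  s := 6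
  c := 2
  sh := [1, 2, 5, 6]
  i := 1
  q := [0]
  P := [1, 0]

theorem dataB2 : dataB chevB2 auxB2 tblB2 = true := by decide +kernel

/-- The choices for `D4`. -/
def tblD4 : Tbl where
  s := 0
  c := 0
  sh := []
  i := 0
  q := [1, 2, 3, 1]
  P := [0, 1, 0, 0]

theorem dataD4 : dataB chevD4 auxD4 tblD4 = true := by decide +kernel

/-- The choices for `F4`. -/
def tblF4 : Tbl where
  s := 44
  c := 2
  sh := [3, 7, 8, 9, 10, 11, 12, 13, 14, 18, 19, 20, 27, 28, 29,
    33, 34, 35, 36, 37, 38, 39, 40, 44]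
  i := 2
  q := [1, 0, 3, 2, 1, 2, 3]
  P := [0, 0, 0, 1]

theorem dataF4 : dataB chevF4 auxF4 tblF4 = true := by decide +kernel

/-- The choices for `E6`. -/
def tblE6 : Tbl where
  s := 0
  c := 0
  sh := []
  i := 0
  q := [2, 3, 1, 4, 3, 2, 5, 4, 3, 1]
  P := [0, 1, 0, 0, 0, 0]

theorem dataE6 : dataB chevE6 auxE6 tblE6 = true := by decide +kernel

/-- The choices for `E7`. -/
def tblE7 : Tbl where
  s := 0
  c := 0
  sh := []
  i := 0
  q := [2, 3, 1, 4, 3, 2, 5, 4, 3, 1, 6, 5, 4, 3, 2, 0]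
  P := [1, 0, 0, 0, 0, 0, 0]

theorem dataE7 : dataB chevE7 auxE7 tblE7 = true := by decide +kernel

/-- The choices for `E8`. -/
def tblE8 : Tbl where
  s := 0
  c := 0
  sh := []
  i := 0
  q := [2, 3, 1, 4, 3, 2, 5, 4, 3, 1, 6, 5, 4, 3, 2, 0, 7, 6, 5, 4, 3, 1, 2, 3, 4, 5, 6, 7]
  P := [0, 0, 0, 0, 0, 0, 0, 1]

theorem dataE8 : dataB chevE8 auxE8 tblE8 = true := by decide +kernel

theorem orbitB2 : orbitB chevB2 tblB2.sh = true := by decide +kernel

theorem orbitG2 : orbitB chevG2 tblG2.sh = true := by decide +kernel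

end CfsgLib.ClassK.Subfield
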