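import Cfsg.Agent.Lib.ClassK.Subfield.Basic
import Cfsg.Agent.Lib.ClassK.Subfield.Props
import Cfsg.Agent.Lib.ClassK.ChevalleyBorelTits
import Cfsg.Agent.Lib.Twisted.Exceptional

/-!
Elements of degree zero for a coweight: degrees of the coefficient matrices, splitting off the
radical, and the adjoint columns detected by the root elements of the radical.
-/

set_option autoImplicit false
set_option linter.unusedSectionVars false

open Matrix

namespace CfsgLib.ClassK.Subfield

open Cfsg.Lie CfsgLib.Chevalley CfsgLib.ClassK.Grading CfsgLib.ClassK.BorelTits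

variable {D : ChevalleyDatum} {A : Aux} {F : Type*} [Field F] [Fintype F]

theorem valI_neg (x : Fin D.rank → ℝ) (a : D.Idx) : valI D A (-x) a = -valI D A x a := by
  rw [show -x = (-1 : ℝ) • x by simp, valI_smul]
  ring

theorem valI_sub_of_coef (hC : Cert D A) {k : ℕ} (hk : k ∈ [1, 2, 3]) (r : Fin D.nroots)
    (x : Fin D.rank → ℝ) {a b : D.Idx} (hne : coefIn D F k r a b ≠ 0) :
    valI D A x a - valI D A x b = (k : ℝ) * val D A x r := by
  have h1 : ∀ i : Fin D.rank, (wt D (crd A i) a : ℝ) =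
      (wt D (crd A i) b : ℝ) + (k : ℝ) * (crd A i r : ℝ) := by
    intro i
    have := weightCoef_of_graded hC (fun e => graded_crd hC i.isLt e) r k hk a b
      fun h0 => hne (by simp [coefIn, h0])
    exact_mod_cast this
  rw [valI_eq_sum, valI_eq_sum, val, Finset.mul_sum, ← Finset.sum_sub_distrib]
  exact Finset.sum_congr rfl fun i _ => by rw [h1]; ring

/-- An element and its inverse preserve the filtration by a coweight. -/
def InStab (D : ChevalleyDatum) (A : Aux) (x : Fin D.rank → ℝ) (g : GL D.Idx F) : Prop :=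
  g ∈ D.group F ∧ Deg (valI D A x) 0 (g : Matrix D.Idx D.Idx F) ∧
    Deg (valI D A x) 0 ((g⁻¹ : GL D.Idx F) : Matrix D.Idx D.Idx F)

theorem InStab.mul {x : Fin D.rank → ℝ} {g g' : GL D.Idx F} (hg : InStab D A x g)
    (hg' : InStab D A x g') : InStab D A x (g * g') := by
  refine ⟨mul_mem hg.1 hg'.1, ?_, ?_⟩
  · simpa using hg.2.1.mul hg'.2.1
  · rw [_root_.mul_inv_rev]
    simpa using hg'.2.2.mul hg.2.2

theorem InStab.inv {x : Fin D.rank → ℝ} {g : GL D.Idx F} (hg : InStab D A x g) :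
    InStab D A x g⁻¹ :=
  ⟨inv_mem hg.1, hg.2.2, by rw [inv_inv]; exact hg.2.1⟩

theorem deg_conj_sub {v : D.Idx → ℝ} {c : ℝ} {g w : GL D.Idx F}
    (hg : Deg v 0 (g : Matrix D.Idx D.Idx F))
    (hg' : Deg v 0 ((g⁻¹ : GL D.Idx F) : Matrix D.Idx D.Idx F))
    (hw : Deg v c ((w : Matrix D.Idx D.Idx F) - 1)) :
    Deg v c (((g * w * g⁻¹ : GL D.Idx F) : Matrix D.Idx D.Idx F) - 1) := by
  have e : ((g * w * g⁻¹ : GL D.Idx F) : Matrix D.Idx D.Idx F) - 1 =
      (g : Matrix D.Idx D.Idx F) * ((w : Matrix D.Idx D.Idx F) - 1) *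
        ((g⁻¹ : GL D.Idx F) : Matrix D.Idx D.Idx F) := by
    rw [Units.val_mul, Units.val_mul, Matrix.mul_sub, Matrix.sub_mul, Matrix.mul_one,
      Units.mul_inv]
  rw [e]
  simpa using (hg.mul hw).mul hg'

theorem Deg.sub {ι : Type*} {v : ι → ℝ} {c : ℝ} {M N : Matrix ι ι F} (hM : Deg v c M)
    (hN : Deg v c N) : Deg v c (M - N) := by
  intro a b hne
  by_cases h1 : M a b = 0
  · refine hN a b fun e => hne ?_
    rw [Matrix.sub_apply, h1, e, sub_zero]
  · exact hM a b h1

theorem Deg.smul {ι : Type*} {v : ι → ℝ} {c : ℝ} {M : Matrix ι ι F} (hM : Deg v c M) (a : F) :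
    Deg v c (a • M) := fun i j hne => hM i j fun e => hne (by simp [e])

theorem eq_zero_of_deg_opp {ι : Type*} {v w : ι → ℝ} {c d : ℝ} {M : Matrix ι ι F}
    (hM : Deg v c M) (hM' : Deg w d M) (hvw : ∀ a, w a = -v a) (hcd : 0 < c + d) : M = 0 := by
  ext a b
  by_contra hne
  have := hM a b hne
  have := hM' a b hne
  rw [hvw, hvw] at this
  linarith

/-- The roots of the radical of a dominant coweight. -/
def radSet (D : ChevalleyDatum) (A : Aux) (x : Fin D.rank → ℝ) : Set ℕ :=
  {r | D.IsPosRoot r ∧ 0 < val D A x r}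

/-- The positive roots of the Levi part of a dominant coweight. -/
def levSet (D : ChevalleyDatum) (A : Aux) (x : Fin D.rank → ℝ) : Set ℕ :=
  {r | D.IsPosRoot r ∧ val D A x r = 0}

theorem deg_levSet (h : Full D A) {x : Fin D.rank → ℝ} {u : GL D.Idx F}
    (hu : u ∈ rootsU D F (levSet D A x)) :
    Deg (valI D A x) 0 (u : Matrix D.Idx D.Idx F) ∧
      Deg (valI D A (-x)) 0 (u : Matrix D.Idx D.Idx F) := by
  refine ⟨deg_of_sub (deg_rootsU h.cert (fun r hr => hr.1.1) le_rfl (fun r hr => hr.2.ge) hu) le_rfl,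
    deg_of_sub (deg_rootsU h.cert (fun r hr => hr.1.1) le_rfl (fun r hr => le_of_eq ?_) hu) le_rfl⟩
  rw [show -x = (-1 : ℝ) • x by simp, val_smul, hr.2, mul_zero]

theorem deg_monomial_fix (h : Full D A) {n : GL D.Idx F} {σ : Equiv.Perm (Fin D.nroots)}
    {η : Fin D.nroots → F} (hn : n ∈ D.monomialSubgroup F) (hA : Acts h.cert n σ η)
    {x : Fin D.rank → ℝ} (hfix : pull h.cert σ x = x) :
    Deg (valI D A x) 0 (n : Matrix D.Idx D.Idx F) ∧
      Deg (valI D A x) 0 ((n⁻¹ : GL D.Idx F) : Matrix D.Idx D.Idx F) ∧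
      Deg (valI D A (-x)) 0 (n : Matrix D.Idx D.Idx F) ∧
      Deg (valI D A (-x)) 0 ((n⁻¹ : GL D.Idx F) : Matrix D.Idx D.Idx F) := by
  obtain ⟨θ, hB⟩ := acts_inv h hn hA
  have hfix' : pull h.cert σ⁻¹ x = x := by
    conv_lhs => rw [← hfix]
    rw [pull_mul hA, mul_inv_cancel, pull_one h]
  have hneg : ∀ τ : Equiv.Perm (Fin D.nroots), pull h.cert τ x = x →
      pull h.cert τ (-x) = -x := fun τ e => funext fun i => by
    show val D A (-x) (τ (smp h.cert i) : ℕ) = (-x) i
    rw [show -x = (-1 : ℝ) • x by simp, val_smul, show val D A x (τ (smp h.cert i) : ℕ) = x i from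
      congrFun e i]
    simp
  exact ⟨deg_of_pull_eq h hA hfix, deg_of_pull_eq h hB hfix', deg_of_pull_eq h hA (hneg _ hfix),
    deg_of_pull_eq h hB (hneg _ hfix')⟩

/-- The Levi decomposition of an element preserving the filtration. -/
theorem exists_levi (h : Full D A) {x : Fin D.rank → ℝ} (hx : IsDominant x) {g : GL D.Idx F}
    (hg : InStab D A x g) :
    ∃ aU ∈ rootsU D F (radSet D A x), ∃ aL ∈ rootsU D F (levSet D A x),
      ∃ n ∈ D.monomialSubgroup F, ∃ σ η, Acts h.cert n σ η ∧ pull h.cert σ x = x ∧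
      ∃ bL ∈ rootsU D F (levSet D A x), ∃ bU ∈ rootsU D F (radSet D A x),
        g = aU * (aL * n * bL) * bU ∧ InStab D A x (aL * n * bL) ∧
        Deg (valI D A (-x)) 0 ((aL * n * bL : GL D.Idx F) : Matrix D.Idx D.Idx F) ∧
        Deg (valI D A (-x)) 0 (((aL * n * bL)⁻¹ : GL D.Idx F) : Matrix D.Idx D.Idx F) := by
  obtain ⟨hgG, hg0, -⟩ := hg
  obtain ⟨a, ha, n, hn, b, hb, rfl⟩ := exists_bnu h hgG
  obtain ⟨σ, η, hA⟩ := exists_acts h hn
  have hpos : ∀ u ∈ D.posUnipotent F, Deg (valI D A x) 0 (u : Matrix D.Idx D.Idx F) :=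
    fun u hu => deg_borel h hx (Subgroup.mem_sup_left hu)
  have hn0 : Deg (valI D A x) 0 (n : Matrix D.Idx D.Idx F) := by
    have := ((hpos _ (Subgroup.inv_mem _ ha)).mul hg0).mul (hpos _ (Subgroup.inv_mem _ hb))
    rw [zero_add, zero_add, ← Units.val_mul, ← Units.val_mul,
      show a⁻¹ * (a * n * b) * b⁻¹ = n by group] at this
    exact this
  have hge : ∀ s : Fin D.nroots, val D A x s ≤ val D A x (σ s : ℕ) := by
    intro s
    have := hn0 (Sum.inr (σ s)) (Sum.inr s) (by rw [hA.col, if_pos rfl]; exact hA.ne_zero s)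
    simp only [valI] at this
    linarith
  have hfix : pull h.cert σ x = x := funext fun i => by
    refine le_antisymm ?_ ?_
    · have := hge (ngR h.cert (smp h.cert i))
      rw [hA.neg, val_ngR, val_ngR, show val D A x (smp h.cert i : ℕ) = x i from val_simple h x i]
        at this
      show val D A x (σ (smp h.cert i) : ℕ) ≤ x i
      linarith
    · have := hge (smp h.cert i)
      rw [show val D A x (smp h.cert i : ℕ) = x i from val_simple h x i] at this
      exact this
  set P : Set ℕ := {r | 0 < val D A x r}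
  set Q : Set ℕ := {r | val D A x r = 0}
  have hPQ : ∀ r, D.IsPosRoot r → r ∈ P ∨ r ∈ Q := fun r hr => by
    rcases (val_nonneg h hx hr).lt_or_eq with e | e
    · exact Or.inl e
    · exact Or.inr e.symm
  obtain ⟨aU, haU, aL, haL, rfl⟩ := split_pos h.toStd hPQ ha
  obtain ⟨bL, hbL, bU, hbU, rfl⟩ := split_pos h.toStd (fun r hr => (hPQ r hr).symm) hb
  obtain ⟨n1, n2, n3, n4⟩ := deg_monomial_fix h hn hA hfix
  have dA := deg_levSet h (x := x) haL
  have dA' := deg_levSet h (x := x) (inv_mem haL)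
  have dB := deg_levSet h (x := x) hbL
  have dB' := deg_levSet h (x := x) (inv_mem hbL)
  refine ⟨aU, haU, aL, haL, n, hn, σ, η, hA, hfix, bL, hbL, bU, hbU, by group,
    ⟨mul_mem (mul_mem (rootsU_le_group h.cert _ haL) (monomial_le_group h.cert hn))
      (rootsU_le_group h.cert _ hbL), ?_, ?_⟩, ?_, ?_⟩
  · simpa [mul_assoc] using (dA.1.mul n1).mul dB.1
  · rw [_root_.mul_inv_rev, _root_.mul_inv_rev]
    simpa [mul_assoc] using (dB'.1.mul n2).mul dA'.1
  · simpa [mul_assoc] using (dA.2.mul n3).mul dB.2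
  · rw [_root_.mul_inv_rev, _root_.mul_inv_rev]
    simpa [mul_assoc] using (dB'.2.mul n4).mul dA'.2

/-! ### The adjoint action -/

theorem coefIn_one_cor (hC : Cert D A) (s r : Fin D.nroots) (j : Fin D.rank) :
    coefIn D F 1 s (Sum.inl j) (Sum.inr (ngR hC r)) = if s = r then (cor D s j : F) else 0 := by
  classical
  have e := congrArg (fun M : Matrix D.Idx D.Idx (Polynomial F) =>
    (M (Sum.inl j) (Sum.inr (ngR hC r))).coeff 1)
    (xR_eq_sum D (R := Polynomial F) hC.wf s Polynomial.X)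
  simp only [Matrix.add_apply, Matrix.smul_apply, coefIn, Matrix.map_apply, smul_eq_mul,
    Polynomial.coeff_add, Polynomial.coeff_mul_intCast, Polynomial.coeff_X_pow,
    Polynomial.coeff_X_one, Matrix.one_apply, reduceCtorEq, if_false, Polynomial.coeff_zero] at e
  norm_num at e
  rw [show coefIn D F 1 s (Sum.inl j) (Sum.inr (ngR hC r)) =
    (coefMat D 1 s (Sum.inl j) (Sum.inr (ngR hC r)) : F) from rfl, ← e]
  have hs : D.negIdx.getD (s : ℕ) 0 = D.neg s := rfl
  simp only [xR, Matrix.of_apply, hs]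
  by_cases h1 : ngR hC r = s
  · rw [if_pos h1, if_neg]
    · simp
    · rintro rfl
      exact hC.wf.neg_ne s s.isLt (congrArg Fin.val h1)
  · rw [if_neg h1]
    by_cases h2 : s = r
    · subst h2
      simp [ngR, cor]
    · rw [if_neg, if_neg h2]
      · simp
      · intro h3
        refine h2 (Fin.ext ?_)
        have := congrArg D.neg h3
        simp only [ngR, hC.wf.neg_neg _ s.isLt, hC.wf.neg_neg _ r.isLt] at this
        exact this.symm

open CfsgLib.Twisted (adV adF adF_inr mul_adV)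

/-- A vector of the root spaces with vanishing adjoint matrix is zero. -/
theorem eq_zero_of_adV (h : Full D A) {w : D.Idx → F} (hl : ∀ i, w (Sum.inl i) = 0)
    (hw : adV D A F w = 0) : w = 0 := by
  funext a
  rcases a with i | r
  · exact hl i
  obtain ⟨j, hj, hne⟩ := h.pos.cor_primitive h.cert (K := F) r.isLt
  have e := congrArg
    (fun M : Matrix D.Idx D.Idx F => M (Sum.inl ⟨j, hj⟩) (Sum.inr (ngR h.cert r))) hw
  simp only [adV, Matrix.sum_apply, Matrix.smul_apply, smul_eq_mul, Matrix.zero_apply,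
    Fintype.sum_sum_type, hl, zero_mul, Finset.sum_const_zero, zero_add, adF_inr h.cert,
    coefIn_one_cor h.cert, mul_ite, mul_zero, Finset.sum_ite_eq', Finset.mem_univ, if_true] at e
  exact (mul_eq_zero.1 e).resolve_right hne

/-- An element of degree zero commuting with an adjoint root matrix fixes the root vector. -/
theorem col_of_commute (h : Full D A) {g : GL D.Idx F} (hg : g ∈ D.group F)
    {x : Fin D.rank → ℝ} (hdeg : Deg (valI D A x) 0 (g : Matrix D.Idx D.Idx F)) {b : Fin D.nroots}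
    (hb : 0 < val D A x b)
    (hcomm : (g : Matrix D.Idx D.Idx F) * coefIn D F 1 b = coefIn D F 1 b * g) :
    ∀ a, (g : Matrix D.Idx D.Idx F) a (Sum.inr b) = if a = Sum.inr b then 1 else 0 := by
  classical
  have hsingle : adV D A F (Pi.single (Sum.inr b) 1) = coefIn D F 1 b := by
    rw [adV, Finset.sum_eq_single (Sum.inr b : D.Idx)]
    · simp [adF_inr h.cert]
    · intro c _ hc; simp [hc]
    · simp
  have e := mul_adV h.cert hg (Pi.single (Sum.inr b) 1)
  rw [hsingle, hcomm, Matrix.mulVec_single_one] at e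
  have e' : coefIn D F 1 b = adV D A F ((g : Matrix D.Idx D.Idx F).col (Sum.inr b)) := by
    have := congrArg (fun M => M * ((g⁻¹ : GL D.Idx F) : Matrix D.Idx D.Idx F)) e
    simpa [mul_assoc] using this
  have hinl : ∀ i, (g : Matrix D.Idx D.Idx F) (Sum.inl i) (Sum.inr b) = 0 := fun i => by
    by_contra hne
    have := hdeg _ _ hne
    simp only [valI] at this
    linarith
  have h0 : ((g : Matrix D.Idx D.Idx F).col (Sum.inr b)) - Pi.single (Sum.inr b) 1 = 0 := by
    refine eq_zero_of_adV (A := A) h (fun i => by simp [Matrix.col, hinl i]) ?_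
    have hsub : ∀ v w : D.Idx → F, adV D A F (v - w) = adV D A F v - adV D A F w := fun v w => by
      simp [adV, sub_smul, Finset.sum_sub_distrib]
    rw [hsub, ← e', hsingle, sub_self]
  intro a
  have := congrFun h0 a
  rw [Pi.sub_apply, Pi.zero_apply, sub_eq_zero] at this
  simpa [Matrix.col, Pi.single_apply] using this

/-- Commuting with a root element of the radical, modulo higher degree. -/
theorem coef_commute (h : Full D A) {x : Fin D.rank → ℝ} {d l : GL D.Idx F} {δ : ℝ} (hδ : 0 < δ)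
    (hl : Deg (valI D A x) 0 (l : Matrix D.Idx D.Idx F))
    (hl' : Deg (valI D A (-x)) 0 (l : Matrix D.Idx D.Idx F))
    (hdl : Deg (valI D A x) δ ((d : Matrix D.Idx D.Idx F) - (l : Matrix D.Idx D.Idx F))) {b : Fin D.nroots}
    (hb : δ ≤ val D A x b) (hcomm : Commute d (xG h.cert b 1)) :
    (l : Matrix D.Idx D.Idx F) * coefIn D F 1 b = coefIn D F 1 b * l := by
  set v := val D A x b with hv
  set C1 := coefIn D F 1 b
  set C2 := coefIn D F 2 b
  set C3 := coefIn D F 3 b
  have hX : ((xG h.cert b (1 : F) : GL D.Idx F) : Matrix D.Idx D.Idx F) - 1 = C1 + C2 + C3 := by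
    rw [coe_xG, x_eq_xR D F b.isLt, xR_eq_sum D h.cert.wf]
    simp only [Fin.eta, one_smul, one_pow]
    abel
  have deg1 : ∀ k : ℕ, k ∈ [1, 2, 3] → ∀ c : ℝ, c ≤ (k : ℝ) * v →
      Deg (valI D A x) c (coefIn D F k b) := fun k hk c hc a a' hne => by
    rw [valI_sub_of_coef h.cert hk b x hne]
    exact hc
  have hneg : Deg (valI D A (-x)) (-v) C1 := fun a a' hne => by
    rw [valI_neg, valI_neg, neg_sub_neg, ← neg_sub, valI_sub_of_coef h.cert (by simp) b x hne]
    simp [hv]
  set L : Matrix D.Idx D.Idx F := (l : Matrix D.Idx D.Idx F)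
  set Dm : Matrix D.Idx D.Idx F := (d : Matrix D.Idx D.Idx F)
  have hid : Dm * (C1 + C2 + C3) = (C1 + C2 + C3) * Dm := by
    rw [← hX, mul_sub, sub_mul, mul_one, one_mul]
    congr 1
    exact congrArg Units.val hcomm
  have e : L * C1 - C1 * L = ((C1 + C2 + C3) * (Dm - L) - (Dm - L) * (C1 + C2 + C3)) +
      ((C2 + C3) * L - L * (C2 + C3)) := by
    have : L * C1 - C1 * L - (((C1 + C2 + C3) * (Dm - L) - (Dm - L) * (C1 + C2 + C3)) +
      ((C2 + C3) * L - L * (C2 + C3))) = Dm * (C1 + C2 + C3) - (C1 + C2 + C3) * Dm := by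
      noncomm_ring
    rw [hid, sub_self, sub_eq_zero] at this
    exact this
  have dXY : Deg (valI D A x) v (C1 + C2 + C3) :=
    ((deg1 1 (by simp) v (by simp)).add (deg1 2 (by simp) v (by push_cast; linarith))).add
      (deg1 3 (by simp) v (by push_cast; linarith))
  have dY : Deg (valI D A x) (v + δ) (C2 + C3) :=
    (deg1 2 (by simp) _ (by push_cast; linarith)).add (deg1 3 (by simp) _ (by push_cast; linarith))
  have hup : Deg (valI D A x) (v + δ) (L * C1 - C1 * L) := by
    rw [e]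
    refine Deg.add (Deg.sub (dXY.mul hdl) ?_) (Deg.sub ?_ ?_)
    · rw [add_comm v δ]; exact hdl.mul dXY
    · simpa using dY.mul hl
    · simpa using hl.mul dY
  have hdown : Deg (valI D A (-x)) (-v) (L * C1 - C1 * L) := by
    refine Deg.sub ?_ ?_
    · simpa using hl'.mul hneg
    · simpa using hneg.mul hl'
  exact sub_eq_zero.1 (eq_zero_of_deg_opp hup hdown (valI_neg x) (by linarith))

end CfsgLib.ClassK.Subfield
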