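import Cfsg.Agent.Lib.ClassK.Subfield.Seed
import Cfsg.Agent.Lib.ClassK.Subfield.Fill

/-!
Type `B₂`: a non-fixed element of `U` in a subgroup containing the fixed points gives the whole
group. In characteristic two the seed at the short root is impossible.
-/

set_option autoImplicit false
set_option linter.unusedSectionVars false

namespace CfsgLib.ClassK.Subfield

open Cfsg.Lie CfsgLib.Chevalley

variable {A : Aux} {F : Type*} [Field F] [Fintype F] {φ : F →+* F}

theorem hG_conj {D : ChevalleyDatum} (h : Full D A) (i : Fin D.rank) (s : Fin D.nroots) {c : F}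
    (hc : c ≠ 0) (t : F) :
    hG h.cert (D.simple i) c * xG h.cert s t * (hG h.cert (D.simple i) c)⁻¹ =
      xG h.cert s (c ^ D.cartan i s * t) := by
  rw [hG_simple h.cert i hc, (acts_torus h.cert _).conj, chi_mulSingle, Units.val_zpow_eq_zpow_val,
    Units.val_mk0]
  rfl

theorem hG_mem {D : ChevalleyDatum} {h : Full D A} {H : Subgroup (GL D.Idx F)}
    (hS : Setting h φ H) (r : ℕ) {c : F} (hc : φ c = c) : hG h.cert r c ∈ H :=
  hS.mem (hG_mem_fixElem h.cert r hc)

theorem commTerms45 : chevB2.commTerms 4 5 = [(6, 1, 1, 1), (7, -1, 1, 2)] := by decide +kernel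

theorem commTerms54 : chevB2.commTerms 5 4 = [(6, -1, 1, 1), (7, -1, 2, 1)] := by decide +kernel

theorem commTerms56 : chevB2.commTerms 5 6 = [(7, 2, 1, 1)] := by decide +kernel

theorem commTerms_seven :
    chevB2.commTerms 5 7 = [] ∧ chevB2.commTerms 4 7 = [] ∧ chevB2.commTerms 6 7 = [] ∧
      chevB2.commTerms 4 6 = [] := by
  decide +kernel

theorem lt_nroots_B2 : 4 < chevB2.nroots ∧ 5 < chevB2.nroots ∧ 6 < chevB2.nroots ∧
    7 < chevB2.nroots := by decide +kernel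

theorem neg_B2 : 5 ≠ chevB2.neg 4 ∧ 4 ≠ chevB2.neg 5 ∧ 6 ≠ chevB2.neg 5 ∧ 7 ≠ chevB2.neg 5 ∧
    7 ≠ chevB2.neg 4 ∧ 7 ≠ chevB2.neg 6 ∧ 6 ≠ chevB2.neg 4 := by decide +kernel

variable {H : Subgroup (GL chevB2.Idx F)}

theorem no_short_seed {h : Full chevB2 A} (hS : Setting h φ H) [CharP F 2] {t : F} (ht : φ t ≠ t)
    {v : GL chevB2.Idx F} (hv : v ∈ rootsU chevB2 F (above chevB2 7)) (hg : xG h.cert 6 t * v ∈ H)
    (htail : ∀ w ∈ H, w ∈ rootsU chevB2 F (above chevB2 7) → frob φ w = w) : False := by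
  obtain ⟨l4, l5, l6, l7⟩ := lt_nroots_B2
  obtain ⟨n45, n54, n56, n57, n47, n67, n46⟩ := neg_B2
  obtain ⟨e57, e47, e67, e46⟩ := commTerms_seven
  have hpos7 : chevB2.IsPosRoot 7 := by decide +kernel
  have c57 := fun a b : F => commute_of_terms h l5 l7 (by decide) n57 e57 a b
  have c47 := fun a b : F => commute_of_terms h l4 l7 (by decide) n47 e47 a b
  have c67 := fun a b : F => commute_of_terms h l6 l7 (by decide) n67 e67 a b
  have c46 := fun a b : F => commute_of_terms h l4 l6 (by decide) n46 e46 a b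
  have h2 : (2 : F) = 0 := CharTwo.two_eq_zero
  have hneg : ∀ a : F, -a = a := CharTwo.neg_eq
  have c56 : ∀ a b : F, Commute (xG h.cert 5 a) (xG h.cert 6 b) := fun a b => by
    have e := conj_eq_terms h l5 l6 (by decide) n56 a b
    simp only [terms, commTerms56, List.map_cons, List.map_nil, List.prod_cons, List.prod_nil,
      Int.cast_ofNat, h2, zero_mul, xG_zero, mul_one, mul_inv_eq_iff_eq_mul] at e
    exact e
  have hsign : ∀ (i : Fin chevB2.rank) (r r' : ℕ) (hr : r < chevB2.nroots),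
      chevB2.reflectRoot i r = r' → ∀ a : F, nG h.cert (chevB2.simple i) (1 : F) * xG h.cert r a *
        (nG h.cert (chevB2.simple i) 1)⁻¹ = xG h.cert r' a := by
    intro i r r' hr he a
    obtain ⟨ε, hε, hc⟩ := nG_conj_sign (F := F) h i ⟨r, hr⟩
    rw [hc a, he]
    rcases hε with rfl | rfl <;> simp [hneg]
  have hconj : ∀ (i : Fin chevB2.rank) (r r' s s' : ℕ) (hr : r < chevB2.nroots)
      (hs : s < chevB2.nroots), chevB2.reflectRoot i r = r' → chevB2.reflectRoot i s = s' →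
      ∀ a b : F, xG h.cert r a * xG h.cert s b ∈ H → xG h.cert r' a * xG h.cert s' b ∈ H := by
    intro i r r' s s' hr hs e e' a b hm
    rw [← hsign i r r' hr e a, ← hsign i s s' hs e' b]
    have := mul_mem (mul_mem (nG_mem hS (chevB2.simple i)) hm)
      (inv_mem (nG_mem hS (chevB2.simple i)))
    simpa [mul_assoc] using this
  -- the parameters at the top are fixed
  have htop : ∀ w : F, xG h.cert 7 w ∈ H → φ w = w := fun w hw => by
    have := htail _ hw (xG_mem_rootsU h.cert (show 7 ∈ above chevB2 7 from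
      ⟨hpos7, Set.mem_Ici.2 le_rfl⟩) w)
    rw [frob_xG] at this
    exact xG_injective h.cert l7 this
  have r65 : chevB2.reflectRoot 1 6 = 5 ∧ chevB2.reflectRoot 1 7 = 7 ∧
      chevB2.reflectRoot 0 6 = 6 ∧ chevB2.reflectRoot 0 7 = 4 := by decide +kernel
  obtain ⟨r1, r2, r3, r4⟩ := r65
  let i0 : Fin chevB2.rank := ⟨0, by decide⟩
  let i1 : Fin chevB2.rank := ⟨1, by decide⟩
  -- the rule
  have hrule : ∀ s b : F, xG h.cert 6 s * xG h.cert 7 b ∈ H →
      xG h.cert 6 s * xG h.cert 7 (s ^ 2) ∈ H := by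
    intro s b hm
    have hy := hconj i1 6 5 7 7 l6 l7 r1 r2 s b hm
    have hx : xG h.cert 4 (1 : F) ∈ H := xG_fixed_mem hS 4 (map_one φ)
    have hc := mul_mem (inv_mem hx) (mul_mem (mul_mem hy hx) (inv_mem hy))
    have e : (xG h.cert 4 (1 : F))⁻¹ * (xG h.cert 5 s * xG h.cert 7 b * xG h.cert 4 1 *
        (xG h.cert 5 s * xG h.cert 7 b)⁻¹) = xG h.cert 6 s * xG h.cert 7 (s ^ 2) := by
      rw [show xG h.cert 5 s * xG h.cert 7 b * xG h.cert 4 (1 : F) *
          (xG h.cert 5 s * xG h.cert 7 b)⁻¹ =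
        xG h.cert 5 s * (xG h.cert 7 b * xG h.cert 4 1 * (xG h.cert 7 b)⁻¹) * (xG h.cert 5 s)⁻¹ by
        group, (c47 1 b).symm.eq, mul_inv_cancel_right,
        conj_eq_terms h l5 l4 (by decide) n54, ← mul_assoc, inv_mul_cancel, one_mul, terms,
        commTerms54]
      simp [hneg]
    rwa [e] at hc
  -- the fixed combinations
  obtain ⟨b, hb⟩ : ∃ b : F, v = xG h.cert 7 b := by
    obtain ⟨b, w, hw, e⟩ := split_at h h.toStd.isClosed_pos (show 7 ∈ {r | chevB2.IsPosRoot r} from hpos7) hv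
    refine ⟨b, ?_⟩
    rw [e, rootsU_inter_empty h.cert (fun r hr => hr.1) (by decide +kernel) hw, mul_one]
  subst hb
  have he : xG h.cert 6 t * xG h.cert 7 (t ^ 2) ∈ H := hrule t b hg
  have hdiff : ∀ s b : F, xG h.cert 6 s * xG h.cert 7 b ∈ H → φ (b + s ^ 2) = b + s ^ 2 := by
    intro s b hm
    refine htop _ ?_
    have := mul_mem (inv_mem (hrule s b hm)) hm
    rwa [_root_.mul_inv_rev, mul_assoc, inv_mul_cancel_left, xG_inv, hneg, xG_mul, add_comm] at this
  have hu := hconj i0 6 6 7 4 l6 l7 r3 r4 t (t ^ 2) he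
  have hw := hconj i1 6 5 7 7 l6 l7 r1 r2 t (t ^ 2) he
  have h1 : xG h.cert 6 (t ^ 2) * xG h.cert 7 (t ^ 2) ∈ H := by
    have hx : xG h.cert 5 (1 : F) ∈ H := xG_fixed_mem hS 5 (map_one φ)
    have hc := mul_mem (mul_mem (mul_mem hu hx) (inv_mem hu)) (inv_mem hx)
    have e : xG h.cert 6 t * xG h.cert 4 (t ^ 2) * xG h.cert 5 1 *
        (xG h.cert 6 t * xG h.cert 4 (t ^ 2))⁻¹ * (xG h.cert 5 (1 : F))⁻¹ =
          xG h.cert 5 1 * (xG h.cert 6 (t ^ 2) * xG h.cert 7 (t ^ 2)) * (xG h.cert 5 1)⁻¹ := by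
      have hT : Commute (xG h.cert 6 t) (xG h.cert 5 1 * (xG h.cert 6 (t ^ 2) * xG h.cert 7 (t ^ 2))) :=
        (c56 1 t).symm.mul_right (Commute.mul_right
          (by show _ = _; rw [xG_mul, xG_mul, add_comm]) (c67 t _))
      rw [show xG h.cert 6 t * xG h.cert 4 (t ^ 2) * xG h.cert 5 (1 : F) *
          (xG h.cert 6 t * xG h.cert 4 (t ^ 2))⁻¹ =
        xG h.cert 6 t * (xG h.cert 4 (t ^ 2) * xG h.cert 5 1 * (xG h.cert 4 (t ^ 2))⁻¹) *
          (xG h.cert 6 t)⁻¹ by group, conj_eq_terms h l4 l5 (by decide) n45]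
      simp only [terms, commTerms45, List.map_cons, List.map_nil, List.prod_cons, List.prod_nil,
        Int.cast_neg, Int.cast_one, neg_mul, one_mul, pow_one, one_pow, mul_one, hneg]
      rw [hT.eq, mul_inv_cancel_right]
    rw [e] at hc
    simpa [mul_assoc] using mul_mem (mul_mem (inv_mem hx) hc) hx
  have h3 : xG h.cert 6 (t ^ 3) * xG h.cert 7 (t ^ 4) ∈ H := by
    have hc := mul_mem (inv_mem hu) (mul_mem (mul_mem hw hu) (inv_mem hw))
    have e : xG h.cert 5 t * xG h.cert 7 (t ^ 2) * (xG h.cert 6 t * xG h.cert 4 (t ^ 2)) *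
        (xG h.cert 5 t * xG h.cert 7 (t ^ 2))⁻¹ =
          xG h.cert 6 t * xG h.cert 4 (t ^ 2) * (xG h.cert 6 (t ^ 3) * xG h.cert 7 (t ^ 4)) := by
      rw [show xG h.cert 5 t * xG h.cert 7 (t ^ 2) * (xG h.cert 6 t * xG h.cert 4 (t ^ 2)) *
          (xG h.cert 5 t * xG h.cert 7 (t ^ 2))⁻¹ =
        xG h.cert 5 t * (xG h.cert 7 (t ^ 2) * (xG h.cert 6 t * xG h.cert 4 (t ^ 2)) *
          (xG h.cert 7 (t ^ 2))⁻¹) * (xG h.cert 5 t)⁻¹ by group,
        ((c67 t (t ^ 2)).symm.mul_right (c47 (t ^ 2) (t ^ 2)).symm).eq, mul_inv_cancel_right,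
        show xG h.cert 5 t * (xG h.cert 6 t * xG h.cert 4 (t ^ 2)) * (xG h.cert 5 t)⁻¹ =
          xG h.cert 5 t * xG h.cert 6 t * (xG h.cert 5 t)⁻¹ *
            (xG h.cert 5 t * xG h.cert 4 (t ^ 2) * (xG h.cert 5 t)⁻¹) by group,
        (c56 t t).eq, mul_inv_cancel_right, conj_eq_terms h l5 l4 (by decide) n54]
      simp only [terms, commTerms54, List.map_cons, List.map_nil, List.prod_cons, List.prod_nil,
        Int.cast_neg, Int.cast_one, neg_mul, one_mul, pow_one, mul_one, hneg]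
      rw [show t * t ^ 2 = t ^ 3 by ring, show t ^ 2 * t ^ 2 = t ^ 4 by ring]
      group
    rw [e, inv_mul_cancel_left] at hc
    exact hc
  have f1 : φ (t + t ^ 2) = t + t ^ 2 := by
    have h' := hdiff (t ^ 2) (t ^ 2) h1
    rw [show t ^ 2 + (t ^ 2) ^ 2 = (t + t ^ 2) ^ 2 by rw [CharTwo.add_sq], map_pow] at h'
    exact CharTwo.sq_injective h'
  have f3 : φ (t ^ 2 + t ^ 3) = t ^ 2 + t ^ 3 := by
    have h' := hdiff (t ^ 3) (t ^ 4) h3
    rw [show t ^ 4 + (t ^ 3) ^ 2 = (t ^ 2 + t ^ 3) ^ 2 by rw [CharTwo.add_sq]; ring, map_pow] at h'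
    exact CharTwo.sq_injective h'
  have hc0 : t + t ^ 2 = 0 := by
    have e : (t + t ^ 2) * φ t = (t + t ^ 2) * t := by
      conv_lhs => rw [← f1, ← map_mul]
      rw [show (t + t ^ 2) * t = t ^ 2 + t ^ 3 by ring, f3]
    by_contra hne
    exact ht (mul_left_cancel₀ hne e)
  rcases mul_eq_zero.1 (show t * (1 + t) = 0 by rw [← hc0]; ring) with rfl | h4
  · exact ht (map_zero φ)
  · rw [eq_neg_of_add_eq_zero_right h4, map_neg, map_one] at ht
    exact ht rfl

theorem exists_top_B2 {p : ℕ} [Fact p.Prime] [CharP F p] {h : Full chevB2 A} (P : Props h tblB2)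
    (hS : Setting h φ H) {y : GL chevB2.Idx F} (hyH : y ∈ H)
    (hyU : y ∈ chevB2.posUnipotent F) (hy : frob φ y ≠ y) : ∃ t ∈ topSet h H, φ t ≠ t := by
  suffices hkey : ∃ t, φ t ≠ t ∧ xG h.cert 7 t ∈ H by
    obtain ⟨t, ht, htH⟩ := hkey
    exact ⟨t, htH, ht⟩
  rcases exists_seed P hS hyH hyU hy with ⟨t, ht, htH⟩ | ⟨hp, -, t, v, ht, hv, hg, htail⟩
  · exact ⟨t, ht, htH⟩
  · have hp2 : p = 2 :=
      (Nat.prime_dvd_prime_iff_eq (Fact.out : p.Prime) Nat.prime_two).1 hp
    subst hp2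
    exact (no_short_seed hS ht hv hg htail).elim

theorem mem_B2 {h : Full chevB2 A} (P : Props h tblB2) (hS : Setting h φ H) {x : F}
    (hx : x ∈ topSet h H) {r : ℕ} (hr : r < chevB2.nroots) : xG h.cert r x ∈ H := by
  obtain ⟨l4, l5, l6, l7⟩ := lt_nroots_B2
  obtain ⟨n45, n54, n56, n57, n47, n67, n46⟩ := neg_B2
  set L : Set F := {x | xG h.cert 7 x ∈ H}
  set S : Set F := {x | xG h.cert 6 x ∈ H}
  have hdom : dom chevB2 tblB2 4 = 7 ∧ dom chevB2 tblB2 5 = 6 := by decide +kernel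
  have m4 : ∀ x, xG h.cert 4 x ∈ H ↔ x ∈ L := fun x => by
    rw [mem_dom_iff P hS l4, hdom.1]; exact Iff.rfl
  have m5 : ∀ x, xG h.cert 5 x ∈ H ↔ x ∈ S := fun x => by
    rw [mem_dom_iff P hS l5, hdom.2]; exact Iff.rfl
  have hadd : ∀ {r : ℕ} (a b : F), xG h.cert r a ∈ H → xG h.cert r b ∈ H →
      xG h.cert r (a + b) ∈ H := fun a b => xG_add_mem h
  have hLneg : ∀ a ∈ L, -a ∈ L := fun a ha => by
    show xG h.cert 7 (-a) ∈ H
    rw [← xG_inv]; exact inv_mem ha
  -- mixed products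
  have h45 : ∀ a ∈ L, ∀ b ∈ S, xG h.cert 6 (a * b) * xG h.cert 7 (-(a * b ^ 2)) ∈ H := by
    intro a ha b hb
    have := terms_mem h l4 l5 (by decide) n45 ((m4 a).2 ha) ((m5 b).2 hb)
    simpa [terms, commTerms45] using this
  have h1S : (1 : F) ∈ S := xG_fixed_mem hS 6 (map_one φ)
  have h1L : (1 : F) ∈ L := xG_fixed_mem hS 7 (map_one φ)
  have hLS : ∀ a ∈ L, a ∈ S := by
    intro a ha
    have h' := h45 a ha 1 h1S
    rw [mul_one, one_pow, mul_one] at h'
    have := mul_mem h' (inv_mem (hLneg a ha : xG h.cert 7 (-a) ∈ H))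
    rwa [mul_inv_cancel_right] at this
  exact mem_of_dom P hS hr hx fun _ => hLS x hx

theorem mul_mem_B2 {p : ℕ} [Fact p.Prime] [CharP F p] {h : Full chevB2 A} (P : Props h tblB2)
    (hS : Setting h φ H) {x y : F} (hx : x ∈ topSet h H) (hy : y ∈ topSet h H) :
    x * y ∈ topSet h H := by
  obtain ⟨l4, l5, l6, l7⟩ := lt_nroots_B2
  obtain ⟨n45, n54, n56, n57, n47, n67, n46⟩ := neg_B2
  set L : Set F := {x | xG h.cert 7 x ∈ H}
  set S : Set F := {x | xG h.cert 6 x ∈ H}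
  have hdom : dom chevB2 tblB2 4 = 7 ∧ dom chevB2 tblB2 5 = 6 := by decide +kernel
  have m4 : ∀ x, xG h.cert 4 x ∈ H ↔ x ∈ L := fun x => by
    rw [mem_dom_iff P hS l4, hdom.1]; exact Iff.rfl
  have m5 : ∀ x, xG h.cert 5 x ∈ H ↔ x ∈ S := fun x => by
    rw [mem_dom_iff P hS l5, hdom.2]; exact Iff.rfl
  have hadd : ∀ {r : ℕ} (a b : F), xG h.cert r a ∈ H → xG h.cert r b ∈ H →
      xG h.cert r (a + b) ∈ H := fun a b => xG_add_mem h
  have hLneg : ∀ a ∈ L, -a ∈ L := fun a ha => by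
    show xG h.cert 7 (-a) ∈ H
    rw [← xG_inv]; exact inv_mem ha
  -- mixed products
  have h45 : ∀ a ∈ L, ∀ b ∈ S, xG h.cert 6 (a * b) * xG h.cert 7 (-(a * b ^ 2)) ∈ H := by
    intro a ha b hb
    have := terms_mem h l4 l5 (by decide) n45 ((m4 a).2 ha) ((m5 b).2 hb)
    simpa [terms, commTerms45] using this
  have h1S : (1 : F) ∈ S := xG_fixed_mem hS 6 (map_one φ)
  have h1L : (1 : F) ∈ L := xG_fixed_mem hS 7 (map_one φ)
  have hLS : ∀ a ∈ L, a ∈ S := by
    intro a ha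
    have h' := h45 a ha 1 h1S
    rw [mul_one, one_pow, mul_one] at h'
    have := mul_mem h' (inv_mem (hLneg a ha : xG h.cert 7 (-a) ∈ H))
    rwa [mul_inv_cancel_right] at this
  change x * y ∈ L
  by_cases hp2 : p = 2
  swap
  · have := terms_mem h l5 l6 (by decide) n56 ((m5 x).2 (hLS x hx)) (hLS y hy)
    simp only [terms, commTerms56, List.map_cons, List.map_nil, List.prod_cons, List.prod_nil,
      mul_one, pow_one, Int.cast_ofNat] at this
    rw [mul_assoc] at this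
    exact halve hp2 h 7 (x * y) this
  subst hp2
  have hneg : ∀ a : F, -a = a := CharTwo.neg_eq
  have hsq : ∀ b ∈ S, b ^ 2 ∈ L := by
    intro b hb
    have h' := h45 1 h1L b hb
    rw [one_mul, one_mul, hneg] at h'
    have := mul_mem (inv_mem (hb : xG h.cert 6 b ∈ H)) h'
    rwa [inv_mul_cancel_left] at this
  have hSLimg : ∀ a ∈ S, a ∈ L ∧ ∃ b ∈ L, b ^ 2 = a := by
    classical
    let S' := Finset.univ.filter (· ∈ S)
    let L' := Finset.univ.filter (· ∈ L)
    have hLS' : L' ⊆ S' := fun a ha => by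
      simp only [S', L', Finset.mem_filter, Finset.mem_univ, true_and] at ha ⊢
      exact hLS a ha
    have himg : S'.image (· ^ 2) ⊆ L' := fun a ha => by
      simp only [S', L', Finset.mem_image, Finset.mem_filter, Finset.mem_univ, true_and] at ha ⊢
      obtain ⟨b, hb, rfl⟩ := ha
      exact hsq b hb
    have hcard : (S'.image (· ^ 2)).card = S'.card :=
      Finset.card_image_of_injective _ CharTwo.sq_injective
    have e1 : L' = S' := Finset.eq_of_subset_of_card_le hLS' (hcard ▸ Finset.card_le_card himg)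
    have e2 : S'.image (· ^ 2) = L' :=
      Finset.eq_of_subset_of_card_le himg (by rw [hcard, e1])
    intro a ha
    have haL : a ∈ L' := by rw [e1]; simp [S', ha]
    refine ⟨by simpa [L'] using haL, ?_⟩
    rw [← e2] at haL
    obtain ⟨b, hb, rfl⟩ := Finset.mem_image.1 haL
    rw [← e1] at hb
    exact ⟨b, by simpa [L'] using hb, rfl⟩
  have hSL : ∀ a ∈ S, a ∈ L := fun a ha => (hSLimg a ha).1
  -- stability under `a + a²`
  have hkey : ∀ a ∈ L, ∀ b ∈ L, (a + a ^ 2) * b ∈ L := by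
    intro a ha b hb
    obtain ⟨u, hu, rfl⟩ := (hSLimg b (hLS b hb)).2
    have hg := h45 a ha u (hLS u hu)
    rw [hneg] at hg
    let i1 : Fin chevB2.rank := ⟨1, by decide⟩
    have r65 : chevB2.reflectRoot i1 6 = 5 ∧ chevB2.reflectRoot i1 7 = 7 := by decide +kernel
    have hg' : xG h.cert 5 (a * u) * xG h.cert 7 (a * u ^ 2) ∈ H := by
      obtain ⟨ε, hε, hc⟩ := nG_conj_sign (F := F) h i1 ⟨6, l6⟩
      obtain ⟨ε', hε', hc'⟩ := nG_conj_sign (F := F) h i1 ⟨7, l7⟩
      have hone : ∀ {e : F}, e = 1 ∨ e = -1 → e = 1 := fun he => by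
        rcases he with rfl | rfl
        · rfl
        · exact hneg 1
      have := mul_mem (mul_mem (nG_mem hS (chevB2.simple i1)) hg)
        (inv_mem (nG_mem hS (chevB2.simple i1)))
      rw [show ∀ n x y : GL chevB2.Idx F, n * (x * y) * n⁻¹ = n * x * n⁻¹ * (n * y * n⁻¹) from
        fun n x y => by group, hc, hc', hone hε, hone hε', one_mul, one_mul, r65.1, r65.2] at this
      exact this
    have hx : xG h.cert 4 (1 : F) ∈ H := xG_fixed_mem hS 4 (map_one φ)
    have hc := mul_mem (inv_mem hx) (mul_mem (mul_mem hg' hx) (inv_mem hg'))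
    have e : (xG h.cert 4 (1 : F))⁻¹ * (xG h.cert 5 (a * u) * xG h.cert 7 (a * u ^ 2) *
        xG h.cert 4 1 * (xG h.cert 5 (a * u) * xG h.cert 7 (a * u ^ 2))⁻¹) =
          xG h.cert 6 (a * u) * xG h.cert 7 ((a * u) ^ 2) := by
      rw [show xG h.cert 5 (a * u) * xG h.cert 7 (a * u ^ 2) * xG h.cert 4 (1 : F) *
          (xG h.cert 5 (a * u) * xG h.cert 7 (a * u ^ 2))⁻¹ =
        xG h.cert 5 (a * u) * (xG h.cert 7 (a * u ^ 2) * xG h.cert 4 1 *
          (xG h.cert 7 (a * u ^ 2))⁻¹) * (xG h.cert 5 (a * u))⁻¹ by group,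
        (commute_of_terms h l4 l7 (by decide) n47 commTerms_seven.2.1 1 _).symm.eq,
        mul_inv_cancel_right, conj_eq_terms h l5 l4 (by decide) n54, ← mul_assoc, inv_mul_cancel,
        one_mul, terms, commTerms54]
      simp [hneg]
    rw [e] at hc
    have := mul_mem (inv_mem hg) hc
    rw [_root_.mul_inv_rev, mul_assoc, inv_mul_cancel_left, xG_inv, hneg, xG_mul] at this
    show xG h.cert 7 ((a + a ^ 2) * u ^ 2) ∈ H
    rwa [show (a + a ^ 2) * u ^ 2 = a * u ^ 2 + (a * u) ^ 2 by ring]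
  -- stability under the fixed field
  have hfixmul : ∀ c, φ c = c → ∀ b ∈ L, c * b ∈ L := by
    intro c hc b hb
    rcases eq_or_ne c 0 with rfl | hc0
    · rw [zero_mul]
      exact xG_fixed_mem hS 7 (map_zero φ)
    obtain ⟨d, hd⟩ : ∃ d, d ^ 2 = c :=
      (Finite.injective_iff_surjective.1 (CharTwo.sq_injective (R := F))) c
    have hd' : φ d = d := CharTwo.sq_injective (show (φ d) ^ 2 = d ^ 2 by rw [← map_pow, hd, hc])
    have hd0 : d ≠ 0 := fun e => hc0 (by rw [← hd, e]; simp)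
    let i0 : Fin chevB2.rank := ⟨0, by decide⟩
    have := mul_mem (mul_mem (hG_mem hS (chevB2.simple i0) hd') hb)
      (inv_mem (hG_mem hS (chevB2.simple i0) hd'))
    rw [show xG h.cert 7 b = xG h.cert ((⟨7, l7⟩ : Fin chevB2.nroots) : ℕ) b from rfl,
      hG_conj h i0 ⟨7, l7⟩ hd0, show chevB2.cartan i0 7 = 2 by decide +kernel, zpow_two, ← sq, hd]
      at this
    exact this
  -- the multipliers form a field with every parameter
  have h11 : (1 : F) + 1 = 0 := CharTwo.add_self_eq_zero 1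
  suffices hR : ∀ a ∈ L, ∀ b ∈ L, a * b ∈ L from hR x hx y hy
  intro a ha
  by_contra haR
  have hadd' : ∀ m n : F, (∀ b ∈ L, m * b ∈ L) → (∀ b ∈ L, n * b ∈ L) → ∀ b ∈ L, (m + n) * b ∈ L :=
    fun m n hm hn b hb => by rw [add_mul]; exact hadd _ _ (hm b hb) (hn b hb)
  have hmul' : ∀ m n : F, (∀ b ∈ L, m * b ∈ L) → (∀ b ∈ L, n * b ∈ L) → ∀ b ∈ L, (m * n) * b ∈ L :=
    fun m n hm hn b hb => by rw [mul_assoc]; exact hm _ (hn b hb)
  have hpow' : ∀ m : F, (∀ b ∈ L, m * b ∈ L) → ∀ n : ℕ, ∀ b ∈ L, m ^ n * b ∈ L := fun m hm n => by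
    induction n with
    | zero => intro b hb; simpa using hb
    | succ n ih => rw [pow_succ]; exact hmul' _ _ ih hm
  -- the multipliers are `0` and `1`
  have htwo : ∀ c : F, (∀ b ∈ L, c * b ∈ L) → c + c ^ 2 = 0 := by
    intro c hc
    by_contra h0
    refine haR fun b hb => ?_
    have hca : c * a ∈ L := hc a ha
    have h1 : ∀ b ∈ L, ((c + c ^ 2) * a) * b ∈ L := by
      have := hadd' (c * a + (c * a) ^ 2) (c ^ 2 * (a + a ^ 2)) (hkey _ hca)
        (hmul' _ _ (hpow' c hc 2) (hkey a ha))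
      rwa [show c * a + (c * a) ^ 2 + c ^ 2 * (a + a ^ 2) = (c + c ^ 2) * a by
        linear_combination (CharTwo.add_self_eq_zero (c ^ 2 * a ^ 2))] at this
    have hinv := hpow' (c + c ^ 2) (hadd' _ _ hc (hpow' c hc 2)) (Fintype.card F - 2)
    have h3 := hmul' _ _ hinv h1 b hb
    rwa [← mul_assoc ((c + c ^ 2) ^ _) (c + c ^ 2) a, ← pow_succ,
      show Fintype.card F - 2 + 1 = Fintype.card F - 1 by
        have := Fintype.one_lt_card (α := F)
        omega, FiniteField.pow_card_sub_one_eq_one _ h0, one_mul] at h3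
  have hfour : ∀ b ∈ L, b + b ^ 2 = 0 ∨ b + b ^ 2 = 1 := fun b hb => by
    have h1 := htwo (b + b ^ 2) (hkey b hb)
    rcases mul_eq_zero.1 (show (b + b ^ 2) * (1 + (b + b ^ 2)) = 0 by rw [← h1]; ring) with e | e
    · exact Or.inl e
    · exact Or.inr (by rw [eq_neg_of_add_eq_zero_right e, hneg])
  have hcase : ∀ z : F, z + z ^ 2 = 0 → z = 0 ∨ z = 1 := fun z hz => by
    rcases mul_eq_zero.1 (show z * (1 + z) = 0 by rw [← hz]; ring) with e | e
    · exact Or.inl e
    · exact Or.inr (by rw [eq_neg_of_add_eq_zero_right e, hneg])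
  have ha2 : a + a ^ 2 = 1 := by
    rcases hfour a ha with e | e
    · exfalso
      rcases hcase a e with rfl | rfl
      · exact haR fun b _ => by rw [zero_mul]; exact xG_fixed_mem hS 7 (map_zero φ)
      · exact haR fun b hb => by rw [one_mul]; exact hb
    · exact e
  refine haR fun b hb => ?_
  rcases hfour b hb with e | e
  · rcases hcase b e with rfl | rfl
    · rw [mul_zero]; exact xG_fixed_mem hS 7 (map_zero φ)
    · rw [mul_one]; exact ha
  · have hd : b + a = 0 ∨ b + a = 1 := hcase _ (by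
      linear_combination e + ha2 + (CharTwo.add_self_eq_zero (b * a)) + h11)
    have hb' : b = a ∨ b = 1 + a := by
      rcases hd with h2 | h2
      · exact Or.inl (by rw [eq_neg_of_add_eq_zero_left h2, hneg])
      · exact Or.inr (by linear_combination h2 - CharTwo.add_self_eq_zero a)
    rcases hb' with rfl | rfl
    · rw [show b * b = 1 + b by linear_combination ha2 - CharTwo.add_self_eq_zero b]
      exact hadd _ _ h1L ha
    · rw [show a * (1 + a) = 1 by linear_combination ha2]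
      exact h1L

end CfsgLib.ClassK.Subfield
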