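import Cfsg.Agent.Lib.ClassK.Subfield.FillB2

/-!
Type `G₂`: a non-fixed element of `U` in a subgroup containing the fixed points gives the whole
group; the torus separates the coordinates of the three highest roots in odd characteristic.
-/

set_option autoImplicit false
set_option linter.unusedSectionVars false

namespace CfsgLib.ClassK.Subfield

open Cfsg.Lie CfsgLib.Chevalley

variable {A : Aux} {F : Type*} [Field F] [Fintype F] {φ : F →+* F}
  {H : Subgroup (GL chevG2.Idx F)}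

theorem lt_nroots_G2 : 6 < chevG2.nroots ∧ 7 < chevG2.nroots ∧ 8 < chevG2.nroots ∧
    9 < chevG2.nroots ∧ 10 < chevG2.nroots ∧ 11 < chevG2.nroots := by decide +kernel

theorem neg_G2 : 7 ≠ chevG2.neg 6 ∧ 6 ≠ chevG2.neg 7 ∧ 10 ≠ chevG2.neg 6 ∧ 6 ≠ chevG2.neg 9 ∧
    10 ≠ chevG2.neg 9 ∧ 11 ≠ chevG2.neg 9 ∧ 11 ≠ chevG2.neg 10 := by decide +kernel

theorem commTerms67 : chevG2.commTerms 6 7 =
    [(8, 1, 1, 1), (9, 1, 1, 2), (10, -1, 1, 3), (11, -2, 2, 3)] := by decide +kernel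

theorem commTerms76 : chevG2.commTerms 7 6 =
    [(8, -1, 1, 1), (9, 1, 2, 1), (10, 1, 3, 1), (11, 1, 3, 2)] := by decide +kernel

theorem commTerms_six : chevG2.commTerms 6 10 = [(11, 1, 1, 1)] ∧ chevG2.commTerms 9 6 = [] ∧
    chevG2.commTerms 9 10 = [] ∧ chevG2.commTerms 9 11 = [] ∧ chevG2.commTerms 10 11 = [] := by
  decide +kernel

theorem cartan_G2 : chevG2.cartan 1 9 = 0 ∧ chevG2.cartan 1 10 = -1 ∧ chevG2.cartan 1 11 = 1 ∧
    chevG2.cartan 0 9 = 1 ∧ chevG2.cartan 0 10 = 3 ∧ chevG2.cartan 0 11 = 0 := by decide +kernel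

/-- In odd characteristic the three highest coordinates of an element of `H` are in `H`. -/
theorem split_top_three {p : ℕ} [Fact p.Prime] [CharP F p] (hp2 : p ≠ 2) {h : Full chevG2 A}
    (hS : Setting h φ H) {a b c : F}
    (hm : xG h.cert 9 a * xG h.cert 10 b * xG h.cert 11 c ∈ H) :
    xG h.cert 9 a ∈ H ∧ xG h.cert 10 b ∈ H ∧ xG h.cert 11 c ∈ H := by
  obtain ⟨l6, l7, l8, l9, l10, l11⟩ := lt_nroots_G2
  obtain ⟨n67, n76, n610, n96, n910, n911, n1011⟩ := neg_G2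
  obtain ⟨-, -, e910, e911, e1011⟩ := commTerms_six
  obtain ⟨k19, k110, k111, k09, k010, k011⟩ := cartan_G2
  let i0 : Fin chevG2.rank := ⟨0, by decide⟩
  let i1 : Fin chevG2.rank := ⟨1, by decide⟩
  have hm1 : φ (-1 : F) = -1 := by rw [map_neg, map_one]
  have hne : (-1 : F) ≠ 0 := neg_ne_zero.2 one_ne_zero
  have c910 := fun x y : F => commute_of_terms h l9 l10 (by decide) n910 e910 x y
  have c911 := fun x y : F => commute_of_terms h l9 l11 (by decide) n911 e911 x y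
  have c1011 := fun x y : F => commute_of_terms h l10 l11 (by decide) n1011 e1011 x y
  have key : ∀ (i : Fin chevG2.rank) (s : F → F → F → F × F × F), (∀ x y z : F,
      hG h.cert (chevG2.simple i) (-1 : F) * (xG h.cert 9 x * xG h.cert 10 y * xG h.cert 11 z) *
        (hG h.cert (chevG2.simple i) (-1 : F))⁻¹ =
        xG h.cert 9 (s x y z).1 * xG h.cert 10 (s x y z).2.1 * xG h.cert 11 (s x y z).2.2) →
      xG h.cert 9 (a + (s a b c).1) * xG h.cert 10 (b + (s a b c).2.1) *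
        xG h.cert 11 (c + (s a b c).2.2) ∈ H := by
    intro i s hs
    have := mul_mem hm (mul_mem (mul_mem (hG_mem hS (chevG2.simple i) hm1) hm)
      (inv_mem (hG_mem hS (chevG2.simple i) hm1)))
    rw [hs] at this
    generalize s a b c = q at this ⊢
    obtain ⟨x, y, z⟩ := q
    simp only at this ⊢
    have e : xG h.cert 9 a * xG h.cert 10 b * xG h.cert 11 c *
        (xG h.cert 9 x * xG h.cert 10 y * xG h.cert 11 z) =
        xG h.cert 9 (a + x) * xG h.cert 10 (b + y) * xG h.cert 11 (c + z) := by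
      rw [← xG_mul h.cert 9, ← xG_mul h.cert 10, ← xG_mul h.cert 11,
        show ∀ A B C X Y Z : GL chevG2.Idx F, A * B * C * (X * Y * Z) = A * B * (C * X) * (Y * Z) from
          fun A B C X Y Z => by group, (c911 x c).symm.eq,
        show ∀ A B C X Y Z : GL chevG2.Idx F, A * B * (X * C) * (Y * Z) = A * (B * X) * (C * Y) * Z from
          fun A B C X Y Z => by group, (c910 x b).symm.eq, (c1011 y c).symm.eq]
      group
    rwa [e] at this
  have h1 := key i1 (fun x y z => (x, -y, -z)) fun x y z => by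
    have e1 := hG_conj h i1 ⟨9, l9⟩ hne x
    have e2 := hG_conj h i1 ⟨10, l10⟩ hne y
    have e3 := hG_conj h i1 ⟨11, l11⟩ hne z
    simp only [show ((i1 : Fin chevG2.rank) : ℕ) = 1 from rfl, k19, k110, k111, zpow_zero, one_mul,
      zpow_neg_one, zpow_one, inv_neg, inv_one, neg_one_mul] at e1 e2 e3 ⊢
    rw [show ∀ g A B C : GL chevG2.Idx F,
      g * (A * B * C) * g⁻¹ = g * A * g⁻¹ * (g * B * g⁻¹) * (g * C * g⁻¹) from
      fun g A B C => by group, e1, e2, e3]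
  have h0 := key i0 (fun x y z => (-x, -y, z)) fun x y z => by
    have e1 := hG_conj h i0 ⟨9, l9⟩ hne x
    have e2 := hG_conj h i0 ⟨10, l10⟩ hne y
    have e3 := hG_conj h i0 ⟨11, l11⟩ hne z
    simp only [show ((i0 : Fin chevG2.rank) : ℕ) = 0 from rfl, k09, k010, k011, zpow_zero, one_mul,
      zpow_one, Odd.neg_one_zpow (show Odd (3 : ℤ) from ⟨1, rfl⟩), neg_one_mul] at e1 e2 e3 ⊢
    rw [show ∀ g A B C : GL chevG2.Idx F,
      g * (A * B * C) * g⁻¹ = g * A * g⁻¹ * (g * B * g⁻¹) * (g * C * g⁻¹) from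
      fun g A B C => by group, e1, e2, e3]
  simp only [add_neg_cancel, xG_zero, mul_one, one_mul] at h1 h0
  have ha := halve hp2 h 9 a (by rwa [two_mul])
  have hc := halve hp2 h 11 c (by rwa [two_mul])
  refine ⟨ha, ?_, hc⟩
  have := mul_mem (mul_mem (inv_mem ha) hm) (inv_mem hc)
  rwa [show ∀ A B C : GL chevG2.Idx F, A⁻¹ * (A * B * C) * C⁻¹ = B from
    fun A B C => by group] at this

theorem exists_top_G2 {p : ℕ} [Fact p.Prime] [CharP F p] {h : Full chevG2 A} (P : Props h tblG2)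
    (hS : Setting h φ H) {y : GL chevG2.Idx F} (hyH : y ∈ H)
    (hyU : y ∈ chevG2.posUnipotent F) (hy : frob φ y ≠ y) : ∃ t ∈ topSet h H, φ t ≠ t := by
  obtain ⟨l6, l7, l8, l9, l10, l11⟩ := lt_nroots_G2
  obtain ⟨n67, n76, n610, n96, n910, n911, n1011⟩ := neg_G2
  obtain ⟨e610, e96, e910, e911, e1011⟩ := commTerms_six
  have hdom : dom chevG2 tblG2 6 = 11 ∧ dom chevG2 tblG2 7 = 9 ∧ dom chevG2 tblG2 8 = 9 ∧
      dom chevG2 tblG2 10 = 11 := by decide +kernel
  obtain ⟨d6, d7, d8, d10⟩ := hdom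
  have m6 : ∀ x : F, xG h.cert 6 x ∈ H ↔ xG h.cert 11 x ∈ H := fun x => by
    rw [mem_dom_iff P hS l6, d6]
  have m7 : ∀ x : F, xG h.cert 7 x ∈ H ↔ xG h.cert 9 x ∈ H := fun x => by
    rw [mem_dom_iff P hS l7, d7]
  have m8 : ∀ x : F, xG h.cert 8 x ∈ H ↔ xG h.cert 9 x ∈ H := fun x => by
    rw [mem_dom_iff P hS l8, d8]
  have m10 : ∀ x : F, xG h.cert 10 x ∈ H ↔ xG h.cert 11 x ∈ H := fun x => by
    rw [mem_dom_iff P hS l10, d10]
  suffices hkey : ∃ t, φ t ≠ t ∧ xG h.cert 11 t ∈ H by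
    obtain ⟨t, ht, htH⟩ := hkey
    exact ⟨t, htH, ht⟩
  rcases exists_seed P hS hyH hyU hy with ⟨t, ht, htH⟩ | ⟨hp, -, t, v, ht, hv, hg, -⟩
  · exact ⟨t, ht, htH⟩
  have hp3 : p = 3 :=
    (Nat.prime_dvd_prime_iff_eq (Fact.out : p.Prime) Nat.prime_three).1 hp
  subst hp3
  have h10 : chevG2.IsPosRoot 10 ∧ chevG2.IsPosRoot 11 := by decide +kernel
  obtain ⟨b, w, hw, rfl⟩ := split_at h h.toStd.isClosed_pos
    (show 10 ∈ {r | chevG2.IsPosRoot r} from h10.1) hv
  obtain ⟨c, w', hw', rfl⟩ := split_at h h.toStd.isClosed_pos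
    (show 11 ∈ {r | chevG2.IsPosRoot r} from h10.2) hw
  rw [rootsU_inter_empty h.cert (fun r hr => hr.1) (by decide +kernel) hw', mul_one] at hg
  rw [← mul_assoc] at hg
  have h9 : xG h.cert 9 t ∈ H := (split_top_three (by norm_num) hS hg).1
  have := terms_mem h l6 l7 (by decide) n67
    (xG_fixed_mem hS 6 (map_one φ) : xG h.cert 6 (1 : F) ∈ H) ((m7 t).2 h9)
  simp only [terms, commTerms67, List.map_cons, List.map_nil, List.prod_cons, List.prod_nil,
    mul_one, Int.cast_neg, Int.cast_one, Int.cast_ofNat, one_pow, one_mul, pow_one, neg_mul] at this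
  have hrest := mul_mem (inv_mem ((m8 t).2 h9)) this
  rw [inv_mul_cancel_left, ← mul_assoc] at hrest
  obtain ⟨-, h', -⟩ := split_top_three (by norm_num) hS hrest
  rw [← xG_inv, inv_mem_iff, m10] at h'
  exact ⟨t ^ 3, fun e => ht (frobenius_inj F 3 (by
    simp only [frobenius_def]; rw [← map_pow, e])), h'⟩

theorem mul_mem_G2 {h : Full chevG2 A} (P : Props h tblG2) (hS : Setting h φ H) {x y : F}
    (hx : x ∈ topSet h H) (hy : y ∈ topSet h H) : x * y ∈ topSet h H := by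
  obtain ⟨l6, l7, l8, l9, l10, l11⟩ := lt_nroots_G2
  obtain ⟨n67, n76, n610, n96, n910, n911, n1011⟩ := neg_G2
  obtain ⟨e610, e96, e910, e911, e1011⟩ := commTerms_six
  exact mul_mem_of_triple (r := 6) (d := 10) (e := 11) (c := 1) P hS l6 l10 l11 (by decide)
    n610 (Or.inl rfl) e610 (by decide) (by decide) (by decide) hx hy

theorem pair_G2 {h : Full chevG2 A} (P : Props h tblG2) (hS : Setting h φ H) {x : F}
    (hx : x ∈ topSet h H) : xG h.cert 8 x * xG h.cert 9 x ∈ H := by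
  obtain ⟨l6, l7, l8, l9, l10, l11⟩ := lt_nroots_G2
  obtain ⟨n67, n76, n610, n96, n910, n911, n1011⟩ := neg_G2
  obtain ⟨e610, e96, e910, e911, e1011⟩ := commTerms_six
  have hdom : dom chevG2 tblG2 6 = 11 ∧ dom chevG2 tblG2 7 = 9 ∧ dom chevG2 tblG2 8 = 9 ∧
      dom chevG2 tblG2 10 = 11 := by decide +kernel
  obtain ⟨d6, d7, d8, d10⟩ := hdom
  have m6 : ∀ x : F, xG h.cert 6 x ∈ H ↔ xG h.cert 11 x ∈ H := fun x => by
    rw [mem_dom_iff P hS l6, d6]
  have m7 : ∀ x : F, xG h.cert 7 x ∈ H ↔ xG h.cert 9 x ∈ H := fun x => by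
    rw [mem_dom_iff P hS l7, d7]
  have m8 : ∀ x : F, xG h.cert 8 x ∈ H ↔ xG h.cert 9 x ∈ H := fun x => by
    rw [mem_dom_iff P hS l8, d8]
  have m10 : ∀ x : F, xG h.cert 10 x ∈ H ↔ xG h.cert 11 x ∈ H := fun x => by
    rw [mem_dom_iff P hS l10, d10]
  have h10 : xG h.cert 10 (-x) ∈ H := by
    rw [← xG_inv]; exact inv_mem ((m10 x).2 hx)
  have h11 : xG h.cert 11 (-(2 * x ^ 2)) ∈ H := by
    have hsq : xG h.cert 11 (x * x) ∈ H := mul_mem_G2 P hS hx hx
    rw [← xG_inv, two_mul, ← xG_mul, sq]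
    exact inv_mem (mul_mem hsq hsq)
  have := terms_mem h l6 l7 (by decide) n67 ((m6 x).2 hx)
    (xG_fixed_mem hS 7 (map_one φ) : xG h.cert 7 (1 : F) ∈ H)
  simp only [terms, commTerms67, List.map_cons, List.map_nil, List.prod_cons, List.prod_nil,
    mul_one, Int.cast_neg, Int.cast_one, Int.cast_ofNat, one_pow, one_mul, pow_one, neg_mul] at this
  rw [← mul_assoc, ← mul_assoc] at this
  exact (Subgroup.mul_mem_cancel_right H h10).1
    ((Subgroup.mul_mem_cancel_right H h11).1 this)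

/-- The short root elements with parameters at the highest root, when those form a larger field. -/
theorem mem_G2 {h : Full chevG2 A} (P : Props h tblG2) (hS : Setting h φ H) (K : Subfield F)
    (hK : ∀ x, x ∈ topSet h H ↔ x ∈ K) {x : F} (hx : x ∈ topSet h H) {r : ℕ}
    (hr : r < chevG2.nroots) : xG h.cert r x ∈ H := by
  refine mem_of_dom P hS hr hx fun _ => ?_
  by_cases hall : ∀ t ∈ topSet h H, φ t = t
  · exact xG_fixed_mem hS _ (hall x hx)
  push Not at hall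
  obtain ⟨t, htH, ht⟩ := hall
  obtain ⟨l6, l7, l8, l9, l10, l11⟩ := lt_nroots_G2
  obtain ⟨n67, n76, n610, n96, n910, n911, n1011⟩ := neg_G2
  obtain ⟨e610, e96, e910, e911, e1011⟩ := commTerms_six
  have hdom : dom chevG2 tblG2 6 = 11 ∧ dom chevG2 tblG2 7 = 9 ∧ dom chevG2 tblG2 8 = 9 ∧
      dom chevG2 tblG2 10 = 11 := by decide +kernel
  obtain ⟨d6, d7, d8, d10⟩ := hdom
  have m6 : ∀ x : F, xG h.cert 6 x ∈ H ↔ xG h.cert 11 x ∈ H := fun x => by
    rw [mem_dom_iff P hS l6, d6]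
  have m7 : ∀ x : F, xG h.cert 7 x ∈ H ↔ xG h.cert 9 x ∈ H := fun x => by
    rw [mem_dom_iff P hS l7, d7]
  have m8 : ∀ x : F, xG h.cert 8 x ∈ H ↔ xG h.cert 9 x ∈ H := fun x => by
    rw [mem_dom_iff P hS l8, d8]
  have m10 : ∀ x : F, xG h.cert 10 x ∈ H ↔ xG h.cert 11 x ∈ H := fun x => by
    rw [mem_dom_iff P hS l10, d10]
  have hrefl : chevG2.reflectRoot 1 8 = 7 ∧ chevG2.reflectRoot 1 9 = 9 := by decide +kernel
  let i1 : Fin chevG2.rank := ⟨1, by decide⟩
  obtain ⟨ε, hε, hc⟩ := nG_conj_sign (F := F) h i1 ⟨8, l8⟩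
  obtain ⟨ε', hε', hc'⟩ := nG_conj_sign (F := F) h i1 ⟨9, l9⟩
  obtain ⟨z, hz⟩ : ∃ z : F, z ≠ 0 ∧ z ∈ K ∧ ∀ u : F, u ∈ K → xG h.cert 9 (z * u) ∈ H := by
    have htK : t ∈ K := (hK t).1 htH
    have hεK : ε ∈ K := by rcases hε with rfl | rfl <;> simp
    refine ⟨t ^ 2 + ε * t, fun e => ?_, add_mem (pow_mem htK 2) (mul_mem hεK htK), fun u hu => ?_⟩
    · rcases mul_eq_zero.1 (show t * (t + ε) = 0 by rw [← e]; ring) with rfl | h4
      · exact ht (map_zero φ)
      · rw [eq_neg_of_add_eq_zero_left h4] at ht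
        rcases hε with rfl | rfl <;> simp at ht
    have hf := mul_mem (mul_mem (nG_mem hS (chevG2.simple i1)) (pair_G2 P hS htH))
      (inv_mem (nG_mem hS (chevG2.simple i1)))
    rw [show ∀ n x y : GL chevG2.Idx F, n * (x * y) * n⁻¹ = n * x * n⁻¹ * (n * y * n⁻¹) from
      fun n x y => by group, hc, hc', show chevG2.reflectRoot i1 8 = 7 from hrefl.1,
      show chevG2.reflectRoot i1 9 = 9 from hrefl.2] at hf
    have hx' := (m6 u).2 ((hK u).2 hu)
    have hterm := mul_mem (inv_mem hx') (mul_mem (mul_mem hf hx') (inv_mem hf))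
    rw [show xG h.cert 7 (ε * t) * xG h.cert 9 (ε' * t) * xG h.cert 6 u *
        (xG h.cert 7 (ε * t) * xG h.cert 9 (ε' * t))⁻¹ =
      xG h.cert 7 (ε * t) * (xG h.cert 9 (ε' * t) * xG h.cert 6 u * (xG h.cert 9 (ε' * t))⁻¹) *
        (xG h.cert 7 (ε * t))⁻¹ by group,
      (commute_of_terms h l9 l6 (by decide) n96 e96 (ε' * t) u).eq, mul_inv_cancel_right,
      conj_eq_terms h l7 l6 (by decide) n76, inv_mul_cancel_left] at hterm
    simp only [terms, commTerms76, List.map_cons, List.map_nil, List.prod_cons, List.prod_nil,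
      mul_one, Int.cast_neg, Int.cast_one, pow_one, one_mul, neg_mul] at hterm
    rw [← mul_assoc, ← mul_assoc] at hterm
    have hlong : ∀ {w : F}, w ∈ K → xG h.cert 10 w ∈ H ∧ xG h.cert 11 w ∈ H := fun hw =>
      ⟨(m10 _).2 ((hK _).2 hw), (hK _).2 hw⟩
    have h89 := (Subgroup.mul_mem_cancel_right H (hlong ?_).1).1
      ((Subgroup.mul_mem_cancel_right H (hlong ?_).2).1 hterm)
    have := mul_mem (inv_mem (pair_G2 P hS (x := -(ε * t * u)) ((hK _).2 ?_))) h89
    rw [_root_.mul_inv_rev, mul_assoc, inv_mul_cancel_left, xG_inv, neg_neg, xG_mul,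
      show ε * t * u + (ε * t) ^ 2 * u = (t ^ 2 + ε * t) * u by
        rcases hε with rfl | rfl <;> ring] at this
    exact this
    all_goals
      first
      | exact neg_mem (mul_mem (mul_mem hεK htK) hu)
      | apply_rules [mul_mem, neg_mem, pow_mem, add_mem, natCast_mem, intCast_mem, one_mem]
  have hxK := (hK x).1 hx
  have := hz.2.2 (z⁻¹ * x) (mul_mem (inv_mem hz.2.1) hxK)
  rwa [mul_inv_cancel_left₀ hz.1] at this

end CfsgLib.ClassK.Subfield
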