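import Cfsg.Agent.Lib.ClassK.Subfield.FillB2

/-!
Types `F₄` and the simply laced ones: a non-fixed element of `U` in a subgroup containing the
fixed points gives the whole group.
-/

set_option autoImplicit false
set_option linter.unusedSectionVars false

namespace CfsgLib.ClassK.Subfield

open Cfsg.Lie CfsgLib.Chevalley

variable {D : ChevalleyDatum} {A : Aux} {F : Type*} [Field F] [Fintype F] {φ : F →+* F}

theorem exists_top_simplyLaced {H : Subgroup (GL D.Idx F)} {p : ℕ} [Fact p.Prime] [CharP F p]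
    {h : Full D A} {T : Tbl} (P : Props h T) (hs : T.s = 0)
    (hS : Setting h φ H) {y : GL D.Idx F} (hyH : y ∈ H) (hyU : y ∈ D.posUnipotent F)
    (hy : frob φ y ≠ y) : ∃ t ∈ topSet h H, φ t ≠ t := by
  rcases exists_seed P hS hyH hyU hy with ⟨t, ht, htH⟩ | ⟨-, hpos, -⟩
  · exact ⟨t, htH, ht⟩
  · rw [hs] at hpos
    have := h.pos.isPos_iff.1 hpos
    have := h.pos.half_pos
    omega

theorem lt_nroots_F4 : 26 < chevF4.nroots ∧ 27 < chevF4.nroots ∧ 30 < chevF4.nroots ∧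
    32 < chevF4.nroots ∧ 33 < chevF4.nroots ∧ 40 < chevF4.nroots ∧ 43 < chevF4.nroots ∧
    44 < chevF4.nroots ∧ 45 < chevF4.nroots := by decide +kernel

theorem commTerms_F4 : chevF4.commTerms 26 30 = [(32, -1, 1, 1)] ∧
    chevF4.commTerms 27 43 = [(44, 1, 1, 1), (45, 1, 2, 1)] ∧
    chevF4.commTerms 40 33 = [(44, -1, 1, 1)] := by decide +kernel

theorem exists_top_F4 {H : Subgroup (GL chevF4.Idx F)} {p : ℕ} [Fact p.Prime] [CharP F p]
    {h : Full chevF4 A} (P : Props h tblF4) (hS : Setting h φ H)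
    {y : GL chevF4.Idx F} (hyH : y ∈ H) (hyU : y ∈ chevF4.posUnipotent F) (hy : frob φ y ≠ y) :
    ∃ t ∈ topSet h H, φ t ≠ t := by
  obtain ⟨l26, l27, l30, l32, l33, l40, l43, l44, l45⟩ := lt_nroots_F4
  obtain ⟨e2630, e2743, e4033⟩ := commTerms_F4
  have hneg : 30 ≠ chevF4.neg 26 ∧ 43 ≠ chevF4.neg 27 ∧ 33 ≠ chevF4.neg 40 := by decide +kernel
  have hdom : dom chevF4 tblF4 27 = 44 ∧ dom chevF4 tblF4 43 = 47 ∧ dom chevF4 tblF4 45 = 47 := by
    decide +kernel
  obtain ⟨d27, d43, d45⟩ := hdom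
  have htop : topRoot chevF4 = 47 := by decide +kernel
  suffices hkey : ∃ t, φ t ≠ t ∧ xG h.cert 47 t ∈ H by
    obtain ⟨t, ht, htH⟩ := hkey
    exact ⟨t, show xG h.cert (topRoot chevF4) t ∈ H by rw [htop]; exact htH, ht⟩
  rcases exists_seed P hS hyH hyU hy with ⟨t, ht, htH⟩ | ⟨hp, -, t, v, ht, hv, hg, -⟩
  · exact ⟨t, ht, htop ▸ htH⟩
  have hp2 : p = 2 := (Nat.prime_dvd_prime_iff_eq (Fact.out : p.Prime) Nat.prime_two).1 hp
  subst hp2
  -- a pure short parameter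
  let i0 : Fin chevF4.rank := ⟨0, by decide⟩
  have hfix : ∀ r : Fin chevF4.nroots, chevF4.IsPosRoot r → 45 ≤ (r : ℕ) →
      chevF4.reflectRoot 0 r = (r : ℕ) ∧ chevF4.commTerms r 33 = [] ∧ (33 : ℕ) ≠ chevF4.neg r := by
    decide +kernel
  obtain ⟨ε, hε, hc⟩ := nG_conj_sign (F := F) h i0 ⟨44, l44⟩
  set n := nG h.cert (chevF4.simple i0) (1 : F)
  have hx33 : xG h.cert 33 (1 : F) ∈ H := xG_fixed_mem hS 33 (map_one φ)
  have hv' : n * v * n⁻¹ ∈ Subgroup.centralizer {xG h.cert 33 (1 : F)} := by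
    refine rootsU_conj_le h.cert (fun r hr u => ?_) v hv
    obtain ⟨hrp, hr45⟩ : chevF4.IsPosRoot r ∧ 45 ≤ r := ⟨hr.1, hr.2⟩
    obtain ⟨f1, f2, f3⟩ := hfix ⟨r, hrp.1⟩ hrp hr45
    obtain ⟨ε', -, hc'⟩ := nG_conj_sign (F := F) h i0 ⟨r, hrp.1⟩
    have h' := hc' u
    rw [show chevF4.reflectRoot i0 ((⟨r, hrp.1⟩ : Fin chevF4.nroots) : ℕ) = r from f1] at h'
    rw [show n * xG h.cert r u * n⁻¹ = xG h.cert r (ε' * u) from h']
    exact Subgroup.mem_centralizer_singleton_iff.2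
      (commute_of_terms h hrp.1 l33 (show 33 ≠ r by omega) f3 f2 _ _)
  have hg' := mul_mem (mul_mem (nG_mem hS (chevF4.simple i0)) hg)
    (inv_mem (nG_mem hS (chevF4.simple i0)))
  have hk : xG h.cert 33 (1 : F) ∈ H := hx33
  have hterm := mul_mem (inv_mem hk) (mul_mem (mul_mem hg' hk) (inv_mem hg'))
  have e : (xG h.cert 33 (1 : F))⁻¹ * (n * (xG h.cert tblF4.s t * v) * n⁻¹ * xG h.cert 33 1 *
      (n * (xG h.cert tblF4.s t * v) * n⁻¹)⁻¹) = xG h.cert 44 (-(ε * t)) := by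
    rw [show n * (xG h.cert tblF4.s t * v) * n⁻¹ = n * xG h.cert tblF4.s t * n⁻¹ * (n * v * n⁻¹) by
      group]
    set v' := n * v * n⁻¹
    have hcv : Commute v' (xG h.cert 33 (1 : F)) := Subgroup.mem_centralizer_singleton_iff.1 hv'
    rw [show n * xG h.cert tblF4.s t * n⁻¹ = xG h.cert 40 (ε * t) by
      rw [show tblF4.s = ((⟨44, l44⟩ : Fin chevF4.nroots) : ℕ) from rfl, hc,
        show chevF4.reflectRoot i0 44 = 40 by decide +kernel],
      show ∀ a b c : GL chevF4.Idx F, a * b * c * (a * b)⁻¹ = a * (b * c * b⁻¹) * a⁻¹ from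
        fun a b c => by group, hcv.eq, mul_inv_cancel_right,
      conj_eq_terms h l40 l33 (by decide) hneg.2.2, inv_mul_cancel_left, terms, e4033]
    simp
  rw [e, ← xG_inv, inv_mem_iff, xG_sign_iff h 44 hε] at hterm
  -- short to long
  have h27 : xG h.cert 27 t ∈ H := by rw [mem_dom_iff P hS l27, d27]; exact hterm
  have := terms_mem h l27 l43 (by decide) hneg.2.1 h27
    (xG_fixed_mem hS 43 (map_one φ) : xG h.cert 43 (1 : F) ∈ H)
  simp only [terms, e2743, List.map_cons, List.map_nil, List.prod_cons, List.prod_nil, mul_one,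
    Int.cast_one, one_mul, pow_one] at this
  have h45 := mul_mem (inv_mem hterm) this
  rw [inv_mul_cancel_left, mem_dom_iff P hS l45, d45] at h45
  refine ⟨t ^ 2, fun e => ht (CharTwo.sq_injective ?_), h45⟩
  show φ t ^ 2 = t ^ 2
  rw [← map_pow, e]

theorem mem_F4 {H : Subgroup (GL chevF4.Idx F)}
    {h : Full chevF4 A} (P : Props h tblF4) (hS : Setting h φ H) {x : F}
    (hx : x ∈ topSet h H) {r : ℕ} (hr : r < chevF4.nroots) : xG h.cert r x ∈ H := by
  obtain ⟨l26, l27, l30, l32, l33, l40, l43, l44, l45⟩ := lt_nroots_F4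
  obtain ⟨e2630, e2743, e4033⟩ := commTerms_F4
  have hneg : 43 ≠ chevF4.neg 27 := by decide +kernel
  have hdom : dom chevF4 tblF4 43 = 47 ∧ dom chevF4 tblF4 45 = 47 := by decide +kernel
  obtain ⟨d43, d45⟩ := hdom
  have htop : topRoot chevF4 = 47 := by decide +kernel
  have hlong : xG h.cert 47 x ∈ H := htop ▸ hx
  refine mem_of_dom P hS hr hx fun _ => ?_
  have := terms_mem h l27 l43 (by decide) hneg
    (xG_fixed_mem hS 27 (map_one φ) : xG h.cert 27 (1 : F) ∈ H)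
    (show xG h.cert 43 x ∈ H by rw [mem_dom_iff P hS l43, d43]; exact hlong)
  simp only [terms, e2743, List.map_cons, List.map_nil, List.prod_cons, List.prod_nil, mul_one,
    Int.cast_one, one_mul, pow_one, one_pow] at this
  exact (Subgroup.mul_mem_cancel_right H
    (show xG h.cert 45 x ∈ H by rw [mem_dom_iff P hS l45, d45]; exact hlong)).1 this

theorem mul_mem_F4 {H : Subgroup (GL chevF4.Idx F)}
    {h : Full chevF4 A} (P : Props h tblF4) (hS : Setting h φ H) {x y : F}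
    (hx : x ∈ topSet h H) (hy : y ∈ topSet h H) : x * y ∈ topSet h H := by
  obtain ⟨l26, l27, l30, l32, l33, l40, l43, l44, l45⟩ := lt_nroots_F4
  obtain ⟨e2630, -, -⟩ := commTerms_F4
  exact mul_mem_of_triple P hS l26 l30 l32 (by decide) (show 30 ≠ chevF4.neg 26 by decide +kernel)
    (Or.inr rfl) e2630 (by decide) (by decide) (by decide) hx hy

end CfsgLib.ClassK.Subfield
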