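import Cfsg.Agent.Lib.ClassK.Subfield.Rigid
import Cfsg.Agent.Lib.ClassK.Subfield.Coord

/-!
In characteristic two there is an involution over the fixed field that is not conjugate to the
highest root element: the simple coordinates of an element of `U` are conjugation invariant.
-/

set_option autoImplicit false
set_option linter.unusedSectionVars false

open Matrix

namespace CfsgLib.ClassK.Subfield

open Cfsg.Lie CfsgLib.Chevalley CfsgLib.ClassK.Grading CfsgLib.ClassK.BorelTits

variable {D : ChevalleyDatum} {A : Aux} {F : Type*} [Field F] [Fintype F]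

/-- An element of `U` conjugate to the highest root element has at most one non-zero simple
coordinate, at a fundamental root conjugate to the highest one. -/
theorem simple_of_conj (h : Full D A) {g x1 : GL D.Idx F} (hg : g ∈ D.group F)
    (hx1 : x1 ∈ D.posUnipotent F) (e : g * xG h.cert (topRoot D) 1 * g⁻¹ = x1) :
    ∃ q : List (Fin D.rank), ∀ j i, coord h.cert j i x1 ≠ 0 →
      wPerm h.cert q (topFin h) = smp h.cert i := by
  obtain ⟨u, hu, n, hn, σ, η, hA, e'⟩ := conj_top_form h hg
  obtain ⟨q, t, ht, rfl⟩ := (mem_monomial_iff h).1 hn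
  obtain ⟨c, rfl⟩ : t ∈ (torusHom D F).range := by rwa [← diagonalSubgroup_eq_range h]
  obtain ⟨η', hA'⟩ := acts_nW (F := F) h q
  have hσ : σ = wPerm h.cert q := by rw [hA.perm_eq (hA'.mul (acts_torus h.cert c)), mul_one]
  rw [e] at e'
  have hpos : D.IsPosRoot (σ (topFin h) : Fin D.nroots) := by
    refine (h.pos.pos_or_neg (Fin.isLt _)).resolve_right fun hneg => ?_
    have hv : xG h.cert (σ (topFin h) : Fin D.nroots) (η (topFin h)) ∈ D.borelSubgroup F := by
      rw [show xG h.cert (σ (topFin h) : Fin D.nroots) (η (topFin h)) = u⁻¹ * x1 * u by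
        rw [e']; group]
      exact Subgroup.mem_sup_left (mul_mem (mul_mem (inv_mem hu) hx1) hu)
    have h1 : xG h.cert (σ (topFin h) : Fin D.nroots) (η (topFin h)) = 1 := by
      rw [← Subgroup.mem_bot, ← borel_inf_negUnipotent h]
      exact ⟨hv, xG_mem_rootsU (S := {r | D.IsNegRoot r}) h.cert hneg _⟩
    exact hA.ne_zero _ (xG_injective h.cert (Fin.isLt _) (h1.trans (xG_zero h.cert _).symm))
  refine ⟨q, fun j i hne => ?_⟩
  rw [e', coord_conj h j i (xG_mem_rootsU (S := {r | D.IsPosRoot r}) h.cert hpos _) hu,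
    coord_xG h] at hne
  rw [← hσ]
  by_contra hc
  exact hne (if_neg hc)

theorem simple_inj (h : Full D A) {i j : Fin D.rank} (e : smp h.cert i = smp h.cert j) : i = j := by
  by_contra hne
  have h1 := crd_simple h.cert (i := i) (j := i) i.isLt i.isLt
  have h2 := crd_simple h.cert (i := i) (j := j) i.isLt j.isLt
  rw [show D.simple i = D.simple j from congrArg Fin.val e, h2] at h1
  simp [Fin.val_ne_of_ne hne] at h1

variable (φ : F →+* F)

/-- Two commuting fundamental roots give an involution outside the class. -/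
theorem exists_invol_of_pair (h : Full D A) [CharP F 2] {i k : Fin D.rank} (hik : i ≠ k)
    (hc : D.commTerms (D.simple i) (D.simple k) = []) :
    ∃ x1 ∈ fixElem h.cert φ, x1 ≠ 1 ∧ x1 * x1 = 1 ∧
      ∀ g ∈ D.group F, g * xG h.cert (topRoot D) (1 : F) * g⁻¹ ≠ x1 := by
  set a := xG h.cert (D.simple i) (1 : F)
  set b := xG h.cert (D.simple k) (1 : F)
  have ha : a ∈ D.posUnipotent F :=
    xG_mem_rootsU (S := {r | D.IsPosRoot r}) h.cert (h.simple_pos i.isLt) _
  have hb : b ∈ D.posUnipotent F :=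
    xG_mem_rootsU (S := {r | D.IsPosRoot r}) h.cert (h.simple_pos k.isLt) _
  have hcomm : Commute a b := commute_of_terms h (h.cert.wf.simple_lt i i.isLt)
    (h.cert.wf.simple_lt k k.isLt) (fun e => hik (simple_inj h (Fin.ext e.symm)))
    (h.toStd.ne_neg (h.simple_pos i.isLt) (h.simple_pos k.isLt)) hc 1 1
  have hne : ∀ l m : Fin D.rank, ∀ j : Fin D.rank, l ≠ m →
      coord h.cert j l (xG h.cert (smp h.cert m) (1 : F)) = 0 := fun l m j hlm => by
    rw [coord_xG h, if_neg (fun e => hlm (simple_inj h e).symm)]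
  have hself : ∀ l : Fin D.rank, ∃ j : Fin D.rank,
      coord h.cert j l (xG h.cert (smp h.cert l) (1 : F)) ≠ 0 := fun l => by
    obtain ⟨j, hj, hne⟩ := h.pos.cor_primitive h.cert (K := F) (smp h.cert l).isLt
    exact ⟨⟨j, hj⟩, by rw [coord_xG h, if_pos rfl, mul_one]; exact hne⟩
  obtain ⟨ji, hji⟩ := hself i
  obtain ⟨jk, hjk⟩ := hself k
  have hci : coord h.cert ji i (a * b) ≠ 0 := by
    rw [coord_mul h ji i ha hb,
      show coord h.cert ji i b = 0 from hne i k ji hik, add_zero]
    exact hji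
  have hck : coord h.cert jk k (a * b) ≠ 0 := by
    rw [coord_mul h jk k ha hb,
      show coord h.cert jk k a = 0 from hne k i jk (Ne.symm hik), zero_add]
    exact hjk
  refine ⟨a * b, mul_mem (xG_one_mem_fixElem h.cert φ _) (xG_one_mem_fixElem h.cert φ _),
    fun e => hci (by rw [e]; simp [coord]), ?_, fun g hg e => ?_⟩
  · have h2 : ∀ r, xG h.cert r (1 : F) * xG h.cert r 1 = 1 := fun r => by
      rw [xG_mul, CharTwo.add_self_eq_zero, xG_zero]
    rw [mul_assoc, ← mul_assoc b, ← hcomm.eq, mul_assoc a b b, h2, mul_one]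
    exact h2 _
  · obtain ⟨q, hq⟩ := simple_of_conj h hg (mul_mem ha hb) e
    exact hik (simple_inj h ((hq ji i hci).symm.trans (hq jk k hck)))

/-- A fundamental root outside the orbit of the highest gives an involution outside its class. -/
theorem exists_invol_of_orbit (h : Full D A) [CharP F 2] {sh : List ℕ} (hB : orbitB D sh = true)
    {i : Fin D.rank} (hi : D.simple i ∈ sh) (htop : topRoot D ∉ sh) :
    ∃ x1 ∈ fixElem h.cert φ, x1 ≠ 1 ∧ x1 * x1 = 1 ∧
      ∀ g ∈ D.group F, g * xG h.cert (topRoot D) (1 : F) * g⁻¹ ≠ x1 := by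
  have hpres : ∀ (q : List (Fin D.rank)) (r : Fin D.nroots),
      ((wPerm h.cert q r : Fin D.nroots) : ℕ) ∈ sh ↔ (r : ℕ) ∈ sh := by
    intro q
    induction q with
    | nil => intro r; rfl
    | cons a q ih =>
      intro r
      rw [wPerm_cons, Equiv.Perm.mul_apply, ← ih r]
      simp only [orbitB, Sparse.lall_eq, List.all_eq_true, List.mem_range, beq_iff_eq,
        List.elem_eq_mem, decide_eq_decide] at hB
      exact hB a a.isLt _ (Fin.isLt _)
  obtain ⟨j, hj, hne⟩ := h.pos.cor_primitive h.cert (K := F) (smp h.cert i).isLt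
  have hci : coord h.cert ⟨j, hj⟩ i (xG h.cert (smp h.cert i) (1 : F)) ≠ 0 := by
    rw [coord_xG h, if_pos rfl, mul_one]; exact hne
  refine ⟨xG h.cert (smp h.cert i) 1, xG_one_mem_fixElem h.cert φ _,
    fun e => hci (by rw [e]; simp [coord]), ?_, fun g hg e => ?_⟩
  · rw [xG_mul, CharTwo.add_self_eq_zero, xG_zero]
  · obtain ⟨q, hq⟩ := simple_of_conj h hg
      (xG_mem_rootsU (S := {r | D.IsPosRoot r}) h.cert (h.simple_pos i.isLt) _) e
    have h1 := hpres q (topFin h)
    rw [hq ⟨j, hj⟩ i hci] at h1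
    exact htop (h1.1 hi)

end CfsgLib.ClassK.Subfield
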