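import Cfsg.Agent.Lib.ClassK.Subfield.Centralizer
import Cfsg.Agent.Lib.ClassK.Subfield.FillG2
import Cfsg.Agent.Lib.ClassK.Subfield.FillRest

/-!
The fundamental roots lead elements of the closure of the highest root element in the seven data.
-/

set_option autoImplicit false
set_option maxRecDepth 100000
set_option linter.unusedSectionVars false

namespace CfsgLib.ClassK.Subfield

open Cfsg.Lie CfsgLib.Chevalley

variable {A : Aux} {F : Type*} [Field F] {φ : F →+* F}

theorem hasLead_B2 {h : Full chevB2 A} (P : Props h tblB2) : HasLead h φ := by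
  obtain ⟨l4, l5, l6, l7⟩ := lt_nroots_B2
  obtain ⟨n45, n54, n56, n57, n47, n67, n46⟩ := neg_B2
  have hl : 4 ∉ tblB2.sh ∧ 7 ∉ tblB2.sh := by decide
  have h4 := xG_one_mem_rootClosure (F := F) (φ := φ) P l4 (fun e => absurd e hl.1)
  have h7 := xG_one_mem_rootClosure (F := F) (φ := φ) P l7 (fun e => absurd e hl.2)
  refine fun i => hasLead_of_one P i fun _ => ?_
  show xG h.cert 6 (1 : F) ∈ _
  have := terms_mem_rootClosure h l5 l4 (by decide) n54 h4
  simp only [terms, commTerms54, List.map_cons, List.map_nil, List.prod_cons, List.prod_nil,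
    mul_one, one_pow, Int.cast_neg, Int.cast_one] at this
  rw [← xG_inv, ← xG_inv, ← _root_.mul_inv_rev, inv_mem_iff] at this
  exact (Subgroup.mul_mem_cancel_left _ h7).1 this

theorem hasLead_F4 {h : Full chevF4 A} (P : Props h tblF4) : HasLead h φ := by
  obtain ⟨l26, l27, l30, l32, l33, l40, l43, l44, l45⟩ := lt_nroots_F4
  obtain ⟨e2630, e2743, e4033⟩ := commTerms_F4
  have hl : 43 ∉ tblF4.sh ∧ 45 ∉ tblF4.sh := by decide
  have hneg : 43 ≠ chevF4.neg 27 := by decide +kernel
  have h43 := xG_one_mem_rootClosure (F := F) (φ := φ) P l43 (fun e => absurd e hl.1)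
  have h45 := xG_one_mem_rootClosure (F := F) (φ := φ) P l45 (fun e => absurd e hl.2)
  refine fun i => hasLead_of_one P i fun _ => ?_
  have := terms_mem_rootClosure h l27 l43 (by decide) hneg h43
  simp only [terms, e2743, List.map_cons, List.map_nil, List.prod_cons, List.prod_nil, mul_one,
    Int.cast_one, one_pow] at this
  exact (Subgroup.mul_mem_cancel_right _ h45).1 this

theorem hasLead_G2 {h : Full chevG2 A} (P : Props h tblG2) : HasLead h φ := by
  obtain ⟨l6, l7, l8, l9, l10, l11⟩ := lt_nroots_G2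
  obtain ⟨n67, n76, n610, n96, n910, n911, n1011⟩ := neg_G2
  have hs : chevG2.simple 0 = 7 ∨ chevG2.simple 1 = 7 := by decide +kernel
  have hl : ∀ i : Fin chevG2.rank, chevG2.simple i ∈ tblG2.sh → chevG2.simple i = 7 := by
    decide +kernel
  intro i
  by_cases hi : chevG2.simple i ∈ tblG2.sh
  swap
  · exact hasLead_of_one P i fun e => absurd e hi
  have hl' : 6 ∉ tblG2.sh ∧ 10 ∉ tblG2.sh ∧ 11 ∉ tblG2.sh := by decide
  have h6 := xG_one_mem_rootClosure (F := F) (φ := φ) P l6 (fun e => absurd e hl'.1)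
  have hlong : ∀ {r : ℕ}, r < chevG2.nroots → r ∉ tblG2.sh → ∀ c : ℕ,
      xG h.cert r (c : F) ∈ rootClosure h.cert φ := fun hr hns c => by
    have := pow_mem (xG_one_mem_rootClosure (F := F) (φ := φ) P hr fun e => absurd e hns) c
    rwa [xG_pow, mul_one] at this
  have hneg : ∀ {r : ℕ}, r < chevG2.nroots → r ∉ tblG2.sh → ∀ c : ℕ,
      xG h.cert r (-(c : F)) ∈ rootClosure h.cert φ := fun hr hns c => by
    rw [← xG_inv]; exact inv_mem (hlong hr hns c)
  have := terms_mem_rootClosure h l7 l6 (by decide) n76 h6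
  simp only [terms, commTerms76, List.map_cons, List.map_nil, List.prod_cons, List.prod_nil,
    mul_one, Int.cast_neg, Int.cast_one, Int.cast_ofNat, one_pow, one_mul, neg_mul] at this
  rw [← mul_assoc, ← mul_assoc] at this
  obtain ⟨a, b, hab, hm⟩ : ∃ a b : F, a ≠ 0 ∧ xG h.cert 8 a * xG h.cert 9 b ∈ rootClosure h.cert φ := by
    refine ⟨_, _, ?_, (Subgroup.mul_mem_cancel_right _ ?_).1
      ((Subgroup.mul_mem_cancel_right _ ?_).1 this)⟩
    · simp
    · first
        | exact_mod_cast hlong l10 hl'.2.1 1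
        | exact_mod_cast hlong l10 hl'.2.1 2
        | exact_mod_cast hneg l10 hl'.2.1 1
        | exact_mod_cast hneg l10 hl'.2.1 2
    · first
        | exact_mod_cast hlong l11 hl'.2.2 1
        | exact_mod_cast hlong l11 hl'.2.2 2
        | exact_mod_cast hneg l11 hl'.2.2 1
        | exact_mod_cast hneg l11 hl'.2.2 2
  have hrefl : chevG2.reflectRoot 1 8 = 7 ∧ chevG2.reflectRoot 1 9 = 9 := by decide +kernel
  let i1 : Fin chevG2.rank := ⟨1, by decide⟩
  obtain ⟨ε, hε, hc⟩ := nG_conj_sign (F := F) h i1 ⟨8, l8⟩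
  obtain ⟨ε', hε', hc'⟩ := nG_conj_sign (F := F) h i1 ⟨9, l9⟩
  have hm' := rootClosure_conj h.cert (nG_mem_fixElem h.cert (chevG2.simple i1) (map_one φ)) hm
  rw [show ∀ n x y : GL chevG2.Idx F, n * (x * y) * n⁻¹ = n * x * n⁻¹ * (n * y * n⁻¹) from
    fun n x y => by group, hc, hc', show chevG2.reflectRoot i1 8 = 7 from hrefl.1,
    show chevG2.reflectRoot i1 9 = 9 from hrefl.2] at hm'
  refine ⟨ε * a, mul_ne_zero (by rcases hε with rfl | rfl <;> simp) hab, _, ?_,
    (hl i hi) ▸ hm'⟩
  have h9 : chevG2.IsPosRoot 9 := by decide +kernel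
  exact xG_mem_rootsU h.cert (show 9 ∈ {r | chevG2.IsPosRoot r} ∩ Set.Ici (chevG2.simple i + 1) from
    ⟨h9, show chevG2.simple i + 1 ≤ 9 by rw [hl i hi]; omega⟩) _

end CfsgLib.ClassK.Subfield
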