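import Cfsg.Agent.Lib.ClassK.Subfield.Leading
import Cfsg.Agent.Lib.ClassK.Subfield.Involution

/-!
A subgroup of a Chevalley group over a finite field containing the elementary group over a
subfield lies between the elementary group and the fixed points over an intermediate field.
-/

set_option autoImplicit false
set_option maxRecDepth 100000
set_option linter.unusedSectionVars false

namespace CfsgLib.ClassK.Subfield

open Cfsg.Lie CfsgLib.Chevalley

theorem pair_D4 : ∃ i k : Fin chevD4.rank, i ≠ k ∧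
    chevD4.commTerms (chevD4.simple i) (chevD4.simple k) = [] :=
  ⟨⟨0, by decide⟩, ⟨2, by decide⟩, by decide, by decide +kernel⟩

theorem pair_F4 : ∃ i k : Fin chevF4.rank, i ≠ k ∧
    chevF4.commTerms (chevF4.simple i) (chevF4.simple k) = [] :=
  ⟨⟨0, by decide⟩, ⟨2, by decide⟩, by decide, by decide +kernel⟩

theorem pair_E6 : ∃ i k : Fin chevE6.rank, i ≠ k ∧
    chevE6.commTerms (chevE6.simple i) (chevE6.simple k) = [] :=
  ⟨⟨0, by decide⟩, ⟨1, by decide⟩, by decide, by decide +kernel⟩

theorem pair_E7 : ∃ i k : Fin chevE7.rank, i ≠ k ∧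
    chevE7.commTerms (chevE7.simple i) (chevE7.simple k) = [] :=
  ⟨⟨0, by decide⟩, ⟨1, by decide⟩, by decide, by decide +kernel⟩

theorem pair_E8 : ∃ i k : Fin chevE8.rank, i ≠ k ∧
    chevE8.commTerms (chevE8.simple i) (chevE8.simple k) = [] :=
  ⟨⟨0, by decide⟩, ⟨1, by decide⟩, by decide, by decide +kernel⟩

theorem triple_simplyLaced :
    chevD4.commTerms 12 14 = [(15, 1, 1, 1)] ∧ chevE6.commTerms 36 37 = [(38, 1, 1, 1)] ∧
      chevE7.commTerms 63 64 = [(65, 1, 1, 1)] ∧ chevE8.commTerms 120 121 = [(122, 1, 1, 1)] := by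
  decide +kernel

theorem neg_simplyLaced : (15 < chevD4.nroots ∧ 14 ≠ chevD4.neg 12) ∧
    (38 < chevE6.nroots ∧ 37 ≠ chevE6.neg 36) ∧ (65 < chevE7.nroots ∧ 64 ≠ chevE7.neg 63) ∧
    (122 < chevE8.nroots ∧ 121 ≠ chevE8.neg 120) := by
  decide +kernel

variable {D : ChevalleyDatum} {A : Aux} {F : Type*} [Field F] [Fintype F] {φ : F →+* F}
  {H : Subgroup (GL D.Idx F)}

/-- The closure facts used for each datum. -/
structure Behaviour (h : Full D A) (φ : F →+* F) (H : Subgroup (GL D.Idx F)) (p : ℕ) : Prop where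
  /-- closure under multiplication -/
  mul : ∀ x ∈ topSet h H, ∀ y ∈ topSet h H, x * y ∈ topSet h H
  /-- all roots -/
  all : ∀ K : Subfield F, (∀ x, x ∈ topSet h H ↔ x ∈ K) → ∀ x ∈ topSet h H, ∀ r < D.nroots,
    xG h.cert r x ∈ H
  /-- a non-fixed unipotent element gives a non-fixed parameter -/
  top : ∀ ψ : F →+* F, Setting h ψ H → ∀ y ∈ H, y ∈ D.posUnipotent F → frob ψ y ≠ y →
    ∃ t ∈ topSet h H, ψ t ≠ t
  /-- leading elements -/
  lead : ∀ ψ : F →+* F, HasLead h ψ
  /-- an involution outside the class -/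
  inv : ∀ ψ : F →+* F, p = 2 → ∃ x1 ∈ fixElem h.cert ψ, x1 ≠ 1 ∧ x1 * x1 = 1 ∧
    ∀ g ∈ D.group F, g * xG h.cert (topRoot D) (1 : F) * g⁻¹ ≠ x1

theorem exists_behaviour {p : ℕ} [Fact p.Prime] [CharP F p]
    (hD : D ∈ [chevG2, chevB2, chevD4, chevF4, chevE6, chevE7, chevE8]) :
    ∃ (A : Aux) (h : Full D A) (T : Tbl), Props h T ∧
      ∀ (φ : F →+* F) (H : Subgroup (GL D.Idx F)), Setting h φ H → Behaviour h φ H p := by
  obtain ⟨A, h, T, P, hcase⟩ := exists_props hD
  refine ⟨A, h, T, P, fun φ H hS => ?_⟩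
  rcases hcase with ⟨rfl, rfl⟩ | ⟨rfl, rfl⟩ | ⟨rfl, rfl⟩ | ⟨hd, hs, hsh⟩
  · exact ⟨fun x hx y hy => mul_mem_G2 P hS hx hy, fun K hK x hx r hr => mem_G2 P hS K hK hx hr,
      fun ψ hψ y hy hyU hne => exists_top_G2 P hψ hy hyU hne, fun ψ => hasLead_G2 P,
      fun ψ hp => by
        subst hp
        exact exists_invol_of_orbit ψ h (sh := tblG2.sh) orbitG2 (i := ⟨0, by decide⟩)
          (by decide +kernel) (by decide +kernel)⟩
  · exact ⟨fun x hx y hy => mul_mem_B2 (p := p) P hS hx hy, fun K hK x hx r hr => mem_B2 P hS hx hr,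
      fun ψ hψ y hy hyU hne => exists_top_B2 P hψ hy hyU hne, fun ψ => hasLead_B2 P,
      fun ψ hp => by
        subst hp
        exact exists_invol_of_orbit ψ h (sh := tblB2.sh) orbitB2 (i := ⟨0, by decide⟩)
          (by decide +kernel) (by decide +kernel)⟩
  · exact ⟨fun x hx y hy => mul_mem_F4 P hS hx hy, fun K hK x hx r hr => mem_F4 P hS hx hr,
      fun ψ hψ y hy hyU hne => exists_top_F4 P hψ hy hyU hne, fun ψ => hasLead_F4 P,
      fun ψ hp => by
        subst hp
        obtain ⟨i, k, hik, hc⟩ := pair_F4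
        exact exists_invol_of_pair ψ h hik hc⟩
  · have hnsh : ∀ r, r ∉ T.sh := fun r => by simp [hsh]
    have hpair : ∃ i k : Fin D.rank, i ≠ k ∧ D.commTerms (D.simple i) (D.simple k) = [] := by
      rcases hd with rfl | rfl | rfl | rfl
      exacts [pair_D4, pair_E6, pair_E7, pair_E8]
    have htriple : ∃ r d e : ℕ, r < D.nroots ∧ d < D.nroots ∧ e < D.nroots ∧ d ≠ r ∧ d ≠ D.neg r ∧
        D.commTerms r d = [(e, 1, 1, 1)] := by
      obtain ⟨⟨a1, b1⟩, ⟨a2, b2⟩, ⟨a3, b3⟩, a4, b4⟩ := neg_simplyLaced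
      obtain ⟨c1, c2, c3, c4⟩ := triple_simplyLaced
      rcases hd with rfl | rfl | rfl | rfl
      exacts [⟨12, 14, 15, by omega, by omega, a1, by decide, b1, c1⟩,
        ⟨36, 37, 38, by omega, by omega, a2, by decide, b2, c2⟩,
        ⟨63, 64, 65, by omega, by omega, a3, by decide, b3, c3⟩,
        ⟨120, 121, 122, by omega, by omega, a4, by decide, b4, c4⟩]
    obtain ⟨r, d, e, hr, hdd, he, hne, hneg, hterm⟩ := htriple
    refine ⟨fun x hx y hy => mul_mem_of_triple P hS hr hdd he hne hneg (Or.inl rfl) hterm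
        (hnsh r) (hnsh d) (hnsh e) hx hy,
      fun K hK x hx r hr => mem_of_dom P hS hr hx fun e => absurd e (hnsh r),
      fun ψ hψ y hy hyU hne => exists_top_simplyLaced P hs hψ hy hyU hne,
      fun ψ i => hasLead_of_one P i fun e => absurd e (hnsh _), fun ψ hp => ?_⟩
    subst hp
    obtain ⟨i, k, hik, hc⟩ := hpair
    exact exists_invol_of_pair ψ h hik hc

/-- A subgroup containing the elementary group over a subfield lies between elementary group and
fixed points for an intermediate field. -/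
theorem exists_intermediate {p : ℕ} [Fact p.Prime] [CharP F p]
    (hD : D ∈ [chevG2, chevB2, chevD4, chevF4, chevE6, chevE7, chevE8]) {n a : ℕ}
    (hF : Fintype.card F = p ^ n) (ha : 1 ≤ a) (han : a ∣ n) (hle : H ≤ D.group F)
    (hmem : ∀ (r : ℕ) (t : F), t ^ p ^ a = t → ∀ g : GL D.Idx F,
      (g : Matrix D.Idx D.Idx F) = D.x F r t → g ∈ H) :
    ∃ r : ℕ, 1 ≤ r ∧ p ^ (a * r) ≤ Nat.card H ∧
      (∀ (s : ℕ) (t : F), t ^ p ^ (a * r) = t → ∀ g : GL D.Idx F,
        (g : Matrix D.Idx D.Idx F) = D.x F s t → g ∈ H) ∧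
      ∀ g ∈ H, ∀ i j : D.Idx,
        ((g : Matrix D.Idx D.Idx F) i j) ^ p ^ (a * r) = (g : Matrix D.Idx D.Idx F) i j := by
  classical
  obtain ⟨A, h, T, P, hB⟩ := exists_behaviour (F := F) (p := p) hD
  set φ₀ := iterateFrobenius F p a
  have hfe : ∀ {ψ : F →+* F}, (∀ r t, ψ t = t → xG h.cert r t ∈ H) → Setting h ψ H := fun hx =>
    ⟨hle, (Subgroup.closure_le _).2 fun g ⟨r, t, ht, e⟩ => e ▸ hx r t ht⟩
  have hS₀ : Setting h φ₀ H := hfe fun r t ht => hmem r t
    (by simpa [φ₀, iterateFrobenius_def] using ht) _ (coe_xG h.cert r t)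
  have hb := hB φ₀ H hS₀
  have h0 : ∀ x, φ₀ x = x → x ∈ topSet h H := fun x hx => xG_fixed_mem hS₀ _ hx
  let K : Subfield F :=
    { carrier := topSet h H
      mul_mem' := fun {a b} ha hb' => hb.mul a ha b hb'
      one_mem' := h0 1 (map_one φ₀)
      add_mem' := fun {a b} ha hb' => xG_add_mem h ha hb'
      zero_mem' := h0 0 (map_zero φ₀)
      neg_mem' := fun {a} ha => show xG h.cert _ (-a) ∈ H by rw [← xG_inv]; exact inv_mem ha
      inv_mem' := fun a ha => by
        rcases eq_or_ne a 0 with rfl | ha0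
        · simpa using h0 0 (map_zero φ₀)
        · have hc : 1 < Fintype.card F := Fintype.one_lt_card
          have e := FiniteField.pow_card_sub_one_eq_one a ha0
          have hpow : ∀ n : ℕ, a ^ n ∈ topSet h H := fun n => by
            induction n with
            | zero => simpa using h0 1 (map_one φ₀)
            | succ n ih => rw [pow_succ]; exact hb.mul _ ih _ ha
          rw [show a⁻¹ = a ^ (Fintype.card F - 2) by
            refine inv_eq_of_mul_eq_one_right ?_
            rw [← pow_succ', show Fintype.card F - 2 + 1 = Fintype.card F - 1 by omega, e]]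
          exact hpow _ }
  obtain ⟨d, hd0, ⟨m, hm⟩, hcard, hKeq⟩ := CfsgLib.SmallDim.exists_fixedField_eq hF K
  set K0 := CfsgLib.SmallDim.fixedField (F := F) p a
  have hleK : K0 ≤ K := fun x hx => h0 x hx
  obtain ⟨l, hl⟩ : a ∣ d := by
    letI : Algebra K0 K := (Subfield.inclusion hleK).toAlgebra
    have := Module.natCard_eq_pow_finrank (K := K0) (V := K)
    rw [hcard, CfsgLib.SmallDim.card_fixedField hF ha han, ← pow_mul] at this
    exact ⟨_, Nat.pow_right_injective (Fact.out : p.Prime).two_le this⟩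
  subst hl
  set φ := iterateFrobenius F p (a * l)
  have hφ : ∀ x, φ x = x ↔ x ∈ topSet h H := fun x => by
    show _ ↔ x ∈ K
    rw [hKeq]
    exact Iff.rfl
  have hall : ∀ r t, φ t = t → xG h.cert r t ∈ H := by
    intro r t ht
    rcases lt_or_ge r D.nroots with hr | hr
    · exact hb.all K (fun x => Iff.rfl) t ((hφ t).1 ht) r hr
    · rw [show xG h.cert r t = 1 from Units.ext (by simp [ChevalleyDatum.x, not_lt.2 hr])]
      exact one_mem _
  have hS : Setting h φ H := hfe hall
  have hU : ∀ y ∈ H, y ∈ D.posUnipotent F → frob φ y = y := by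
    intro y hy hyU
    by_contra hne
    obtain ⟨t, htH, ht⟩ := hb.top φ hS y hy hyU hne
    exact ht ((hφ t).2 htH)
  have R : Rigid T p h φ H := ⟨P, hS, hU⟩
  have hfix := R.eq_fixed (hb.lead φ) (hb.inv φ)
  refine ⟨l, Nat.one_le_iff_ne_zero.2 fun e => by simp [e] at hd0, ?_, fun s t ht g hg => ?_,
    fun g hg i j => ?_⟩
  · rw [← hcard]
    refine Nat.card_le_card_of_injective
      (fun x : K => (⟨xG h.cert (topRoot D) x, x.2⟩ : H)) fun x y e => Subtype.ext ?_
    exact xG_injective h.cert (topRoot_pos h).1 (congrArg Subtype.val e)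
  · rw [show g = xG h.cert s t from Units.ext (hg.trans (coe_xG h.cert s t).symm)]
    exact hall s t (by simpa [φ, iterateFrobenius_def] using ht)
  · have := congrArg (fun w : GL D.Idx F => (w : Matrix D.Idx D.Idx F) i j) (hfix g hg)
    simpa [frob_apply, φ, iterateFrobenius_def] using this

theorem exists_not_fixed (p : ℕ) [Fact p.Prime] [CharP F p] {a r : ℕ} (ha : 1 ≤ a) (hr : r.Prime)
    (hK : Fintype.card F = (p ^ a) ^ r) : ∃ t : F, iterateFrobenius F p a t ≠ t := by
  by_contra hall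
  push Not at hall
  have hq : Fintype.card F = p ^ (a * r) := by rw [hK, pow_mul]
  have htop : CfsgLib.SmallDim.fixedField (F := F) p a = ⊤ :=
    eq_top_iff.2 fun x _ => hall x
  have h1 := CfsgLib.SmallDim.card_fixedField (F := F) hq ha (Dvd.intro r rfl)
  rw [htop, Nat.card_congr Subfield.topEquiv.toEquiv, Nat.card_eq_fintype_card, hq] at h1
  have h2 := Nat.pow_right_injective (Fact.out : p.Prime).two_le h1
  have := hr.two_le
  nlinarith

/-- The version for a prime index. -/
theorem eq_fixed_or_eq_group {p : ℕ} [Fact p.Prime] [CharP F p]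
    (hD : D ∈ [chevG2, chevB2, chevD4, chevF4, chevE6, chevE7, chevE8]) {a r : ℕ} (ha : 1 ≤ a)
    (hr : r.Prime) (hK : Fintype.card F = (p ^ a) ^ r) (hle : H ≤ D.group F)
    (hmem : ∀ g ∈ D.group F, frob (iterateFrobenius F p a) g = g → g ∈ H) :
    (∀ g ∈ H, frob (iterateFrobenius F p a) g = g) ∨ D.group F ≤ H := by
  obtain ⟨A, h, T, P, -⟩ := exists_props hD
  have hq : Fintype.card F = p ^ (a * r) := by rw [hK, pow_mul]
  obtain ⟨l, hl, -, hall, hfix⟩ := exists_intermediate hD hq ha (Dvd.intro r rfl) hle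
    (fun s t ht g hg => by
      rw [show g = xG h.cert s t from Units.ext (hg.trans (coe_xG h.cert s t).symm)]
      refine hmem _ (xG_mem_group h.cert s t) ?_
      rw [frob_xG, iterateFrobenius_def, ht])
  by_cases h1 : ∀ x : F, x ^ p ^ (a * l) = x
  · right
    refine (group_le_iff h.cert).2 fun s t => hall s t (h1 t) _ (coe_xG h.cert s t)
  · left
    intro g hg
    refine Units.ext (Matrix.ext fun i j => ?_)
    rw [frob_apply, iterateFrobenius_def]
    have hsub : ∀ x : F, x ^ p ^ (a * l) = x → x ^ p ^ a = x := by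
      intro x hx
      by_contra hxa
      push Not at h1
      have htop := (primeIndex_frobenius (F := F) p ha hr hK).eq_top
        (CfsgLib.SmallDim.fixedField (F := F) p (a * l)) (fun y hy => ?_) ⟨x, ?_, ?_⟩
      · obtain ⟨y, hy⟩ := h1
        refine hy ?_
        exact CfsgLib.SmallDim.mem_fixedField.1 (htop ▸ Subfield.mem_top y :
          y ∈ CfsgLib.SmallDim.fixedField (F := F) p (a * l))
      · rw [CfsgLib.SmallDim.mem_fixedField]
        rw [iterateFrobenius_def] at hy
        have : ∀ j, y ^ p ^ (a * j) = y := fun j => by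
          induction j with
          | zero => simp
          | succ j ih => rw [Nat.mul_succ, pow_add, pow_mul, ih, hy]
        exact this l
      · rw [CfsgLib.SmallDim.mem_fixedField]; exact hx
      · rw [iterateFrobenius_def]; exact hxa
    exact hsub _ (hfix g hg i j)

end CfsgLib.ClassK.Subfield
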