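import Cfsg.Agent.Lib.ClassK.Subfield.Degree
import Cfsg.Agent.Lib.ClassK.Subfield.FixElem

/-!
Optimal coweights of a `p`-subgroup fixed by a field endomorphism: there is an optimal one at a
fixed element, and the normalizer of the subgroup preserves its filtration.
-/

set_option autoImplicit false
set_option linter.unusedSectionVars false
set_option linter.style.haveILetI false

open Matrix

namespace CfsgLib.ClassK.Subfield

open Cfsg.Lie CfsgLib.Chevalley CfsgLib.ClassK.Grading CfsgLib.ClassK.BorelTits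

variable {D : ChevalleyDatum} {A : Aux} {F : Type*} [Field F] [Fintype F]
variable {U : Subgroup (GL D.Idx F)} (hU : U ≠ ⊥)

/-- The pair attains the largest degree raised by the conjugates of `U`. -/
def IsOpt (A : Aux) (hU : U ≠ ⊥) (g : GL D.Idx F) (x : Fin D.rank → ℝ) : Prop :=
  g ∈ D.group F ∧ normSq D A x ≤ 1 ∧ 0 < mu A hU g x ∧
    ∀ g' ∈ D.group F, ∀ y, normSq D A y ≤ 1 → mu A hU g' y ≤ mu A hU g x

theorem IsOpt.of_le {g g' : GL D.Idx F} {x y : Fin D.rank → ℝ} (hg : IsOpt A hU g x)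
    (hg' : g' ∈ D.group F) (hy : normSq D A y ≤ 1) (hle : mu A hU g x ≤ mu A hU g' y) :
    IsOpt A hU g' y :=
  ⟨hg', hy, lt_of_lt_of_le hg.2.2.1 hle, fun z hz w hw => le_trans (hg.2.2.2 z hz w hw) hle⟩

theorem exists_isOpt (h : Full D A) {p : ℕ} [Fact p.Prime] [CharP F p]
    (hUG : U ≤ D.group F) (hUp : IsPGroup p U) : ∃ g x, IsOpt A hU g x := by
  classical
  set K : Set (Fin D.rank → ℝ) := {x | normSq D A x ≤ 1} with hK
  have hKc : IsCompact K := by
    refine IsCompact.of_isClosed_subset (isCompact_Icc (a := (-1 : Fin D.rank → ℝ)) (b := 1))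
      (isClosed_le (by unfold normSq val; fun_prop) continuous_const) fun x hx => ?_
    refine ⟨fun i => ?_, fun i => ?_⟩ <;>
    · have h1 := le_trans (sq_le_normSq h x i) (show normSq D A x ≤ 1 from hx)
      simp only [Pi.neg_apply, Pi.one_apply]
      nlinarith
  have hK0 : K.Nonempty := ⟨0, by simp [hK, normSq, val]⟩
  have hgmax : ∀ g : D.group F, ∃ x ∈ K, ∀ y ∈ K,
      mu A hU (g : GL D.Idx F) y ≤ mu A hU (g : GL D.Idx F) x := by
    intro g
    obtain ⟨x, hx, hmax⟩ :=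
      hKc.exists_isMaxOn hK0 (continuous_mu (A := A) hU (g : GL D.Idx F)).continuousOn
    exact ⟨x, hx, fun y hy => hmax hy⟩
  choose xo hxo hxmax using hgmax
  obtain ⟨g₀, hg₀⟩ := Finite.exists_max fun g : D.group F => mu A hU (g : GL D.Idx F) (xo g)
  have hbound : ∀ (g : GL D.Idx F), g ∈ D.group F → ∀ y ∈ K,
      mu A hU g y ≤ mu A hU (g₀ : GL D.Idx F) (xo g₀) :=
    fun g hg y hy => le_trans (hxmax ⟨g, hg⟩ y hy) (hg₀ ⟨g, hg⟩)
  refine ⟨g₀, xo g₀, g₀.2, hxo g₀, ?_, hbound⟩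
  obtain ⟨a, ha, hUa⟩ : ∃ a ∈ D.group F, ∀ u ∈ U, a⁻¹ * u * a ∈ D.posUnipotent F := by
    haveI : Finite (D.group F) := inferInstance
    let U' := U.subgroupOf (D.group F)
    have hU' : IsPGroup p U' := hUp.of_equiv (Subgroup.subgroupOfEquivOfLe hUG).symm
    have hP : IsPGroup p ((D.posUnipotent F).subgroupOf (D.group F)) :=
      (CfsgLib.InvCentralizers.ChevalleySteinberg.isPGroup_U h).of_equiv
        (Subgroup.subgroupOfEquivOfLe ((le_sup_left :
          D.posUnipotent F ≤ D.borelSubgroup F).trans (borel_le_group h.cert))).symm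
    obtain ⟨Q, hQ⟩ := hU'.exists_le_sylow
    set P := hP.toSylow (CfsgLib.InvCentralizers.ChevalleySteinberg.not_dvd_index h)
    obtain ⟨a, ha⟩ := MulAction.exists_smul_eq (D.group F) P Q
    refine ⟨a, a.2, fun u hu => ?_⟩
    have h1 : (⟨u, hUG hu⟩ : D.group F) ∈ (Q : Subgroup (D.group F)) := hQ hu
    rw [← ha, Sylow.coe_subgroup_smul, Subgroup.mem_pointwise_smul_iff_inv_smul_mem,
      MulAut.smul_def, MulAut.conj_inv_apply] at h1
    exact h1
  obtain ⟨δ, hδ, -, hδr⟩ := exists_small_bound (A := A) (D := D) (fun _ => (1 : ℝ)) one_pos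
  have hpos : ∀ r : ℕ, D.IsPosRoot r → 0 < val D A (fun _ => (1 : ℝ)) r := by
    intro r hr
    obtain ⟨i, hi⟩ := exists_crd_pos h hr
    refine Finset.sum_pos' (fun j _ => ?_) ⟨i, Finset.mem_univ _, ?_⟩
    · exact mul_nonneg (by exact_mod_cast h.crd_nonneg hr j.isLt) zero_le_one
    · rw [mul_one]; exact_mod_cast hi
  set t : ℝ := 1 / (normSq D A (fun _ => (1 : ℝ)) + 1) with ht
  have hn1 := normSq_nonneg (A := A) (fun _ : Fin D.rank => (1 : ℝ))
  have ht0 : 0 < t := by rw [ht]; positivity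
  have hmem : t • (fun _ => (1 : ℝ)) ∈ K := by
    show normSq D A _ ≤ 1
    rw [normSq_smul, ht, div_pow, one_pow, div_mul_eq_mul_div, one_mul, div_le_one (by positivity)]
    nlinarith
  refine lt_of_lt_of_le ?_ (hbound a ha _ hmem)
  refine lt_of_lt_of_le (mul_pos ht0 hδ) (le_trans ?_ (mu_le_smul hU a _ ht0.le))
  refine mul_le_mul_of_nonneg_left ?_ ht0.le
  rw [le_mu_iff]
  intro u hu
  exact deg_rootsU h.cert (fun r hr => hr.1) hδ.le
    (fun r hr => hδr ⟨r, hr.1⟩ (hpos r hr)) (hUa u hu)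

theorem IsOpt.unique (h : Full D A) {g : GL D.Idx F} {x y : Fin D.rank → ℝ}
    (hx : IsOpt A hU g x) (hy : IsOpt A hU g y) : x = y := by
  by_contra hne
  obtain ⟨hg, hxK, hM0, hbound⟩ := hx
  have hyM : mu A hU g x ≤ mu A hU g y := hy.2.2.2 g hg x hxK
  have hlt := normSq_mid_lt h hne hxK hy.2.1
  set z := (2 : ℝ)⁻¹ • (x + y)
  have hz0 := normSq_nonneg (A := A) z
  set q := normSq D A z with hqdef
  set t : ℝ := 2 / (1 + q) with htdef
  have ht1 : 1 < t := by rw [htdef, lt_div_iff₀ (by linarith)]; linarith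
  have htz : normSq D A (t • z) ≤ 1 := by
    rw [normSq_smul, ← hqdef, htdef, div_pow, div_mul_eq_mul_div, div_le_one (by positivity)]
    nlinarith [sq_nonneg (1 - q)]
  have h1 := le_trans (mu_le_smul hU g z (by linarith : (0 : ℝ) ≤ t)) (hbound g hg _ htz)
  have h2 : mu A hU g x ≤ mu A hU g z := mu_mid hU g _ _ le_rfl hyM
  nlinarith [mul_lt_mul_of_pos_right ht1 (lt_of_lt_of_le hM0 h2)]

theorem IsOpt.ne_zero {g : GL D.Idx F} {x : Fin D.rank → ℝ} (hx : IsOpt A hU g x) : x ≠ 0 := by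
  rintro rfl
  have := hx.2.2.1
  rw [mu_zero] at this
  exact lt_irrefl _ this

theorem IsOpt.mul_acts (h : Full D A) {g n : GL D.Idx F} {x : Fin D.rank → ℝ}
    (hx : IsOpt A hU g x) (hn : n ∈ D.monomialSubgroup F) {σ : Equiv.Perm (Fin D.nroots)}
    {η : Fin D.nroots → F} (hA : Acts h.cert n σ η) :
    IsOpt A hU (g * n) (pull h.cert σ x) :=
  hx.of_le hU (mul_mem hx.1 (monomial_le_group h.cert hn))
    (by rw [normSq_pull hA]; exact hx.2.1) (mu_acts_le hU h hn hA x)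

theorem IsOpt.inStab (h : Full D A) {g g' : GL D.Idx F} {x : Fin D.rank → ℝ}
    (hdom : IsDominant x) (hg : IsOpt A hU g x) (hg' : IsOpt A hU g' x) :
    InStab D A x (g⁻¹ * g') := by
  obtain ⟨u, hu, n, hn, v, hv, e⟩ := exists_bnu h
    (mul_mem (inv_mem hg.1) hg'.1 : g⁻¹ * g' ∈ D.group F)
  obtain ⟨σ, η, hA⟩ := exists_acts h hn
  obtain ⟨θ, hB⟩ := acts_inv h hn hA
  have hbor : ∀ c ∈ D.posUnipotent F, Deg (valI D A x) 0 (c : Matrix D.Idx D.Idx F) :=
    fun c hc => deg_borel h hdom (Subgroup.mem_sup_left hc)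
  have hUG : ∀ c ∈ D.posUnipotent F, c ∈ D.group F := fun c hc =>
    rootsU_le_group h.cert {r | D.IsPosRoot r} hc
  have hI : ∀ c ∈ D.posUnipotent F, InStab D A x c := fun c hc =>
    ⟨hUG c hc, hbor c hc, hbor _ (inv_mem hc)⟩
  have h1 : IsOpt A hU (g * u) x := hg.of_le hU (mul_mem hg.1 (hUG u hu)) hg.2.1
    (mu_mul_le hU (hbor u hu) (hbor _ (inv_mem hu)))
  have h2 : IsOpt A hU (g * u * n) x := by
    rw [show g * u * n = g' * v⁻¹ by
      rw [show g' = g * (g⁻¹ * g') by group, e]; group]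
    exact hg'.of_le hU (mul_mem hg'.1 (inv_mem (hUG v hv))) hg'.2.1
      (mu_mul_le hU (hbor _ (inv_mem hv)) (by rw [inv_inv]; exact hbor v hv))
  have h3 := h2.mul_acts hU h (inv_mem hn) hB
  rw [mul_inv_cancel_right] at h3
  have hfix' : pull h.cert σ⁻¹ x = x := (h1.unique hU h h3).symm
  have hfix : pull h.cert σ x = x := by
    conv_lhs => rw [← hfix']
    rw [pull_mul hB, inv_mul_cancel, pull_one h]
  obtain ⟨n1, n2, -, -⟩ := deg_monomial_fix h hn hA hfix
  rw [e]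
  exact ((hI u hu).mul ⟨monomial_le_group h.cert hn, n1, n2⟩).mul (hI v hv)

theorem deg_conj_acts (h : Full D A) {n w : GL D.Idx F} (hn : n ∈ D.monomialSubgroup F)
    {σ : Equiv.Perm (Fin D.nroots)} {η : Fin D.nroots → F} (hA : Acts h.cert n σ η)
    {y : Fin D.rank → ℝ} {c : ℝ}
    (hw : Deg (valI D A (pull h.cert σ y)) c (w : Matrix D.Idx D.Idx F)) :
    Deg (valI D A y) c ((n * w * n⁻¹ : GL D.Idx F) : Matrix D.Idx D.Idx F) := by
  obtain ⟨θ, hB⟩ := acts_inv h hn hA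
  intro a b hne
  rw [Units.val_mul, Units.val_mul, Matrix.mul_apply] at hne
  obtain ⟨e, -, he⟩ := Finset.exists_ne_zero_of_sum_ne_zero hne
  have he1 := left_ne_zero_of_mul he
  rw [Matrix.mul_apply] at he1
  obtain ⟨d, -, hd⟩ := Finset.exists_ne_zero_of_sum_ne_zero he1
  have h1 := valI_eq_of_acts hA y (left_ne_zero_of_mul hd)
  have h2 := valI_eq_of_acts hB (pull h.cert σ y) (right_ne_zero_of_mul he)
  rw [pull_mul hA, mul_inv_cancel, pull_one h] at h2
  rw [h1, ← h2]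
  exact hw d e (right_ne_zero_of_mul hd)

/-- A fixed element with an optimal dominant coweight, and the normalizer. -/
theorem exists_fixed_stab (h : Full D A) {p : ℕ} [Fact p.Prime] [CharP F p] (φ : F →+* F)
    (hUG : U ≤ D.group F) (hUp : IsPGroup p U) (hne : U ≠ ⊥) (hfix : ∀ u ∈ U, frob φ u = u) :
    ∃ x : Fin D.rank → ℝ, IsDominant x ∧ x ≠ 0 ∧ ∃ m ∈ fixElem h.cert φ,
      ∀ g ∈ D.group F, (∀ u ∈ U, g⁻¹ * u * g ∈ U) → InStab D A x (m⁻¹ * g * m) := by
  classical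
  have hfrob : ∀ {g : GL D.Idx F} {x : Fin D.rank → ℝ}, IsOpt A hne g x →
      IsOpt A hne (frob φ g) x := by
    intro g x hg
    refine hg.of_le hne (frob_mem_group h.cert φ hg.1) hg.2.1 ((le_mu_iff hne).2 fun u hu => ?_)
    have := deg_frob φ (deg_mu (A := A) hne g x hu)
    rwa [map_mul, map_mul, map_inv, hfix u hu] at this
  obtain ⟨g₀, x₀, h0⟩ := exists_isOpt hne h hUG hUp
  obtain ⟨n₀, hn₀, σ₀, η₀, hA₀, hdom₀⟩ := exists_dominant (F := F) h x₀
  set x := pull h.cert σ₀ x₀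
  have hgx : IsOpt A hne (g₀ * n₀) x := h0.mul_acts hne h hn₀ hA₀
  -- move into the unipotent group
  obtain ⟨u, hu, n, hn, v, hv, e⟩ := exists_bnu h hgx.1
  obtain ⟨σ, η, hA⟩ := exists_acts h hn
  obtain ⟨θ, hB⟩ := acts_inv h hn hA
  have hUG' : ∀ c ∈ D.posUnipotent F, c ∈ D.group F := fun c hc =>
    rootsU_le_group h.cert {r | D.IsPosRoot r} hc
  have hbor : ∀ c ∈ D.posUnipotent F, Deg (valI D A x) 0 (c : Matrix D.Idx D.Idx F) :=
    fun c hc => deg_borel h hdom₀ (Subgroup.mem_sup_left hc)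
  have hun : IsOpt A hne (u * n) x := by
    rw [show u * n = g₀ * n₀ * v⁻¹ by rw [e]; group]
    exact hgx.of_le hne (mul_mem hgx.1 (inv_mem (hUG' v hv))) hgx.2.1
      (mu_mul_le hne (hbor _ (inv_mem hv)) (by rw [inv_inv]; exact hbor v hv))
  have huy := hun.mul_acts hne h (inv_mem hn) hB
  rw [mul_inv_cancel_right] at huy
  set y := pull h.cert σ⁻¹ x
  -- split off the part preserving the filtration
  obtain ⟨a, ha, b, hb, rfl⟩ := split_pos h.toStd (P := {r | val D A y r < 0})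
    (Q := {r | 0 ≤ val D A y r}) (fun r _ => (lt_or_ge (val D A y r) 0)) hu
  have hbdeg : ∀ c ∈ rootsU D F {r | D.IsPosRoot r ∧ r ∈ {r | 0 ≤ val D A y r}},
      Deg (valI D A y) 0 (c : Matrix D.Idx D.Idx F) := fun c hc =>
    deg_of_sub (deg_rootsU h.cert (fun r hr => hr.1.1) le_rfl (fun r hr => hr.2) hc) le_rfl
  have hay : IsOpt A hne a y := by
    refine huy.of_le hne (rootsU_le_group h.cert _ ha) huy.2.1 ?_
    have := mu_mul_le (g := a * b) (b := b⁻¹) (x := y) hne (hbdeg _ (inv_mem hb))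
      (by rw [inv_inv]; exact hbdeg b hb)
    rwa [mul_inv_cancel_right] at this
  -- a dominant representative by a fixed word
  obtain ⟨n₁, hn₁, σ₁, η₁, hA₁, hdom⟩ := exists_dominant (F := F) h y
  obtain ⟨q, t, ht, rfl⟩ := (mem_monomial_iff h).1 hn₁
  obtain ⟨c, rfl⟩ : t ∈ (torusHom D F).range := by rwa [← diagonalSubgroup_eq_range h]
  obtain ⟨η', hA'⟩ := acts_nW (F := F) h q
  have hσ₁ : σ₁ = wPerm h.cert q := by
    rw [hA₁.perm_eq (hA'.mul (acts_torus h.cert c)), mul_one]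
  subst hσ₁
  set w := nW h.cert F q with hw
  have hwM : w ∈ D.monomialSubgroup F := nW_mem_monomial h q
  have haw : IsOpt A hne (a * w) (pull h.cert (wPerm h.cert q) y) := hay.mul_acts hne h hwM hA'
  have haw' : IsOpt A hne (frob φ a * w) (pull h.cert (wPerm h.cert q) y) := by
    have := hfrob haw
    rwa [map_mul, frob_nW] at this
  -- the negative part is fixed
  have hafix : frob φ a = a := by
    have hI := IsOpt.inStab hne h hdom haw haw'
    have h1 : Deg (valI D A y) 0 ((a⁻¹ * frob φ a : GL D.Idx F) : Matrix D.Idx D.Idx F) := by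
      have := deg_conj_acts h hwM hA' hI.2.1
      rwa [show w * ((a * w)⁻¹ * (frob φ a * w)) * w⁻¹ = a⁻¹ * frob φ a by group] at this
    obtain ⟨δ, hδ, -, hδr⟩ := exists_small_bound (A := A) (-y) one_pos
    have h2 : Deg (valI D A (-y)) δ
        (((a⁻¹ * frob φ a : GL D.Idx F) : Matrix D.Idx D.Idx F) - 1) := by
      refine deg_rootsU h.cert (fun r hr => hr.1.1) hδ.le (fun r hr => hδr ⟨r, hr.1.1⟩ ?_)
        (mul_mem (inv_mem ha) (frob_rootsU h.cert φ ha))
      have hr' : val D A y r < 0 := hr.2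
      rw [show -y = (-1 : ℝ) • y by simp, val_smul]
      linarith
    have h3 : Deg (valI D A y) 0
        (((a⁻¹ * frob φ a : GL D.Idx F) : Matrix D.Idx D.Idx F) - 1) := Deg.sub h1 deg_one
    exact (inv_mul_eq_one.1 (Units.ext (sub_eq_zero.1
      (eq_zero_of_deg_opp h3 h2 (valI_neg y) (by linarith))))).symm
  refine ⟨_, hdom, haw.ne_zero hne, a * w, mul_mem (rootsU_frob_sub_posU h (fun r hr => hr.1) ha hafix)
    (nW_mem_fixElem h.cert φ q), fun g hg hnorm => ?_⟩
  have hgw : IsOpt A hne (g * (a * w)) (pull h.cert (wPerm h.cert q) y) := by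
    refine haw.of_le hne (mul_mem hg haw.1) haw.2.1 ((le_mu_iff hne).2 fun z hz => ?_)
    rw [show (g * (a * w))⁻¹ * z * (g * (a * w)) = (a * w)⁻¹ * (g⁻¹ * z * g) * (a * w) by group]
    exact deg_mu (A := A) hne _ _ (hnorm z hz)
  have := IsOpt.inStab hne h hdom haw hgw
  rwa [show (a * w)⁻¹ * (g * (a * w)) = (a * w)⁻¹ * g * (a * w) by group] at this

end CfsgLib.ClassK.Subfield
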