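import Cfsg.Agent.Lib.ClassK.Subfield.Stab
import Cfsg.Agent.Lib.ClassK.Subfield.Optimal

/-!
The elements of `p`-power order in `H` normalizing a fixed `p`-subgroup are fixed.
-/

set_option autoImplicit false
set_option linter.unusedSectionVars false
set_option linter.style.haveILetI false

open Matrix

namespace CfsgLib.ClassK.Subfield

open Cfsg.Lie CfsgLib.Chevalley

variable {D : ChevalleyDatum} {A : Aux} {F : Type*} [Field F] [Fintype F]

/-- The situation in which `H` has only fixed points in `U`. -/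
structure Rigid (T : Tbl) (p : ℕ) (h : Full D A) (φ : F →+* F) (H : Subgroup (GL D.Idx F)) :
    Prop where
  /-- the tables -/
  props : Props h T
  /-- the containments -/
  setting : Setting h φ H
  /-- the unipotent elements of `H` are fixed -/
  unip : ∀ y ∈ H, y ∈ D.posUnipotent F → frob φ y = y

variable {T : Tbl} {p : ℕ} [Fact p.Prime] [CharP F p] {h : Full D A} {φ : F →+* F}
  {H : Subgroup (GL D.Idx F)}

theorem Rigid.fixed_of_norm (R : Rigid T p h φ H) (U : Subgroup (GL D.Idx F)) (hUH : U ≤ H)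
    (hUfix : ∀ u ∈ U, frob φ u = u) (hUp : IsPGroup p U) (hne : U ≠ ⊥) {g : GL D.Idx F}
    (hgH : g ∈ H) (hgp : ∃ k, g ^ p ^ k = 1) (hnorm : ∀ u ∈ U, g⁻¹ * u * g ∈ U) :
    frob φ g = g := by
  obtain ⟨x, hx, hx0, m, hm, hstab⟩ :=
    exists_fixed_stab h φ (hUH.trans R.setting.leG) hUp hne hUfix
  have hmfix : frob φ m = m := fixElem_fixed h.cert φ hm
  have hmH := R.setting.mem hm
  have hgp' : ∃ k, (m⁻¹ * g * m) ^ p ^ k = 1 := by
    obtain ⟨k, hk⟩ := hgp
    refine ⟨k, ?_⟩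
    have := conj_pow (a := m⁻¹) (b := g) (i := p ^ k)
    rw [inv_inv, hk, mul_one, inv_mul_cancel] at this
    exact this
  have := frob_eq_of_inStab R.props R.setting R.unip hx hx0 hgp'
    (mul_mem (mul_mem (inv_mem hmH) hgH) hmH) (hstab g (R.setting.leG hgH) hnorm)
  rw [map_mul, map_mul, map_inv, hmfix] at this
  exact mul_left_cancel (mul_right_cancel this)

theorem Rigid.fixed_of_commute (R : Rigid T p h φ H) {x z : GL D.Idx F} (hx : x ∈ H)
    (hxfix : frob φ x = x) {k : ℕ} (hxp : x ^ p ^ k = 1) (hx1 : x ≠ 1) (hz : z ∈ H)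
    (hzp : ∃ j, z ^ p ^ j = 1) (hc : Commute x z) : frob φ z = z := by
  refine R.fixed_of_norm (Subgroup.zpowers x) (Subgroup.zpowers_le.2 hx) ?_ ?_
    (Subgroup.zpowers_ne_bot.2 hx1) hz hzp ?_
  · rintro _ ⟨j, rfl⟩
    rw [map_zpow, hxfix]
  · rintro ⟨_, j, rfl⟩
    refine ⟨k, Subtype.ext ?_⟩
    show (x ^ j) ^ p ^ k = 1
    rw [← _root_.zpow_natCast, ← _root_.zpow_mul, mul_comm, _root_.zpow_mul, _root_.zpow_natCast, hxp, _root_.one_zpow]
  · rintro _ ⟨j, rfl⟩
    have e : z⁻¹ * x ^ j * z = x ^ j := by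
      rw [mul_assoc, (hc.zpow_left j).eq, inv_mul_cancel_left]
    show z⁻¹ * x ^ j * z ∈ Subgroup.zpowers x
    rw [e]
    exact ⟨j, rfl⟩

theorem Rigid.fixed_of_pGroup (R : Rigid T p h φ H) {x z : GL D.Idx F} (hx : x ∈ H)
    (hxfix : frob φ x = x) (hx1 : x ≠ 1) (hz : z ∈ H) {Q : Subgroup (GL D.Idx F)}
    (hQ : IsPGroup p Q) (hxQ : x ∈ Q) (hzQ : z ∈ Q) : frob φ z = z := by
  set S : Subgroup (GL D.Idx F) := Subgroup.closure {x, z}
  have hxS : x ∈ S := Subgroup.subset_closure (by simp)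
  have hzS : z ∈ S := Subgroup.subset_closure (by simp)
  have hSH : S ≤ H := (Subgroup.closure_le _).2 (by
    rintro w (rfl | rfl) <;> assumption)
  have hS : IsPGroup p S := hQ.to_le ((Subgroup.closure_le _).2 (by
    rintro w (rfl | rfl) <;> assumption))
  haveI : Nontrivial S := ⟨⟨x, hxS⟩, 1, fun e => hx1 (congrArg Subtype.val e)⟩
  haveI := hS.center_nontrivial
  obtain ⟨⟨w, hwc⟩, hw1⟩ := exists_ne (1 : Subgroup.center S)
  obtain ⟨k, hk⟩ := hS w
  obtain ⟨j, hj⟩ := hS ⟨x, hxS⟩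
  have hcx : Commute x (w : GL D.Idx F) :=
    congrArg Subtype.val (Subgroup.mem_center_iff.1 hwc ⟨x, hxS⟩)
  have hcz : Commute z (w : GL D.Idx F) :=
    congrArg Subtype.val (Subgroup.mem_center_iff.1 hwc ⟨z, hzS⟩)
  have hwfix := R.fixed_of_commute hx hxfix (congrArg Subtype.val hj) hx1 (hSH w.2)
    ⟨k, congrArg Subtype.val hk⟩ hcx
  have hw1' : (w : GL D.Idx F) ≠ 1 := fun e => hw1 (Subtype.ext (Subtype.ext e))
  obtain ⟨i, hi⟩ := hS ⟨z, hzS⟩
  exact R.fixed_of_commute (hSH w.2) hwfix (congrArg Subtype.val hk) hw1' hz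
    ⟨i, congrArg Subtype.val hi⟩ hcz.symm

theorem xG_pow_p (h : Full D A) (r : ℕ) (t : F) : xG h.cert r t ^ p = 1 := by
  rw [xG_pow, CharP.cast_eq_zero, zero_mul, xG_zero]

end CfsgLib.ClassK.Subfield
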