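import Cfsg.Agent.Lib.ClassK.Subfield.Degree
import Cfsg.Agent.Lib.Chevalley.SL2

/-!
The grading of the roots by the pairing with the highest root, the commutation of the highest root
elements, and the involution of the torus inverting the roots of odd pairing.
-/

set_option autoImplicit false
set_option linter.unusedSectionVars false

open Matrix

namespace CfsgLib.ClassK.Subfield

open Cfsg.Lie CfsgLib.Chevalley CfsgLib.ClassK.Grading

variable {D : ChevalleyDatum} {A : Aux} {F : Type*} [Field F]

/-- The highest root as a root. -/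
def topFin (h : Full D A) : Fin D.nroots := ⟨topRoot D, (topRoot_pos h).1⟩

theorem commTerms_top (h : Full D A) {r : ℕ} (hr : D.IsPosRoot r) :
    D.commTerms r (topRoot D) = [] := by
  refine List.eq_nil_iff_forall_not_mem.2 fun c hc => ?_
  obtain ⟨h1, -, h3⟩ := h.toStd.lt_commTerms hr (topRoot_pos h) hc
  have := pos_le_top h h1
  omega

theorem commute_top (h : Full D A) {S : Set ℕ} (hS : ∀ r ∈ S, D.IsPosRoot r) (t : F)
    {u : GL D.Idx F} (hu : u ∈ rootsU D F S) : Commute u (xG h.cert (topRoot D) t) := by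
  have := (rootsU_le_iff h.cert (K := Subgroup.centralizer {xG h.cert (topRoot D) t})).2
    (fun r hr a => Subgroup.mem_centralizer_singleton_iff.2 ?_) hu
  · exact (Subgroup.mem_centralizer_singleton_iff.1 this)
  · rcases eq_or_ne (topRoot D) r with e | e
    · subst e
      rw [xG_mul, xG_mul, add_comm]
    · exact commute_of_terms h (hS r hr).1 (topRoot_pos h).1 e
        (h.toStd.ne_neg (hS r hr) (topRoot_pos h)) (commTerms_top h (hS r hr)) a t

theorem pairing_eq_sum (P : List ℤ) (d : ℕ) :
    pairing D A P d = ∑ j : Fin D.rank, crd A j d * P.getD j 0 := by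
  rw [Fin.sum_univ_eq_sum_range fun j => crd A j d * P.getD j 0]
  rfl

theorem pairing_comb (P : List ℤ) {r s q : ℕ} {a b : ℤ}
    (e : ∀ k < D.rank, crd A k q = a * crd A k r + b * crd A k s) :
    pairing D A P q = a * pairing D A P r + b * pairing D A P s := by
  simp only [pairing_eq_sum, Finset.mul_sum, ← Finset.sum_add_distrib]
  exact Finset.sum_congr rfl fun j _ => by rw [e j j.isLt]; ring

theorem pairing_neg (h : Full D A) (P : List ℤ) {r : ℕ} (hr : r < D.nroots) :
    pairing D A P (D.neg r) = -pairing D A P r := by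
  simp only [pairing_eq_sum, ← Finset.sum_neg_distrib]
  exact Finset.sum_congr rfl fun j _ => by rw [(neg_facts h.cert j.isLt hr).1]; ring

theorem pairing_pos_range {T : Tbl} {h : Full D A} (P : Props h T) {d : ℕ} (hd : D.IsPosRoot d) :
    pairing D A T.P d = 0 ∨ pairing D A T.P d = 1 ∨
      (pairing D A T.P d = 2 ∧ d = topRoot D) := by
  rcases eq_or_ne d (topRoot D) with rfl | hne
  · exact Or.inr (Or.inr ⟨P.grade_top, rfl⟩)
  · rcases P.grade d hd hne with e | e <;> simp [e]

theorem commTerms_negTop {T : Tbl} {h : Full D A} (P : Props h T) {d : ℕ} (hd : D.IsPosRoot d)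
    (hd0 : pairing D A T.P d = 0) : D.commTerms d (D.neg (topRoot D)) = [] := by
  refine List.eq_nil_iff_forall_not_mem.2 fun c hc => ?_
  have htop := topRoot_pos h
  obtain ⟨hclt, i, j, hi, hj, e⟩ :=
    h.commTerms_crd hd.1 (h.cert.wf.neg_lt _ htop.1) hc
  have hp := pairing_comb T.P e
  rw [hd0, pairing_neg h T.P htop.1, P.grade_top] at hp
  rcases h.pos.pos_or_neg hclt with hc' | hc'
  · rcases pairing_pos_range P hc' with e' | e' | ⟨e', -⟩ <;> rw [e'] at hp <;> omega
  · have hn := pairing_neg h T.P (D := D) hclt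
    rcases pairing_pos_range P (h.neg_isPos hc') with e' | e' | ⟨e', e''⟩ <;> rw [e'] at hn
    · omega
    · omega
    have hj1 : j = 1 := by omega
    have hc1 : c.1 = D.neg (topRoot D) := by rw [← e'', h.cert.wf.neg_neg _ hclt]
    have h0 : phi D A d = 0 := List.sum_eq_zero fun z hz => by
      obtain ⟨k, hk, rfl⟩ := List.mem_map.1 hz
      have h1 := e k (List.mem_range.1 hk)
      rw [hc1, hj1, one_mul] at h1
      have h2 : crd A k d = 0 := by nlinarith
      rw [h2, mul_zero]
    have := h.pos.phi_pos hd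
    omega

/-- A word with the given letters, acting as following them. -/
theorem exists_follow (h : Full D A) : ∀ q : List ℕ, (∀ a ∈ q, a < D.rank) →
    ∃ l : List (Fin D.rank), ∀ r : Fin D.nroots, (wPerm h.cert l r : ℕ) = follow D q r ∧
      (((wPerm h.cert l)⁻¹ : Equiv.Perm (Fin D.nroots)) r : ℕ) = follow D q.reverse r := by
  intro q
  induction q with
  | nil => exact fun _ => ⟨[], fun r => ⟨rfl, rfl⟩⟩
  | cons a q ih =>
    intro hq
    obtain ⟨l, hl⟩ := ih fun b hb => hq b (List.mem_cons_of_mem _ hb)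
    set i : Fin D.rank := ⟨a, hq a (List.mem_cons_self ..)⟩
    refine ⟨l ++ [i], fun r => ?_⟩
    rw [wPerm_append, show wPerm h.cert [i] = rfPerm h.cert i by simp [wPerm]]
    refine ⟨?_, ?_⟩
    · rw [Equiv.Perm.mul_apply, (hl _).1]
      rfl
    · rw [_root_.mul_inv_rev, Equiv.Perm.mul_apply,
        show (rfPerm h.cert i)⁻¹ = rfPerm h.cert i from inv_eq_of_mul_eq_one_right (rfPerm_mul_self _ i),
        List.reverse_cons, follow, List.foldl_append]
      show D.reflectRoot a _ = _
      rw [(hl r).2]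
      rfl

variable [Fintype F] [DecidableEq F]

/-- The homomorphism of `SL₂` onto the highest root group and its opposite. -/
noncomputable def rhoTop (h : Full D A) : Matrix.SpecialLinearGroup (Fin 2) F →* GL D.Idx F :=
  (slRel_root (F := F) h (topFin h)).hom

theorem rhoTop_X (h : Full D A) (t : F) :
    rhoTop h (slX t) = xG h.cert (topRoot D) t := by
  show slFun _ _ (slX t) = _
  simp [slFun, slX, topFin]
  exact (slRel_root (F := F) h (topFin h)).h_one

theorem rhoTop_Y (h : Full D A) (t : F) :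
    rhoTop h (slY t) = xG h.cert (D.neg (topRoot D)) t := by
  show slFun _ _ (slY t) = _
  rcases eq_or_ne t 0 with rfl | ht
  · simp [slFun, slY, xG_zero, topFin]
    exact (slRel_root (F := F) h (topFin h)).h_one
  · simp only [slFun, slY, Matrix.cons_val_zero, Matrix.cons_val_one, Matrix.of_apply,
      Matrix.cons_val', Matrix.cons_val_fin_one, if_neg ht, slN, topFin, inv_neg, inv_inv, neg_neg,
      one_div]
    rw [show ∀ a b c : GL D.Idx F, a * (b * c * b) * a = a * b * c * (b * a) from fun a b c => by group,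
      xG_mul, add_neg_cancel, xG_zero, one_mul, xG_mul, neg_add_cancel, xG_zero, mul_one]

/-- The involution of the torus at the highest root. -/
noncomputable def invTop (h : Full D A) : GL D.Idx F := rhoTop h (-1)

theorem invTop_eq_sq (h : Full D A) {c : F} (hc : c ≠ 0) :
    invTop h = nG h.cert (topRoot D) c * nG h.cert (topRoot D) c := by
  simp only [nG]
  rw [← rhoTop_X h c, ← rhoTop_Y h (-c⁻¹), ← map_mul, ← map_mul, ← map_mul, invTop]
  congr 1
  apply Subtype.ext
  simp only [Matrix.SpecialLinearGroup.coe_mul, slX_coe, slY_coe, Matrix.SpecialLinearGroup.coe_neg,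
    Matrix.SpecialLinearGroup.coe_one]
  ext i j
  fin_cases i <;> fin_cases j <;> simp [Matrix.mul_apply, Fin.sum_univ_two, hc]

theorem frob_invTop (h : Full D A) (φ : F →+* F) : frob φ (invTop (F := F) h) = invTop h := by
  rw [invTop_eq_sq h one_ne_zero, map_mul, frob_nG, map_one]

theorem invTop_conj {T : Tbl} {h : Full D A} (P : Props h T) (d : Fin D.nroots) (a : F) :
    invTop h * xG h.cert d a * (invTop h)⁻¹ =
      xG h.cert d ((-1 : F) ^ pairing D A T.P d * a) := by
  obtain ⟨l, hl⟩ := exists_follow h T.q P.hq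
  obtain ⟨η, hA⟩ := acts_nW (F := F) h l
  set σ := wPerm h.cert l
  set n := nW h.cert F l
  set i : Fin D.rank := ⟨T.i, P.hi⟩
  set s := smp h.cert i
  have hσs : σ s = topFin h := Fin.ext ((hl s).1.trans P.path)
  have hη := hA.ne_zero s
  have ht0 : invTop h = n * (hG h.cert (D.simple i) (-1 : F)) * n⁻¹ := by
    rw [invTop_eq_sq h (mul_ne_zero hη (neg_ne_zero.2 one_ne_zero)), hG,
      show n * (nG h.cert (D.simple i) (-1 : F) * nG h.cert (D.simple i) (-1)) * n⁻¹ =
        n * nG h.cert s (-1 : F) * n⁻¹ * (n * nG h.cert s (-1 : F) * n⁻¹) by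
        simp only [s, smp]; group, hA.conj_nG, hσs]
    rfl
  have hχ : D.cartan T.i ((σ⁻¹ d : Fin D.nroots) : ℕ) = pairing D A T.P d := by
    obtain ⟨θ, hB⟩ := CfsgLib.ClassK.BorelTits.acts_inv (F := F) h (nW_mem_monomial h l) hA
    rw [pairing_eq_sum, cartan_eq_sum h i]
    simp only [hB.lin _ (Fin.isLt _) d, Finset.sum_mul]
    rw [Finset.sum_comm]
    refine Finset.sum_congr rfl fun j _ => ?_
    rw [← P.pair j j.isLt, show follow D T.q.reverse (D.simple j) = ((σ⁻¹ (smp h.cert j) : Fin D.nroots) : ℕ)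
      from ((hl (smp h.cert j)).2).symm, cartan_eq_sum h i, Finset.mul_sum]
    exact Finset.sum_congr rfl fun k _ => by ring
  set d' := σ⁻¹ d with hd'
  have hd : σ d' = d := by simp [hd']
  have hηd := hA.ne_zero d'
  have hx : xG h.cert d a = n * xG h.cert d' ((η d')⁻¹ * a) * n⁻¹ := by
    rw [hA.conj, hd, mul_inv_cancel_left₀ hηd]
  have hh : hG h.cert (D.simple i) (-1 : F) * xG h.cert d' ((η d')⁻¹ * a) *
      (hG h.cert (D.simple i) (-1 : F))⁻¹ =
      xG h.cert d' ((-1 : F) ^ pairing D A T.P d * ((η d')⁻¹ * a)) := by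
    rw [hG_simple h.cert i (neg_ne_zero.2 one_ne_zero), (acts_torus h.cert _).conj]
    congr 1
    rw [chi_mulSingle, Units.val_zpow_eq_zpow_val, Units.val_mk0, ← hχ]
  rw [ht0, hx, show n * hG h.cert (D.simple i) (-1 : F) * n⁻¹ *
      (n * xG h.cert d' ((η d')⁻¹ * a) * n⁻¹) * (n * hG h.cert (D.simple i) (-1 : F) * n⁻¹)⁻¹ =
      n * (hG h.cert (D.simple i) (-1 : F) * xG h.cert d' ((η d')⁻¹ * a) *
        (hG h.cert (D.simple i) (-1 : F))⁻¹) * n⁻¹ by group, hh, hA.conj, hd]
  congr 1
  field_simp

theorem invTop_conj_prodU {T : Tbl} {h : Full D A} (P : Props h T) (L : List ℕ)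
    (hL : ∀ r ∈ L, r < D.nroots) (t : ℕ → F) :
    invTop h * prodU h.cert L t * (invTop h)⁻¹ =
      prodU h.cert L fun r => (-1 : F) ^ pairing D A T.P r * t r := by
  induction L with
  | nil => simp [prodU]
  | cons k L ih =>
    rw [prodU_cons, prodU_cons, show invTop h * (xG h.cert k (t k) * prodU h.cert L t) * (invTop h)⁻¹ =
      invTop h * xG h.cert k (t k) * (invTop h)⁻¹ * (invTop h * prodU h.cert L t * (invTop h)⁻¹) by
      group, ih fun r hr => hL r (List.mem_cons_of_mem _ hr)]
    congr 1
    exact invTop_conj P ⟨k, hL k (List.mem_cons_self ..)⟩ (t k)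

end CfsgLib.ClassK.Subfield
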