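import Cfsg.Agent.Lib.ClassK.Subfield.Norm
import Cfsg.Agent.Lib.ClassK.Subfield.Centralizer
import Cfsg.Agent.Lib.ClassK.Subfield.TopGrade
import Cfsg.Agent.Lib.ThompsonJ.SL2Generation
import Cfsg.Agent.Lib.Twisted.FixedU

/-!
A subgroup containing the elementary group over a fixed field whose unipotent elements in `U` are
fixed consists of fixed points: the conjugates of the highest root element are fixed, and no
non-trivial element centralizes them.
-/

set_option autoImplicit false
set_option linter.unusedSectionVars false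
set_option linter.style.haveILetI false

open Matrix

namespace CfsgLib.ClassK.Subfield

open Cfsg.Lie CfsgLib.Chevalley CfsgLib.ClassK.Grading CfsgLib.ClassK.BorelTits

variable {D : ChevalleyDatum} {A : Aux} {F : Type*} [Field F] [Fintype F]

theorem conj_top_form (h : Full D A) {g : GL D.Idx F} (hg : g ∈ D.group F) :
    ∃ u ∈ D.posUnipotent F, ∃ n ∈ D.monomialSubgroup F, ∃ σ η, Acts h.cert n σ η ∧
      g * xG h.cert (topRoot D) 1 * g⁻¹ = u * xG h.cert (σ (topFin h)) (η (topFin h)) * u⁻¹ := by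
  obtain ⟨u, hu, n, hn, v, hv, rfl⟩ := exists_bnu h hg
  obtain ⟨σ, η, hA⟩ := exists_acts h hn
  refine ⟨u, hu, n, hn, σ, η, hA, ?_⟩
  have hc := commute_top (S := {r | D.IsPosRoot r}) h (fun r hr => hr) (1 : F) hv
  rw [show u * n * v * xG h.cert (topRoot D) (1 : F) * (u * n * v)⁻¹ =
    u * (n * (v * xG h.cert (topRoot D) (1 : F) * v⁻¹) * n⁻¹) * u⁻¹ by group, hc.eq,
    mul_inv_cancel_right]
  have := hA.conj (topFin h) 1
  rw [mul_one] at this
  exact congrArg (fun w => u * w * u⁻¹) this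

/-- A root not opposite to the highest one is positive with it in some system of positive roots. -/
theorem exists_common {T : Tbl} {h : Full D A} (P : Props h T) {r : Fin D.nroots}
    (hr : (r : ℕ) ≠ D.neg (topRoot D)) :
    ∃ n ∈ D.monomialSubgroup F, ∃ σ η, Acts h.cert n σ η ∧
      D.IsPosRoot (σ.symm (topFin h) : Fin D.nroots) ∧
        D.IsPosRoot (σ.symm r : Fin D.nroots) := by
  have htop := topRoot_pos h
  obtain ⟨y, h1, h2⟩ : ∃ y : Fin D.rank → ℝ, 0 < val D A y (topRoot D) ∧ 0 < val D A y r := by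
    rcases h.pos.pos_or_neg r.isLt with hp | hn
    · have hpos : ∀ r : ℕ, D.IsPosRoot r → 0 < val D A (fun _ : Fin D.rank => (1 : ℝ)) r := by
        intro r hr
        obtain ⟨i, hi⟩ := exists_crd_pos h hr
        exact val_pos_of_crd h (fun _ => zero_le_one) hr (show (0 : ℝ) < 1 from one_pos) hi
      exact ⟨fun _ => 1, hpos _ htop, hpos _ hp⟩
    rcases P.opp r hn with e | ⟨i, hi, j, hj, hlt⟩
    · exact absurd e hr
    have hij : (⟨i, hi⟩ : Fin D.rank) ≠ ⟨j, hj⟩ := by
      intro e
      obtain rfl : i = j := congrArg Fin.val e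
      exact lt_irrefl _ hlt
    set ai := crd A i (topRoot D)
    set aj := crd A j (topRoot D)
    set ci := crd A i r
    set cj := crd A j r
    set y : Fin D.rank → ℝ :=
      Pi.single ⟨i, hi⟩ ((cj - aj : ℤ) : ℝ) + Pi.single ⟨j, hj⟩ ((ai - ci : ℤ) : ℝ) with hy
    have hval : ∀ s : ℕ, val D A y s =
        (crd A i s : ℝ) * ((cj - aj : ℤ) : ℝ) + (crd A j s : ℝ) * ((ai - ci : ℤ) : ℝ) := by
      intro s
      rw [hy, val_add]
      congr 1
      · rw [val, Finset.sum_eq_single (⟨i, hi⟩ : Fin D.rank)]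
        · rw [Pi.single_eq_same]
        · intro k _ hk; rw [Pi.single_eq_of_ne hk, mul_zero]
        · simp
      · rw [val, Finset.sum_eq_single (⟨j, hj⟩ : Fin D.rank)]
        · rw [Pi.single_eq_same]
        · intro k _ hk; rw [Pi.single_eq_of_ne hk, mul_zero]
        · simp
    refine ⟨y, ?_, ?_⟩ <;> rw [hval]
    · exact_mod_cast (show 0 < ai * (cj - aj) + aj * (ai - ci) by nlinarith)
    · exact_mod_cast (show 0 < ci * (cj - aj) + cj * (ai - ci) by nlinarith)
  obtain ⟨n, hn, σ, η, hA, hdom⟩ := exists_dominant (F := F) h y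
  refine ⟨n, hn, σ, η, hA, ?_, ?_⟩ <;>
  · refine (h.pos.pos_or_neg (Fin.isLt _)).resolve_right fun hneg => ?_
    have := val_nonneg h hdom (h.neg_isPos hneg)
    rw [show D.neg _ = ((ngR h.cert (σ.symm _) : Fin D.nroots) : ℕ) from rfl, val_ngR, val_pull hA,
      Equiv.apply_symm_apply] at this
    first
    | linarith [show (0 : ℝ) < val D A y (topRoot D) from h1,
        show val D A y ((topFin h : Fin D.nroots) : ℕ) = val D A y (topRoot D) from rfl]
    | linarith

variable {T : Tbl} {p : ℕ} [Fact p.Prime] [CharP F p] {h : Full D A} {φ : F →+* F}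
  {H : Subgroup (GL D.Idx F)}

theorem Rigid.exists_SL2_invol (R : Rigid T p h φ H) [DecidableEq F] (hp2 : p ≠ 2)
    {u : GL D.Idx F} {η : F} (hη : η ≠ 0) (huU : u ∈ D.posUnipotent F)
    (hu : Commute u (xG h.cert (topRoot D) (1 : F)))
    (hz : u * xG h.cert (D.neg (topRoot D)) η * u⁻¹ ∈ H) :
    frob φ (u * invTop h * u⁻¹) = u * invTop h * u⁻¹ := by
  set ρ := (MulAut.conj u).toMonoidHom.comp (rhoTop (F := F) h)
  set X := H.comap ρ with hX
  have hxH : xG h.cert (topRoot D) (1 : F) ∈ H := R.setting.mem (xG_one_mem_fixElem h.cert φ _)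
  have hρX : ρ (slX 1) = xG h.cert (topRoot D) 1 := by
    show u * rhoTop h (slX 1) * u⁻¹ = _
    rw [rhoTop_X, hu.eq, mul_inv_cancel_right]
  have hX1 : slX (1 : F) ∈ X := by rw [hX, Subgroup.mem_comap, hρX]; exact hxH
  have hY1 : slY η ∈ X := by
    rw [hX, Subgroup.mem_comap]
    show u * rhoTop h (slY η) * u⁻¹ ∈ H
    rw [rhoTop_Y]
    exact hz
  haveI : Finite (Matrix.SpecialLinearGroup (Fin 2) F) := inferInstance
  letI : Algebra (ZMod p) F := ZMod.algebra F p
  haveI : Module.Finite (ZMod p) F := Module.Finite.of_finite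
  haveI : Algebra.IsAlgebraic (ZMod p) F := Algebra.IsAlgebraic.of_finite (ZMod p) F
  have hodd : ¬ Odd (Nat.card X) := by
    refine CfsgLib.ThompsonJ.not_odd_card_closure hp2 ?_ ?_ ?_ hX1 hY1
    · ext i j
      fin_cases i <;> fin_cases j <;> simp [sq, Matrix.mul_apply, Fin.sum_univ_two]
    · ext i j
      fin_cases i <;> fin_cases j <;> simp [sq, Matrix.mul_apply, Fin.sum_univ_two]
    · intro e
      have := congrArg (fun g : Matrix.SpecialLinearGroup (Fin 2) F => g.1 0 0) e
      simp [Matrix.mul_apply, Fin.sum_univ_two] at this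
      exact hη this
  haveI : Fact (Nat.Prime 2) := ⟨Nat.prime_two⟩
  obtain ⟨⟨g, hgX⟩, hg⟩ := exists_prime_orderOf_dvd_card' (G := X) 2
    (even_iff_two_dvd.1 (Nat.not_odd_iff_even.1 hodd))
  have hg2 : g * g = 1 ∧ g ≠ 1 := by
    rw [orderOf_eq_prime_iff] at hg
    refine ⟨?_, fun e => hg.2 (Subtype.ext e)⟩
    have := congrArg Subtype.val hg.1
    simpa [pow_two] using this
  have hgneg : g = -1 := by
    have hdet := sl_det g
    have e : ∀ i j, (g.1 * g.1) i j = (1 : Matrix (Fin 2) (Fin 2) F) i j := fun i j =>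
      congrFun (congrFun (congrArg Subtype.val hg2.1) i) j
    have h00 := e 0 0
    have h01 := e 0 1
    have h10 := e 1 0
    simp [Matrix.mul_apply, Fin.sum_univ_two] at h00 h01 h10
    set a := g.1 0 0
    set b := g.1 0 1
    set c := g.1 1 0
    set d := g.1 1 1
    have h2 : (2 : F) ≠ 0 := by
      intro h20
      refine hp2 ((Nat.prime_dvd_prime_iff_eq (Fact.out : p.Prime) Nat.prime_two).1 ?_)
      rw [← CharP.cast_eq_zero_iff F p]
      exact_mod_cast h20
    have had : a * (a + d) = 2 := by linear_combination h00 + hdet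
    have hs : a + d ≠ 0 := right_ne_zero_of_mul (had ▸ h2)
    have hb : b = 0 := by
      refine (mul_eq_zero.1 (show b * (a + d) = 0 by linear_combination h01)).resolve_right hs
    have hc : c = 0 := by
      refine (mul_eq_zero.1 (show c * (a + d) = 0 by linear_combination h10)).resolve_right hs
    rw [hb, hc, mul_zero, add_zero] at h00
    rw [hb, hc, mul_zero, sub_zero] at hdet
    rcases mul_self_eq_one_iff.1 h00 with ha | ha
    · exfalso
      refine hg2.2 (Subtype.ext (Matrix.ext fun i j => ?_))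
      fin_cases i <;> fin_cases j
      · simpa using ha
      · simpa using hb
      · simpa using hc
      · simpa [ha] using hdet
    · refine Subtype.ext (Matrix.ext fun i j => ?_)
      fin_cases i <;> fin_cases j
      · simpa using ha
      · simpa using hb
      · simpa using hc
      · rw [ha] at hdet
        simp [Matrix.SpecialLinearGroup.coe_neg]
        linear_combination -hdet
  subst hgneg
  have ht : u * invTop h * u⁻¹ ∈ H := hgX
  have hi : invTop (F := F) h ∈ H := by
    rw [invTop_eq_sq h one_ne_zero]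
    exact R.setting.mem (mul_mem (nG_mem_fixElem h.cert _ (map_one φ))
      (nG_mem_fixElem h.cert _ (map_one φ)))
  have hiU : (invTop h)⁻¹ * u * invTop h ∈ D.posUnipotent F := by
    have hw : ∀ w ∈ rootsU D F {r | D.IsPosRoot r},
        invTop h * w * (invTop h)⁻¹ ∈ rootsU D F {r | D.IsPosRoot r} := rootsU_conj_le h.cert
      (fun r hr t => by
        rw [show r = ((⟨r, hr.1⟩ : Fin D.nroots) : ℕ) from rfl, invTop_conj R.props]
        exact xG_mem_rootsU h.cert hr _)
    have h1 := hw u huU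
    have h2 : invTop (F := F) h * invTop h = 1 := by
      rw [invTop, ← map_mul, neg_mul_neg, mul_one, map_one]
    rwa [inv_eq_of_mul_eq_one_right h2] at h1 ⊢
  have hwfix := R.unip _ (show (invTop h)⁻¹ * (u * invTop h * u⁻¹) ∈ H from mul_mem (inv_mem hi) ht)
    (by
      rw [show (invTop h)⁻¹ * (u * invTop h * u⁻¹) = (invTop h)⁻¹ * u * invTop h * u⁻¹ by group]
      exact mul_mem hiU (inv_mem huU))
  rw [map_mul, map_inv, frob_invTop] at hwfix
  exact mul_left_cancel hwfix

theorem Rigid.fixed_of_opposite (R : Rigid T p h φ H) (hp2 : p ≠ 2) {u : GL D.Idx F} {η : F}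
    (hη : η ≠ 0) (hu : u ∈ D.posUnipotent F)
    (hz : u * xG h.cert (D.neg (topRoot D)) η * u⁻¹ ∈ H) :
    frob φ (u * xG h.cert (D.neg (topRoot D)) η * u⁻¹) =
      u * xG h.cert (D.neg (topRoot D)) η * u⁻¹ := by
  classical
  have P := R.props
  have htop := topRoot_pos h
  have hnlt := h.cert.wf.neg_lt _ htop.1
  set θ := topRoot D with hθ
  -- split off the part orthogonal to the highest root
  set S1 : Set ℕ := {r | pairing D A T.P r ≠ 0}
  set S0 : Set ℕ := {r | pairing D A T.P r = 0}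
  obtain ⟨uQ, huQ, uL, huL, rfl⟩ := split_pos h.toStd (P := S1) (Q := S0)
    (fun r _ => (em (pairing D A T.P r = 0)).symm) hu
  have hcL : ∀ (s : F), Commute uL (xG h.cert (D.neg θ) s) := by
    intro s
    have := (rootsU_le_iff h.cert (K := Subgroup.centralizer {xG h.cert (D.neg θ) s})).2
      (fun r hr a => Subgroup.mem_centralizer_singleton_iff.2 ?_) huL
    · exact Subgroup.mem_centralizer_singleton_iff.1 this
    · have hd0 : pairing D A T.P r = 0 := hr.2
      have hne : D.neg θ ≠ r := fun e => by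
        have := h.toStd.neg_isNeg htop
        rw [e] at this
        exact h.pos_not_neg hr.1 this
      refine commute_of_terms h hr.1.1 hnlt hne (fun e => ?_) (commTerms_negTop P hr.1 hd0) a s
      have e' := congrArg D.neg e
      rw [h.cert.wf.neg_neg _ htop.1, h.cert.wf.neg_neg _ hr.1.1] at e'
      rw [← e', P.grade_top] at hd0
      norm_num at hd0
  have hzQ : uQ * uL * xG h.cert (D.neg θ) η * (uQ * uL)⁻¹ =
      uQ * xG h.cert (D.neg θ) η * uQ⁻¹ := by
    rw [show uQ * uL * xG h.cert (D.neg θ) η * (uQ * uL)⁻¹ =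
      uQ * (uL * xG h.cert (D.neg θ) η * uL⁻¹) * uQ⁻¹ by group, (hcL η).eq, mul_inv_cancel_right]
  rw [hzQ] at hz ⊢
  -- the ordered product
  set L' := D.posRoots.filter fun r => decide (pairing D A T.P r = 1)
  set L := L' ++ [θ]
  obtain ⟨hsort, hset, -⟩ := h.toStd.posList
  have hmemP : ∀ r, r ∈ D.posRoots ↔ D.IsPosRoot r := fun r => Set.ext_iff.1 hset r
  have hL' : ∀ r, r ∈ L' ↔ D.IsPosRoot r ∧ pairing D A T.P r = 1 := fun r => by
    simp [L', hmemP]
  have hLset : {r | r ∈ L} = {r | D.IsPosRoot r ∧ r ∈ S1} := by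
    ext r
    simp only [L, List.mem_append, List.mem_singleton, Set.mem_setOf_eq, hL', S1]
    constructor
    · rintro (⟨hr, e⟩ | rfl)
      · exact ⟨hr, by rw [e]; norm_num⟩
      · exact ⟨htop, by rw [P.grade_top]; norm_num⟩
    · rintro ⟨hr, hne⟩
      rcases pairing_pos_range P hr with e | e | ⟨-, e⟩
      · exact absurd e hne
      · exact Or.inl ⟨hr, e⟩
      · exact Or.inr e
  have hLs : L.Pairwise (· < ·) := by
    refine List.pairwise_append.2 ⟨hsort.filter _, List.pairwise_singleton _ _, fun a ha b hb => ?_⟩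
    rw [List.mem_singleton] at hb
    subst hb
    refine lt_of_le_of_ne (pos_le_top h ((hL' a).1 ha).1) fun e => ?_
    have := ((hL' a).1 ha).2
    rw [e, P.grade_top] at this
    norm_num at this
  have hLc : IsClosedRoots D {r | r ∈ L} := by
    rw [hLset]
    refine ⟨fun r hr => hr.1, fun r hr s hs _ c hc => ⟨(h.toStd.lt_commTerms hr.1 hs.1 hc).1, ?_⟩⟩
    obtain ⟨-, i, j, hi, hj, e⟩ := h.commTerms_crd hr.1.1 hs.1.1 hc
    show pairing D A T.P c.1 ≠ 0
    rw [pairing_comb T.P e]
    have h1 : 1 ≤ pairing D A T.P r := by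
      rcases pairing_pos_range P hr.1 with e' | e' | ⟨e', -⟩
      · exact absurd e' hr.2
      all_goals omega
    have h2 : 1 ≤ pairing D A T.P s := by
      rcases pairing_pos_range P hs.1 with e' | e' | ⟨e', -⟩
      · exact absurd e' hs.2
      all_goals omega
    nlinarith
  have hLlt : ∀ r ∈ L, r < D.nroots := fun r hr => (hLc.pos r hr).1
  have happ : ∀ t : ℕ → F, prodU h.cert L t = prodU h.cert L' t * xG h.cert θ (t θ) := fun t => by
    simp [L, prodU]
  have hθL' : θ ∉ L' := fun hm => by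
    have := ((hL' θ).1 hm).2
    rw [P.grade_top] at this
    norm_num at this
  have hupd : ∀ (t : ℕ → F) (v : F), prodU h.cert L (Function.update t θ v) =
      prodU h.cert L' t * xG h.cert θ v := fun t v => by
    rw [happ, Function.update_self]
    congr 1
    unfold prodU
    congr 1
    refine List.map_congr_left fun r hr => ?_
    rw [Function.update_of_ne]
    rintro rfl
    exact hθL' hr
  rw [← hLset] at huQ
  obtain ⟨t, -, rfl⟩ := exists_prodU h.toStd hLs hLc huQ
  rw [happ] at hz ⊢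
  set u0 := prodU h.cert L' t with hu0
  set a := t θ
  -- the involution is fixed
  have hθcomm : ∀ v : F, invTop h * xG h.cert θ v * (invTop h)⁻¹ = xG h.cert θ v := fun v => by
    have h1 := invTop_conj P (topFin h) v
    rw [show ((topFin h : Fin D.nroots) : ℕ) = θ from rfl, P.grade_top] at h1
    norm_num at h1
    exact h1
  have hT : u0 * xG h.cert θ a * invTop h * (u0 * xG h.cert θ a)⁻¹ = u0 * invTop h * u0⁻¹ := by
    have := mul_inv_eq_iff_eq_mul.1 (hθcomm a)
    rw [show u0 * xG h.cert θ a * invTop h * (u0 * xG h.cert θ a)⁻¹ =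
      u0 * (xG h.cert θ a * invTop h) * (xG h.cert θ a)⁻¹ * u0⁻¹ by group, ← this]
    group
  have hu0mem : u0 ∈ rootsU D F {r | r ∈ L} :=
    rootsU_mono (fun r (hr : r ∈ L') => List.mem_append_left _ hr) (prodU_mem h.cert t)
  have hLU : ∀ w ∈ rootsU D F {r | r ∈ L}, Commute w (xG h.cert θ (1 : F)) := fun w hw =>
    commute_top h hLc.pos 1 hw
  have hfixT := R.exists_SL2_invol hp2 hη
    (rootsU_mono (T := {r | D.IsPosRoot r}) (fun r hr => hLc.pos r hr) (mul_mem hu0mem
      (xG_mem_rootsU h.cert (show θ ∈ {r | r ∈ L} by simp [L]) a)))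
    (hLU _ (mul_mem hu0mem (xG_mem_rootsU h.cert (show θ ∈ {r | r ∈ L} by simp [L]) a))) hz
  rw [hT, map_mul, map_mul, map_inv, frob_invTop] at hfixT
  set e0 := u0⁻¹ * frob φ u0 with he0
  have hc0 : invTop h * e0 * (invTop h)⁻¹ = e0 := by
    rw [mul_inv_eq_iff_eq_mul, he0]
    calc invTop h * (u0⁻¹ * frob φ u0) = u0⁻¹ * (u0 * invTop h * u0⁻¹) * frob φ u0 := by group
      _ = u0⁻¹ * (frob φ u0 * invTop h * (frob φ u0)⁻¹) * frob φ u0 := by rw [hfixT]
      _ = u0⁻¹ * frob φ u0 * invTop h := by group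
  obtain ⟨s, -, hs⟩ := exists_prodU h.toStd hLs hLc
    (show e0 ∈ rootsU D F {r | r ∈ L} from mul_mem (inv_mem hu0mem) (frob_rootsU h.cert φ hu0mem))
  rw [hs, invTop_conj_prodU P L hLlt] at hc0
  have h2 : (2 : F) ≠ 0 := by
    intro h20
    refine hp2 ((Nat.prime_dvd_prime_iff_eq (Fact.out : p.Prime) Nat.prime_two).1 ?_)
    rw [← CharP.cast_eq_zero_iff F p]
    exact_mod_cast h20
  have hs0 : ∀ r ∈ L', s r = 0 := by
    intro r hr
    have h1 := prodU_injOn h.toStd hLs hLc hc0 r (List.mem_append_left _ hr)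
    rw [((hL' r).1 hr).2, _root_.zpow_one] at h1
    exact (mul_eq_zero.1 (show (2 : F) * s r = 0 by linear_combination -h1)).resolve_left h2
  have he0' : e0 = xG h.cert θ (s θ) := by
    rw [hs, happ, CfsgLib.Twisted.prodU_zero h.cert L' s hs0, one_mul]
  have hu0fix : frob φ u0 = u0 := by
    have h1 : prodU h.cert L (Function.update (fun r => φ (t r)) θ 0) =
        prodU h.cert L (Function.update t θ (s θ)) := by
      rw [hupd, hupd, xG_zero, mul_one, ← frob_prodU, ← he0', he0, ← hu0, mul_inv_cancel_left]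
    rw [hu0, frob_prodU]
    unfold prodU
    congr 1
    refine List.map_congr_left fun r hr => ?_
    have h2 := prodU_injOn h.toStd hLs hLc h1 r (List.mem_append_left _ hr)
    have hne : r ≠ θ := fun e => hθL' (e ▸ hr)
    rw [Function.update_of_ne hne, Function.update_of_ne hne] at h2
    beta_reduce at h2 ⊢
    rw [h2]
  -- the orthogonal root element
  have hu0H : u0 ∈ H := R.setting.mem (rootsU_frob_sub_posU h (fun r hr => hLc.pos r hr) hu0mem hu0fix)
  set w := xG h.cert θ a * xG h.cert (D.neg θ) η * (xG h.cert θ a)⁻¹ with hw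
  have hzw : u0 * xG h.cert θ a * xG h.cert (D.neg θ) η * (u0 * xG h.cert θ a)⁻¹ =
      u0 * w * u0⁻¹ := by rw [hw]; group
  rw [hzw] at hz ⊢
  have hwH : w ∈ H := by
    rw [show w = u0⁻¹ * (u0 * w * u0⁻¹) * u0 by group]
    exact mul_mem (mul_mem (inv_mem hu0H) hz) hu0H
  obtain ⟨d, hd, hd0, hdne⟩ := P.grade_zero
  have hdx : Commute (xG h.cert d (1 : F)) (xG h.cert θ a) :=
    commute_of_terms h hd.1 htop.1 (Ne.symm hdne) (h.toStd.ne_neg hd htop) (commTerms_top h hd) 1 a
  have hdy : Commute (xG h.cert d (1 : F)) (xG h.cert (D.neg θ) η) := by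
    refine commute_of_terms h hd.1 hnlt (fun e => ?_) (fun e => ?_) (commTerms_negTop P hd hd0) 1 η
    · have := h.toStd.neg_isNeg htop
      rw [e] at this
      exact h.pos_not_neg hd this
    · have e' := congrArg D.neg e
      rw [h.cert.wf.neg_neg _ htop.1, h.cert.wf.neg_neg _ hd.1] at e'
      exact hdne e'.symm
  have hwfix := R.fixed_of_commute (R.setting.mem (xG_one_mem_fixElem h.cert φ d))
      (by rw [frob_xG, map_one]) (k := 1)
    (by rw [pow_one, xG_pow_p h]) (fun e => one_ne_zero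
      (xG_injective h.cert hd.1 (e.trans (xG_zero h.cert _).symm))) hwH
    ⟨1, by
      rw [hw, pow_one, conj_pow, xG_pow_p h, mul_one, mul_inv_cancel]⟩
    ((hdx.mul_right hdy).mul_right hdx.inv_right)
  rw [map_mul, map_mul, map_inv, hu0fix, hwfix]

theorem Rigid.conj_fixed (R : Rigid T p h φ H)
    (hinv : p = 2 → ∃ x1 ∈ fixElem h.cert φ, x1 ≠ 1 ∧ x1 * x1 = 1 ∧
      ∀ g ∈ D.group F, g * xG h.cert (topRoot D) (1 : F) * g⁻¹ ≠ x1) :
    ∀ a ∈ H, frob φ (a * xG h.cert (topRoot D) (1 : F) * a⁻¹) =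
      a * xG h.cert (topRoot D) (1 : F) * a⁻¹ := by
  intro a ha
  have htop := topRoot_pos h
  set x0 := xG h.cert (topRoot D) (1 : F) with hx0
  have hx0fix : frob φ x0 = x0 := by rw [hx0, frob_xG, map_one]
  have hx0H : x0 ∈ H := R.setting.mem (xG_one_mem_fixElem h.cert φ _)
  have hx01 : x0 ≠ 1 := fun e =>
    one_ne_zero (xG_injective h.cert htop.1 (e.trans (xG_zero h.cert _).symm))
  have hzH : a * x0 * a⁻¹ ∈ H := mul_mem (mul_mem ha hx0H) (inv_mem ha)
  by_contra hnf
  by_cases hp2 : p = 2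
  · obtain ⟨x1, hx1G, hx11, hx12, hnc⟩ := hinv hp2
    have hx1fix : frob φ x1 = x1 := fixElem_fixed h.cert φ hx1G
    have hx1H : x1 ∈ H := R.setting.mem hx1G
    set z := a * x0 * a⁻¹ with hz
    have hz2 : z * z = 1 := by
      rw [hz, show a * x0 * a⁻¹ * (a * x0 * a⁻¹) = a * x0 ^ 2 * a⁻¹ by rw [pow_two]; group, ← hp2,
        xG_pow_p h, mul_one, mul_inv_cancel]
    have hx1i : x1⁻¹ = x1 := inv_eq_of_mul_eq_one_right hx12
    have hzi : z⁻¹ = z := inv_eq_of_mul_eq_one_right hz2
    have hflip : ∀ k : ℕ, x1 * (x1 * z) ^ k = ((x1 * z) ^ k)⁻¹ * x1 := by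
      intro k
      have e1 : x1 * (x1 * z) * x1⁻¹ = (x1 * z)⁻¹ := by
        rw [_root_.mul_inv_rev x1 z, hzi, hx1i, ← mul_assoc, hx12, one_mul]
      have e2 := conj_pow (a := x1) (b := x1 * z) (i := k)
      rw [e1, inv_pow] at e2
      rw [e2, inv_mul_cancel_right]
    have hflip' : ∀ k : ℕ, z * (x1 * z) ^ k = ((x1 * z) ^ k)⁻¹ * z := by
      intro k
      have e1 : z * (x1 * z) * z⁻¹ = (x1 * z)⁻¹ := by
        rw [_root_.mul_inv_rev x1 z, hzi, hx1i, mul_assoc z (x1 * z) z, mul_assoc x1 z z, hz2, mul_one]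
      have e2 := conj_pow (a := z) (b := x1 * z) (i := k)
      rw [e1, inv_pow] at e2
      rw [e2, inv_mul_cancel_right]
    have hmemH : ∀ k : ℕ, (x1 * z) ^ k ∈ H := fun k => pow_mem (mul_mem hx1H hzH) k
    rcases Nat.even_or_odd (orderOf (x1 * z)) with ⟨m, hm⟩ | ⟨m, hm⟩
    · set w := (x1 * z) ^ m
      have hmpos : 0 < m := by
        have := orderOf_pos (x1 * z)
        omega
      have hw2 : w * w = 1 := by rw [← pow_add, ← hm, pow_orderOf_eq_one]
      have hwi : w⁻¹ = w := inv_eq_of_mul_eq_one_right hw2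
      have hw1 : w ≠ 1 := pow_ne_one_of_lt_orderOf (by omega) (by omega)
      have hc1 : Commute x1 w := by
        show _ = _
        rw [hflip, hwi]
      have hc2 : Commute z w := by
        show _ = _
        rw [hflip', hwi]
      have hwfix := R.fixed_of_commute hx1H hx1fix (k := 1) (by rw [pow_one, hp2, pow_two, hx12])
        hx11 (hmemH m) ⟨1, by rw [pow_one, hp2, pow_two, hw2]⟩ hc1
      exact hnf (R.fixed_of_commute (hmemH m) hwfix (k := 1) (by rw [pow_one, hp2, pow_two, hw2])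
        hw1 hzH ⟨1, by rw [pow_one, hp2, pow_two, hz2]⟩ hc2.symm)
    · set c := (x1 * z) ^ m
      have hcz : c * x1 * c⁻¹ = z := by
        have h1 : x1 * c⁻¹ = c * x1 := by
          have h3 : x1 * c * x1 = c⁻¹ := by rw [hflip m, mul_assoc, hx12, mul_one]
          rw [← h3, ← mul_assoc, ← mul_assoc, hx12, one_mul]
        have h2 : (c * c * x1) * z = 1 := by
          rw [mul_assoc, ← pow_add, ← pow_succ, show m + m + 1 = orderOf (x1 * z) by omega,
            pow_orderOf_eq_one]
        rw [mul_assoc, h1, ← mul_assoc, ← hzi]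
        exact eq_inv_of_mul_eq_one_left h2
      refine hnc (c⁻¹ * a) (mul_mem (inv_mem (R.setting.leG (hmemH m))) (R.setting.leG ha)) ?_
      rw [show c⁻¹ * a * x0 * (c⁻¹ * a)⁻¹ = c⁻¹ * (a * x0 * a⁻¹) * c by group]
      change c⁻¹ * z * c = x1
      rw [← hcz]
      group
  · obtain ⟨u, hu, n, hn, σ, η, hA, e⟩ := conj_top_form h (R.setting.leG ha)
    rw [e] at hzH hnf
    by_cases hr : ((σ (topFin h) : Fin D.nroots) : ℕ) = D.neg (topRoot D)
    · rw [hr] at hzH hnf
      exact hnf (R.fixed_of_opposite hp2 (hA.ne_zero _) hu hzH)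
    obtain ⟨m, hm, τ, θ', hB, hp1, hp2'⟩ := exists_common (F := F) R.props hr
    set Q := (D.posUnipotent F).map (MulAut.conj (u * m)).toMonoidHom
    have hQ : IsPGroup p Q :=
      (CfsgLib.InvCentralizers.ChevalleySteinberg.isPGroup_U h).map _
    have hmem : ∀ (s : Fin D.nroots) (t : F), D.IsPosRoot (τ.symm s : Fin D.nroots) →
        u * xG h.cert s t * u⁻¹ ∈ Q := by
      intro s t hs
      refine ⟨xG h.cert (τ.symm s : Fin D.nroots) ((θ' (τ.symm s))⁻¹ * t),
        xG_mem_rootsU (S := {r | D.IsPosRoot r}) h.cert hs _, ?_⟩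
      show u * m * _ * (u * m)⁻¹ = _
      have := hB.conj (τ.symm s) ((θ' (τ.symm s))⁻¹ * t)
      rw [Equiv.apply_symm_apply, mul_inv_cancel_left₀ (hB.ne_zero _)] at this
      rw [← this]
      group
    have hxQ : x0 ∈ Q := by
      have hc := commute_top (S := {r | D.IsPosRoot r}) h (fun r hr => hr) (1 : F) hu
      have := hmem (topFin h) 1 hp1
      rwa [show u * xG h.cert ((topFin h : Fin D.nroots) : ℕ) (1 : F) * u⁻¹ = x0 by
        rw [show ((topFin h : Fin D.nroots) : ℕ) = topRoot D from rfl, hc.eq, mul_inv_cancel_right]]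
        at this
    exact hnf (R.fixed_of_pGroup hx0H hx0fix hx01 hzH hQ hxQ (hmem _ _ hp2'))

/-- All of `H` is fixed. -/
theorem Rigid.eq_fixed (R : Rigid T p h φ H) (hlead : HasLead h φ)
    (hinv : p = 2 → ∃ x1 ∈ fixElem h.cert φ, x1 ≠ 1 ∧ x1 * x1 = 1 ∧
      ∀ g ∈ D.group F, g * xG h.cert (topRoot D) (1 : F) * g⁻¹ ≠ x1) :
    ∀ g ∈ H, frob φ g = g := by
  have hconj := R.conj_fixed hinv
  intro g hg
  have hgG := R.setting.leG hg
  refine (inv_mul_eq_one.1 (eq_one_of_commute_rootClosure h hlead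
    (mul_mem (inv_mem hgG) (frob_mem_group h.cert φ hgG)) fun w hw => ?_)).symm
  have hw' : w ∈ Subgroup.centralizer {g⁻¹ * frob φ g} := by
    refine (Subgroup.closure_le _).2 ?_ hw
    rintro _ ⟨a, ha, rfl⟩
    refine Subgroup.mem_centralizer_singleton_iff.2 ?_
    have h1 := hconj (g * a) (mul_mem hg (R.setting.mem ha))
    rw [show g * a * xG h.cert (topRoot D) (1 : F) * (g * a)⁻¹ =
      g * (a * xG h.cert (topRoot D) 1 * a⁻¹) * g⁻¹ by group, map_mul, map_mul, map_inv,
      map_mul, map_mul, map_inv, show frob φ a = a from fixElem_fixed h.cert φ ha, frob_xG, map_one] at h1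
    set w0 := a * xG h.cert (topRoot D) (1 : F) * a⁻¹
    calc w0 * (g⁻¹ * frob φ g) = g⁻¹ * (g * w0 * g⁻¹) * frob φ g := by group
      _ = g⁻¹ * (frob φ g * w0 * (frob φ g)⁻¹) * frob φ g := by rw [h1]
      _ = g⁻¹ * frob φ g * w0 := by group
  exact (Subgroup.mem_centralizer_singleton_iff.1 hw').symm

end CfsgLib.ClassK.Subfield
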