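import Cfsg.Agent.Lib.ClassK.Subfield.Basic
import Cfsg.Agent.Lib.ClassK.Subfield.Props

/-!
A non-fixed element of `H` in `U` gives one at the highest root, or at the exceptional dominant
root in the exceptional characteristic: commutators with fixed root elements raise the leading
root.
-/

set_option autoImplicit false
set_option linter.unusedSectionVars false

namespace CfsgLib.ClassK.Subfield

open Cfsg.Lie CfsgLib.Chevalley

variable {D : ChevalleyDatum} {A : Aux} {F : Type*} [Field F]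

/-- The positive roots above a bound. -/
def above (D : ChevalleyDatum) (k : ℕ) : Set ℕ := {r | D.IsPosRoot r} ∩ Set.Ici k

theorem phi_tail_terms (h : Full D A) {k d e : ℕ} (hk : D.IsPosRoot k) (hd : D.IsPosRoot d)
    (he : D.chainRoot k d 1 = some e) :
    ∃ rest, D.commTerms k d = (e, D.chainM k d 1, 1, 1) :: rest ∧
      ∀ c ∈ rest, phi D A e < phi D A c.1 := by
  obtain ⟨-, he'⟩ := h.pos.chain_phi h.cert hk.1 he
  have h1 := h.pos.phi_pos hk
  have h2 := h.pos.phi_pos hd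
  simp only [ChevalleyDatum.commTerms, List.filterMap_cons, he, Option.map_some, List.filterMap_nil]
  refine ⟨_, rfl, fun c hc => ?_⟩
  set f : Option ℕ × ℤ × ℕ × ℕ → Option (ℕ × ℤ × ℕ × ℕ) := fun c => c.1.map fun k => (k, c.2)
  have hc' : c ∈ List.filterMap f
      [ (D.chainRoot k d 2, D.chainM k d 2, 2, 1),
        (D.chainRoot d k 2, D.chainM d k 2, 1, 2),
        (D.chainRoot k d 3, D.chainM k d 3, 3, 1),
        (D.chainRoot d k 3, - D.chainM d k 3, 1, 3),
        ((D.chainRoot k d 3).bind fun j => D.chainRoot j d 1,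
          ((some e).map fun j => D.chainM j k 2 / 3).getD 0, 3, 2),
        ((D.chainRoot d k 3).bind fun j => D.chainRoot j k 1,
          ((some e).map fun j => -2 * D.chainM j d 2 / 3).getD 0, 2, 3) ] := by
    simpa only [List.filterMap_cons, List.filterMap_nil, Option.map_some, f] using hc
  simp only [List.mem_filterMap, f, Option.map_eq_some_iff] at hc'
  obtain ⟨q, hq, m, hm, rfl⟩ := hc'
  simp only [List.mem_cons, List.not_mem_nil, or_false] at hq
  show phi D A e < phi D A m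
  rcases hq with rfl | rfl | rfl | rfl | rfl | rfl
  · rw [(h.pos.chain_phi h.cert hk.1 hm).2, he']; push_cast; linarith
  · rw [(h.pos.chain_phi h.cert hd.1 hm).2, he']; push_cast; linarith
  · rw [(h.pos.chain_phi h.cert hk.1 hm).2, he']; push_cast; linarith
  · rw [(h.pos.chain_phi h.cert hd.1 hm).2, he']; push_cast; linarith
  · simp only [Option.bind_eq_some_iff] at hm
    obtain ⟨j, hj, hm⟩ := hm
    obtain ⟨hjlt, hj'⟩ := h.pos.chain_phi h.cert hk.1 hj
    rw [(h.pos.chain_phi h.cert hjlt hm).2, hj', he']; push_cast; linarith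
  · simp only [Option.bind_eq_some_iff] at hm
    obtain ⟨j, hj, hm⟩ := hm
    obtain ⟨hjlt, hj'⟩ := h.pos.chain_phi h.cert hd.1 hj
    rw [(h.pos.chain_phi h.cert hjlt hm).2, hj', he']; push_cast; linarith

theorem commutator_above (h : Full D A) {k d e : ℕ} (hd : D.IsPosRoot d) (he : e < D.nroots)
    (hphi : phi D A e = phi D A k + phi D A d) {v : GL D.Idx F}
    (hv : v ∈ rootsU D F (above D (k + 1))) (a : F) :
    xG h.cert d a * v * (xG h.cert d a)⁻¹ * v⁻¹ ∈ rootsU D F (above D (e + 1)) := by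
  have hcl := h.toStd.isClosed_pos
  have hnorm : ∀ g ∈ D.posUnipotent F, ∀ w ∈ rootsU D F (above D (e + 1)),
      g * w * g⁻¹ ∈ rootsU D F (above D (e + 1)) := fun g hg w hw =>
    conj_mem_of_mem h.toStd hcl (e + 1) hg w hw
  suffices key : v ∈ D.posUnipotent F ∧
      xG h.cert d a * v * (xG h.cert d a)⁻¹ * v⁻¹ ∈ rootsU D F (above D (e + 1)) from key.2
  induction hv using rootsU_induction h.cert with
  | h1 =>
    refine ⟨Subgroup.one_mem _, ?_⟩
    rw [mul_one, inv_one, mul_one, mul_inv_cancel]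
    exact Subgroup.one_mem _
  | hx r hr t =>
    obtain ⟨hrp : D.IsPosRoot r, hrk : k + 1 ≤ r⟩ := hr
    have hxU : xG h.cert r t ∈ D.posUnipotent F :=
      xG_mem_rootsU (S := {r | D.IsPosRoot r}) h.cert hrp t
    refine ⟨hxU, ?_⟩
    by_cases hrd : r = d
    · subst hrd
      simp only [xG_mul, xG_inv]
      rw [show a + t + -a + -t = 0 by ring, xG_zero]
      exact Subgroup.one_mem _
    rw [conj_eq_terms h hd.1 hrp.1 hrd (h.toStd.ne_neg hd hrp) a t]
    refine hnorm _ hxU _ (Subgroup.list_prod_mem _ fun x hx => ?_)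
    obtain ⟨c, hc, rfl⟩ := List.mem_map.1 hx
    refine xG_mem_rootsU h.cert (show c.1 ∈ above D (e + 1) from
      ⟨(h.toStd.lt_commTerms hd hrp hc).1, Nat.succ_le_of_lt ?_⟩) _
    obtain ⟨hclt, i, j, hi, hj, e'⟩ := h.pos.commTerms_phi h.cert hd.1 hrp.1 hc
    refine (h.pos.phi_lt_iff he hclt).1 ?_
    have := h.pos.phi_pos hd
    have := h.pos.phi_pos hrp
    have := h.pos.phi_lt (u := k) (v := r) (by omega) hrp.1
    rw [e', hphi]
    nlinarith
  | hmul x y _ _ hx hy =>
    refine ⟨Subgroup.mul_mem _ hx.1 hy.1, ?_⟩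
    rw [show xG h.cert d a * (x * y) * (xG h.cert d a)⁻¹ * (x * y)⁻¹ =
      xG h.cert d a * x * (xG h.cert d a)⁻¹ * x⁻¹ *
        (x * (xG h.cert d a * y * (xG h.cert d a)⁻¹ * y⁻¹) * x⁻¹) by group]
    exact Subgroup.mul_mem _ hx.2 (hnorm _ hx.1 _ hy.2)

variable {φ : F →+* F} {H : Subgroup (GL D.Idx F)}

/-- With all higher elements fixed, the constants upwards from a non-fixed leading root vanish. -/
theorem chainM_eq_zero {h : Full D A} (hS : Setting h φ H) {k : ℕ} (hk : D.IsPosRoot k)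
    {t : F} (ht : φ t ≠ t) {v : GL D.Idx F} (hv : v ∈ rootsU D F (above D (k + 1)))
    (hg : xG h.cert k t * v ∈ H)
    (htail : ∀ y ∈ H, y ∈ rootsU D F (above D (k + 1)) → frob φ y = y)
    {d e : ℕ} (hd : D.IsPosRoot d) (hdk : d ≠ k) (he : D.chainRoot k d 1 = some e) :
    (D.chainM k d 1 : F) = 0 := by
  have hcl := h.toStd.isClosed_pos
  obtain ⟨helt, hphi⟩ := h.pos.chain_phi h.cert hk.1 he
  norm_num at hphi
  have hk' := h.pos.phi_pos hk
  have hd' := h.pos.phi_pos hd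
  have hepos : D.IsPosRoot e := h.pos.isPos_of_phi_pos helt (by omega)
  have hke : k < e := (h.pos.phi_lt_iff hk.1 helt).1 (by omega)
  set N := rootsU D F (above D (e + 1))
  have hnorm : ∀ g ∈ D.posUnipotent F, ∀ w ∈ N, g * w * g⁻¹ ∈ N := fun g hg w hw =>
    conj_mem_of_mem h.toStd hcl (e + 1) hg w hw
  have hU : ∀ r, D.IsPosRoot r → ∀ s : F, xG h.cert r s ∈ D.posUnipotent F := fun r hr s =>
    xG_mem_rootsU (S := {r | D.IsPosRoot r}) h.cert hr s
  set xd := xG h.cert d (1 : F) with hxd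
  set xk := xG h.cert k t with hxk
  have hxdH : xd ∈ H := hS.mem (xG_one_mem_fixElem h.cert φ d)
  obtain ⟨rest, hrest, hlt⟩ := phi_tail_terms h hk hd he
  set C := D.chainM k d 1 with hC
  set R := (rest.map fun c => xG h.cert c.1 ((c.2.1 : F) * t ^ c.2.2.1 * (1 : F) ^ c.2.2.2)).prod
  have hR : R ∈ N := by
    refine Subgroup.list_prod_mem _ fun x hx => ?_
    obtain ⟨c, hc, rfl⟩ := List.mem_map.1 hx
    have hc' : c ∈ D.commTerms k d := by rw [hrest]; exact List.mem_cons_of_mem _ hc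
    obtain ⟨hcpos, -, -⟩ := h.toStd.lt_commTerms hk hd hc'
    exact xG_mem_rootsU h.cert (show c.1 ∈ above D (e + 1) from
      ⟨hcpos, Nat.succ_le_of_lt ((h.pos.phi_lt_iff helt hcpos.1).1 (hlt c hc))⟩) _
  have hterms : terms h.cert k d t 1 = xG h.cert e ((C : F) * t) * R := by
    simp [terms, hrest, R]
  -- the commutator
  set g := xk * v
  set y := g * xd * g⁻¹ * xd⁻¹
  have hyH : y ∈ H := mul_mem (mul_mem (mul_mem hg hxdH) (inv_mem hg)) (inv_mem hxdH)
  set n1 := xk * (v * xd * v⁻¹ * xd⁻¹) * xk⁻¹ * (xd * xG h.cert e ((C : F) * t) * xd⁻¹ *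
    (xG h.cert e ((C : F) * t))⁻¹)
  have hn1 : n1 ∈ N := by
    refine Subgroup.mul_mem _ (hnorm _ (hU k hk t) _ ?_) ?_
    · have := Subgroup.inv_mem _ (commutator_above h hd helt hphi hv (1 : F))
      rwa [show (xG h.cert d (1 : F) * v * (xG h.cert d 1)⁻¹ * v⁻¹)⁻¹ = v * xd * v⁻¹ * xd⁻¹ by
        rw [hxd]; group] at this
    · exact commutator_mem h.toStd hcl (hU d hd 1)
        (xG_mem_rootsU h.cert (show e ∈ {r | D.IsPosRoot r} ∩ Set.Ici e from ⟨hepos, Set.mem_Ici.2 le_rfl⟩) _)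
  set n3 := (xG h.cert e ((C : F) * t))⁻¹ * n1 * xG h.cert e ((C : F) * t) * (xd * R * xd⁻¹)
  have hn3 : n3 ∈ N := by
    refine Subgroup.mul_mem _ ?_ (hnorm _ (hU d hd 1) _ hR)
    have := hnorm _ (Subgroup.inv_mem _ (hU e hepos ((C : F) * t))) _ hn1
    rwa [inv_inv] at this
  have hy : y = xG h.cert e ((C : F) * t) * n3 := by
    have e1 : xk * xd * xk⁻¹ = xd * (xG h.cert e ((C : F) * t) * R) := by
      rw [← hterms]
      exact conj_eq_terms h hk.1 hd.1 hdk (h.toStd.ne_neg hk hd) t 1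
    have e2 : y = xk * (v * xd * v⁻¹ * xd⁻¹) * xk⁻¹ * (xk * xd * xk⁻¹ * xd⁻¹) := by
      simp only [y, g]; group
    rw [e2, e1]
    simp only [n3, n1]
    group
  have hyU : y ∈ rootsU D F (above D (k + 1)) := by
    rw [hy]
    refine Subgroup.mul_mem _ (xG_mem_rootsU h.cert (show e ∈ above D (k + 1) from ⟨hepos, hke⟩) _)
      (rootsU_mono (T := above D (k + 1)) ?_ hn3)
    intro r hr
    refine ⟨hr.1, ?_⟩
    have hr' : e + 1 ≤ r := hr.2
    show k + 1 ≤ r
    omega
  have hfix := htail y hyH hyU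
  rw [hy, map_mul, frob_xG] at hfix
  have hmem : xG h.cert e (-((C : F) * t) + φ ((C : F) * t)) ∈ N := by
    rw [← xG_mul, ← xG_inv, show (xG h.cert e ((C : F) * t))⁻¹ * xG h.cert e (φ ((C : F) * t)) =
      n3 * (frob φ n3)⁻¹ by rw [eq_mul_inv_iff_mul_eq, mul_assoc, hfix, inv_mul_cancel_left]]
    exact Subgroup.mul_mem _ hn3 (Subgroup.inv_mem _ (frob_rootsU h.cert φ hn3))
  have h0 := eq_zero_of_xG_mem h.toStd hepos (fun r hr => ⟨hr.1, hr.2⟩) hmem
  rw [map_mul, map_intCast] at h0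
  by_contra hne
  exact ht (mul_left_cancel₀ hne (by linear_combination h0))

theorem exists_max_above {h : Full D A} (hS : Setting h φ H) {y : GL D.Idx F} (hyH : y ∈ H)
    (hyU : y ∈ D.posUnipotent F) (hy : frob φ y ≠ y) :
    ∃ k, D.IsPosRoot k ∧ ∃ t v, φ t ≠ t ∧ v ∈ rootsU D F (above D (k + 1)) ∧
      xG h.cert k t * v ∈ H ∧
      ∀ w ∈ H, w ∈ rootsU D F (above D (k + 1)) → frob φ w = w := by
  suffices key : ∀ m ≤ D.nroots, (∀ w ∈ H, w ∈ rootsU D F (above D (D.nroots - m)) → frob φ w = w) ∨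
      ∃ k, D.IsPosRoot k ∧ ∃ t v, φ t ≠ t ∧ v ∈ rootsU D F (above D (k + 1)) ∧
        xG h.cert k t * v ∈ H ∧
        ∀ w ∈ H, w ∈ rootsU D F (above D (k + 1)) → frob φ w = w by
    refine (key D.nroots le_rfl).resolve_left fun hall => hy (hall y hyH ?_)
    exact rootsU_mono (T := above D (D.nroots - D.nroots)) (fun r hr => ⟨hr, by simp⟩) hyU
  intro m
  induction m with
  | zero =>
    refine fun _ => Or.inl fun w _ hw => ?_
    rw [rootsU_inter_empty h.cert (fun r hr => hr.1) (by simp) hw, map_one]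
  | succ m ih =>
    intro hm
    rcases ih (by omega) with hall | hex
    swap
    · exact Or.inr hex
    by_cases hnon : ∀ w ∈ H, w ∈ rootsU D F (above D (D.nroots - (m + 1))) → frob φ w = w
    · exact Or.inl hnon
    push Not at hnon
    obtain ⟨w, hwH, hwU, hw⟩ := hnon
    set k := D.nroots - (m + 1)
    have hk1 : D.nroots - m = k + 1 := by omega
    rw [hk1] at hall
    by_cases hk : D.IsPosRoot k
    swap
    · refine absurd (hall w hwH (rootsU_mono ?_ hwU)) hw
      intro r hr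
      exact ⟨hr.1, Nat.succ_le_of_lt (lt_of_le_of_ne hr.2 fun e => hk (e ▸ hr.1))⟩
    obtain ⟨t, v, hv, rfl⟩ := split_at h h.toStd.isClosed_pos hk hwU
    refine Or.inr ⟨k, hk, t, v, fun ht => hw ?_, hv, hwH, hall⟩
    have hxH : xG h.cert k t ∈ H := hS.mem (xG_mem_fixElem h.cert k ht)
    have hvH : v ∈ H := by simpa using mul_mem (inv_mem hxH) hwH
    rw [map_mul, frob_xG, ht, hall v hvH hv]

theorem eq_of_natAbs_eq_zero {p c : ℕ} [CharP F p] {z : ℤ} (hc : z.natAbs = c)
    (hz : (z : F) = 0) : p ∣ c := by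
  rw [CharP.intCast_eq_zero_iff F p, Int.natCast_dvd] at hz
  rwa [hc] at hz

/-- The seed: a non-fixed parameter at the highest root, or at the exceptional root in the
characteristic of its constant. -/
theorem exists_seed {T : Tbl} {p : ℕ} [Fact p.Prime] [CharP F p] {h : Full D A}
    (P : Props h T) (hS : Setting h φ H) {y : GL D.Idx F}
    (hyH : y ∈ H) (hyU : y ∈ D.posUnipotent F) (hy : frob φ y ≠ y) :
    (∃ t, φ t ≠ t ∧ xG h.cert (topRoot D) t ∈ H) ∨
      (p ∣ T.c ∧ D.IsPosRoot T.s ∧ ∃ t v, φ t ≠ t ∧ v ∈ rootsU D F (above D (T.s + 1)) ∧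
        xG h.cert T.s t * v ∈ H ∧
        ∀ w ∈ H, w ∈ rootsU D F (above D (T.s + 1)) → frob φ w = w) := by
  obtain ⟨k, hk, t, v, ht, hv, hg, htail⟩ := exists_max_above hS hyH hyU hy
  rcases eq_or_ne k (topRoot D) with rfl | hne
  · left
    have : v = 1 := rootsU_inter_empty h.cert (fun r hr => hr.1)
      (by simp only [topRoot]; omega) hv
    exact ⟨t, ht, by rwa [this, mul_one] at hg⟩
  have hdiv : ∀ c, HasConst D k c → p ∣ c := by
    rintro c ⟨d, e, hd, hdk, he, hc⟩
    exact eq_of_natAbs_eq_zero hc (chainM_eq_zero hS hk ht hv hg htail hd hdk he)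
  have hp1 := (Fact.out : p.Prime).one_lt
  rcases P.term k hk hne with h1 | ⟨h2, h3⟩ | ⟨rfl, hc⟩
  · have := Nat.le_of_dvd one_pos (hdiv 1 h1)
    omega
  · have := (Nat.prime_dvd_prime_iff_eq (Fact.out : p.Prime) Nat.prime_two).1 (hdiv 2 h2)
    have := (Nat.prime_dvd_prime_iff_eq (Fact.out : p.Prime) Nat.prime_three).1 (hdiv 3 h3)
    omega
  · exact Or.inr ⟨hdiv _ hc, hk, t, v, ht, hv, hg, htail⟩

end CfsgLib.ClassK.Subfield
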