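import Cfsg.Agent.Lib.ClassK.Subfield.Maximal
import Mathlib.RingTheory.Jacobson.Ring
import Mathlib.RingTheory.FiniteType
import Mathlib.Algebra.Polynomial.Roots
import Mathlib.FieldTheory.IsAlgClosed.Basic
import Mathlib.FieldTheory.Finite.GaloisField

/-!
A finite subgroup of a Chevalley group over an algebraically closed field containing the group over
a finite subfield lies between the elementary group and the fixed points over a finite extension:
specialise the finitely many parameters at a maximal ideal and use the finite case.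
-/

set_option autoImplicit false
set_option maxRecDepth 100000
set_option linter.unusedSectionVars false
set_option linter.style.haveILetI false

open Polynomial

namespace CfsgLib.ClassK.Subfield

open Cfsg.Lie CfsgLib.Chevalley

variable {D : ChevalleyDatum} {A : Aux}

/-- The root element over a ring. -/
noncomputable def xU (hC : Cert D A) (R : Type*) [CommRing R] (r : Fin D.nroots) (t : R) :
    GL D.Idx R :=
  ⟨xR D R r t, xR D R r (-t), xR_mul_neg hC r t, by
    have := xR_mul_neg (R := R) hC r (-t)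
    rwa [neg_neg] at this⟩

theorem map_xU (hC : Cert D A) {R S : Type*} [CommRing R] [CommRing S] (f : R →+* S)
    (r : Fin D.nroots) (t : R) :
    Matrix.GeneralLinearGroup.map f (xU hC R r t) = xU hC S r (f t) :=
  Units.ext (xR_map f hC.wf r t)

theorem xU_eq_xG (hC : Cert D A) (F : Type*) [Field F] (r : Fin D.nroots) (t : F) :
    xU hC F r t = xG hC r t :=
  Units.ext (by rw [coe_xG, x_eq_xR D F r.isLt]; rfl)

/-- The subgroup generated by root elements with parameters in a finite set. -/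
def paramGroup (hC : Cert D A) {k : Type*} [Field k] (S : Finset k) : Subgroup (GL D.Idx k) :=
  Subgroup.closure {w | ∃ (r : Fin D.nroots), ∃ t ∈ S, w = xG hC r t}

theorem paramGroup_mono (hC : Cert D A) {k : Type*} [Field k] {S T : Finset k} (hST : S ⊆ T) :
    paramGroup hC S ≤ paramGroup hC T :=
  Subgroup.closure_mono fun _ ⟨r, t, ht, e⟩ => ⟨r, t, hST ht, e⟩

/-- Finitely many parameters give each element. -/
theorem exists_param (hC : Cert D A) {k : Type*} [Field k] [DecidableEq k] {g : GL D.Idx k}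
    (hg : g ∈ D.group k) : ∃ S : Finset k, g ∈ paramGroup hC S := by
  rw [ChevalleyDatum.group] at hg
  induction hg using Subgroup.closure_induction with
  | mem g hg =>
    obtain ⟨r, t, hg⟩ := hg
    refine ⟨{t}, Subgroup.subset_closure ⟨r, t, Finset.mem_singleton_self t, ?_⟩⟩
    exact (eq_xG_iff hC).1 (show (g : Matrix D.Idx D.Idx k) = D.x k r t by
      rw [hg, ChevalleyDatum.x, dif_pos r.isLt])
  | one => exact ⟨∅, one_mem (paramGroup hC ∅)⟩
  | mul x y _ _ hx hy =>
    obtain ⟨S, hS⟩ := hx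
    obtain ⟨T, hT⟩ := hy
    exact ⟨S ∪ T, (paramGroup hC (S ∪ T)).mul_mem
      (paramGroup_mono hC (Finset.subset_union_left (s₂ := T)) hS)
      (paramGroup_mono hC (Finset.subset_union_right (s₁ := S)) hT)⟩
  | inv x _ hx =>
    obtain ⟨S, hS⟩ := hx
    exact ⟨S, (paramGroup hC S).inv_mem hS⟩

/-- Finitely many parameters generate a finite subgroup. -/
theorem exists_params (hC : Cert D A) {k : Type*} [Field k] [DecidableEq k]
    (M : Subgroup (GL D.Idx k)) [Fintype M] (hM : M ≤ D.group k) :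
    ∃ S : Finset k, ∀ g ∈ M, g ∈ paramGroup hC S := by
  have h : ∀ g : M, ∃ S : Finset k, (g : GL D.Idx k) ∈ paramGroup hC S :=
    fun g => exists_param hC (hM g.2)
  let S : M → Finset k := fun g => (h g).choose
  refine ⟨Finset.univ.biUnion S, ?_⟩
  intro g hg
  have h1 : S ⟨g, hg⟩ ⊆ Finset.univ.biUnion S :=
    Finset.subset_biUnion_of_mem S (Finset.mem_univ _)
  exact paramGroup_mono hC h1 (h ⟨g, hg⟩).choose_spec

section Roots

variable {R : Type*} [CommRing R] [IsDomain R]

/-- A ring homomorphism to a field is injective on the solutions of `x ^ Q = x`. -/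
theorem eq_of_map_eq {K : Type*} [Field K] (π : R →+* K) {p Q : ℕ} [Fact p.Prime] [CharP R p]
    (hQ : ∃ m, 1 ≤ m ∧ Q = p ^ m) {x y : R} (hx : x ^ Q = x) (hy : y ^ Q = y) (e : π x = π y) :
    x = y := by
  obtain ⟨m, hm, rfl⟩ := hQ
  by_contra hne
  have hd : (x - y) ^ p ^ m = x - y := by rw [sub_pow_char_pow, hx, hy]
  have h1 : 1 < p ^ m := Nat.one_lt_pow (by omega) (Fact.out : p.Prime).one_lt
  have h2 : (x - y) ^ (p ^ m - 1) = 1 := by
    refine mul_left_cancel₀ (sub_ne_zero.2 hne) ?_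
    rw [← pow_succ', show p ^ m - 1 + 1 = p ^ m by omega, hd, mul_one]
  have h3 := congrArg π h2
  rw [map_pow, map_sub, e, sub_self, map_one, zero_pow (by omega)] at h3
  exact zero_ne_one h3

theorem fixed_of_dvd {p : ℕ} {x : R} {a b : ℕ} (hx : x ^ p ^ a = x) (hab : a ∣ b) :
    x ^ p ^ b = x := by
  obtain ⟨j, rfl⟩ := hab
  induction j with
  | zero => simp
  | succ j ih => rw [Nat.mul_succ, pow_add, pow_mul, ih, hx]

end Roots

/-- The ring over which the finitely generated group lives, at one finite quotient field. -/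
theorem exists_local {B : Type*} [CommRing B] [IsDomain B] {p : ℕ} [Fact p.Prime] [CharP B p]
    {K : Type*} [Field K] [Fintype K] (π : B →+* K)
    (hD : D ∈ [chevG2, chevB2, chevD4, chevF4, chevE6, chevE7, chevE8]) (hC : Cert D A) {a : ℕ}
    (ha : 1 ≤ a) {M : Subgroup (GL D.Idx B)} [Finite M]
    (hgen : M ≤ Subgroup.closure {w : GL D.Idx B | ∃ r t, w = xU hC B r t})
    (T : Finset B) (hT : ∀ t ∈ T, t ^ p ^ a = t) (hTcard : T.card = p ^ a)
    (hTM : ∀ t ∈ T, ∀ s : Fin D.nroots, xU hC B s t ∈ M) :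
    ∃ r, 1 ≤ r ∧ r ≤ Nat.card M ∧ (∀ (s : Fin D.nroots) (t : B), t ^ p ^ (a * r) = t →
        ∃ g ∈ M, Matrix.GeneralLinearGroup.map π g = Matrix.GeneralLinearGroup.map π (xU hC B s t)) ∧
      ∀ g ∈ M, ∀ i j : D.Idx, π ((g : Matrix D.Idx D.Idx B) i j) ^ p ^ (a * r) =
        π ((g : Matrix D.Idx D.Idx B) i j) := by
  classical
  haveI : CharP K p := CharP.of_ringHom_of_ne_zero π p (Fact.out : p.Prime).ne_zero
  obtain ⟨n, -, hn⟩ := FiniteField.card K p
  have hp1 : 1 < p := (Fact.out : p.Prime).one_lt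
  have hq1 : 1 < p ^ a := Nat.one_lt_pow (by omega) hp1
  -- the solutions of `t ^ q = t`
  set TK : Finset K := Finset.univ.filter fun x => x ^ p ^ a = x
  have hTK : TK.card ≤ p ^ a := by
    refine le_trans (Finset.card_le_card
      (t := ((X : K[X]) ^ p ^ a - X).roots.toFinset) fun x hx => ?_) ?_
    · rw [Multiset.mem_toFinset, mem_roots (FiniteField.X_pow_card_sub_X_ne_zero K hq1)]
      simpa [TK, sub_eq_zero] using hx
    · exact ((Multiset.toFinset_card_le _).trans (card_roots' _)).trans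
        (FiniteField.X_pow_card_sub_X_natDegree_eq K hq1).le
  have hT' : T.image π = TK := by
    refine Finset.eq_of_subset_of_card_le (fun x hx => ?_) ?_
    · obtain ⟨t, ht, rfl⟩ := Finset.mem_image.1 hx
      simp only [TK, Finset.mem_filter, Finset.mem_univ, true_and]
      rw [← map_pow, hT t ht]
    · rw [Finset.card_image_of_injOn fun t ht u hu e => eq_of_map_eq π ⟨a, ha, rfl⟩ (hT t ht)
        (hT u hu) e, hTcard]
      exact hTK
  have hTKcard : TK.card = p ^ a := by
    rw [← hT', Finset.card_image_of_injOn fun t ht u hu e => eq_of_map_eq π ⟨a, ha, rfl⟩ (hT t ht)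
      (hT u hu) e, hTcard]
  have han : a ∣ (n : ℕ) := by
    let K0 := CfsgLib.SmallDim.fixedField (F := K) p a
    have h0 : Nat.card K0 = p ^ a := by
      rw [← hTKcard, Nat.card_eq_fintype_card]
      refine Fintype.card_of_subtype TK fun x => ?_
      simp only [TK, Finset.mem_filter, Finset.mem_univ, true_and]
      exact CfsgLib.SmallDim.mem_fixedField.symm
    haveI : Finite K0 := Subtype.finite
    haveI : Module.Finite K0 K := Module.Finite.of_finite
    have := Module.natCard_eq_pow_finrank (K := K0) (V := K)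
    rw [h0, Nat.card_eq_fintype_card, hn, ← pow_mul] at this
    exact ⟨_, Nat.pow_right_injective (Fact.out : p.Prime).two_le this⟩
  set H : Subgroup (GL D.Idx K) := M.map (Matrix.GeneralLinearGroup.map π) with hH
  have hHle : H ≤ D.group K := by
    rw [hH, Subgroup.map_le_iff_le_comap]
    refine hgen.trans ((Subgroup.closure_le _).2 ?_)
    rintro _ ⟨r, t, rfl⟩
    rw [SetLike.mem_coe, Subgroup.mem_comap, map_xU, xU_eq_xG]
    exact xG_mem_group hC _ _
  obtain ⟨r, hr, hrN, hall, hfx⟩ := exists_intermediate hD hn ha han hHle fun s t ht g hg => by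
    rw [show g = xG hC s t from Units.ext (hg.trans (coe_xG hC s t).symm)]
    rcases lt_or_ge s D.nroots with hs | hs
    · obtain ⟨u, hu, rfl⟩ := Finset.mem_image.1 (show t ∈ T.image π by rw [hT']; simp [TK, ht])
      exact ⟨xU hC B ⟨s, hs⟩ u, hTM u hu _, by rw [map_xU, xU_eq_xG]⟩
    · rw [show xG hC s t = 1 from Units.ext (by simp [ChevalleyDatum.x, not_lt.2 hs])]
      exact one_mem _
  refine ⟨r, hr, ?_, fun s t ht => ?_, fun g hg i j => ?_⟩
  · have h1 : p ^ (a * r) ≤ Nat.card M := hrN.trans (Nat.card_le_card_of_surjective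
      (fun g : M => (⟨Matrix.GeneralLinearGroup.map π g.1, g.1, g.2, rfl⟩ : H))
      (fun ⟨_, g, hg, e⟩ => ⟨⟨g, hg⟩, Subtype.ext e⟩))
    have h2 : a * r < p ^ (a * r) := Nat.lt_pow_self hp1
    have h3 : r ≤ a * r := Nat.le_mul_of_pos_left r (by omega)
    omega
  · obtain ⟨g, hg, e⟩ := hall s (π t) (by rw [← map_pow, ht]) (xU hC K s (π t))
      (by rw [xU_eq_xG, coe_xG])
    exact ⟨g, hg, e.trans (map_xU hC π s t).symm⟩
  · exact hfx _ ⟨g, hg, rfl⟩ i j

theorem xU_entry_fixed (hC : Cert D A) {B : Type*} [CommRing B] {p : ℕ} [Fact p.Prime] [CharP B p]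
    {m : ℕ} {t : B} (ht : t ^ p ^ m = t) (s : Fin D.nroots) (i j : D.Idx) :
    ((xU hC B s t : Matrix D.Idx D.Idx B) i j) ^ p ^ m = (xU hC B s t : Matrix D.Idx D.Idx B) i j := by
  have h1 := congrArg (fun w : Matrix D.Idx D.Idx B => w i j)
    (xR_map (iterateFrobenius B p m) hC.wf s t)
  simp only [Matrix.map_apply, iterateFrobenius_def] at h1
  rw [ht] at h1
  exact h1

theorem entry_eq {B : Type*} [CommRing B] {K : Type*} [CommRing K] (π : B →+* K)
    {g g' : GL D.Idx B}
    (e : Matrix.GeneralLinearGroup.map π g = Matrix.GeneralLinearGroup.map π g') (i j : D.Idx) :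
    π ((g : Matrix D.Idx D.Idx B) i j) = π ((g' : Matrix D.Idx D.Idx B) i j) :=
  congrArg (fun w : GL D.Idx K => (w : Matrix D.Idx D.Idx K) i j) e

/-- The ring case: a Jacobson domain of finite type over the prime field. -/
theorem exists_sandwich_ring {B : Type*} [CommRing B] [IsDomain B] {p : ℕ} [Fact p.Prime] [CharP B p]
    [IsJacobsonRing B] (hfin : ∀ m : Ideal B, m.IsMaximal → Finite (B ⧸ m))
    (hD : D ∈ [chevG2, chevB2, chevD4, chevF4, chevE6, chevE7, chevE8]) (hC : Cert D A) {a : ℕ}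
    (ha : 1 ≤ a) {M : Subgroup (GL D.Idx B)} [Finite M]
    (hgen : M ≤ Subgroup.closure {w : GL D.Idx B | ∃ r t, w = xU hC B r t})
    (T : Finset B) (hT : ∀ t ∈ T, t ^ p ^ a = t) (hTcard : T.card = p ^ a)
    (hTM : ∀ t ∈ T, ∀ s : Fin D.nroots, xU hC B s t ∈ M) :
    ∃ r, 1 ≤ r ∧ r ≤ Nat.card M ∧
      (∀ (s : Fin D.nroots) (t : B), t ^ p ^ (a * r) = t → xU hC B s t ∈ M) ∧
      ∀ g ∈ M, ∀ i j : D.Idx,
        ((g : Matrix D.Idx D.Idx B) i j) ^ p ^ (a * r) = (g : Matrix D.Idx D.Idx B) i j := by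
  classical
  have hloc : ∀ (m : Ideal B) (_ : m.IsMaximal),
      ∃ r, 1 ≤ r ∧ r ≤ Nat.card M ∧ (∀ (s : Fin D.nroots) (t : B), t ^ p ^ (a * r) = t →
        ∃ g ∈ M, Matrix.GeneralLinearGroup.map (Ideal.Quotient.mk m) g =
          Matrix.GeneralLinearGroup.map (Ideal.Quotient.mk m) (xU hC B s t)) ∧
      ∀ g ∈ M, ∀ i j : D.Idx, Ideal.Quotient.mk m ((g : Matrix D.Idx D.Idx B) i j) ^ p ^ (a * r) =
        Ideal.Quotient.mk m ((g : Matrix D.Idx D.Idx B) i j) := by
    intro m hm
    letI := Ideal.Quotient.field m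
    haveI := hfin m hm
    letI := Fintype.ofFinite (B ⧸ m)
    exact exists_local (Ideal.Quotient.mk m) hD hC ha hgen T hT hTcard hTM
  -- the entries satisfy one of finitely many equations
  have halg : ∀ g ∈ M, ∀ i j : D.Idx, ∃ R, 1 ≤ R ∧
      ((g : Matrix D.Idx D.Idx B) i j) ^ p ^ (a * R) = (g : Matrix D.Idx D.Idx B) i j := by
    intro g hg i j
    set e := (g : Matrix D.Idx D.Idx B) i j
    have hP : ∏ R ∈ Finset.Icc 1 (Nat.card M), (e ^ p ^ (a * R) - e) = 0 := by
      rw [← Ideal.mem_bot, ← (IsJacobsonRing.out' (R := B)) ⊥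
        (Ideal.isRadical_bot_iff.2 inferInstance), Ideal.jacobson, Submodule.mem_sInf]
      rintro m ⟨-, hm⟩
      obtain ⟨r, hr, hrN, -, hfx⟩ := hloc m hm
      refine Ideal.mem_of_dvd _ (Finset.dvd_prod_of_mem _ (Finset.mem_Icc.2 ⟨hr, hrN⟩)) ?_
      rw [← Ideal.Quotient.eq_zero_iff_mem, map_sub, map_pow, hfx g hg i j, sub_self]
    obtain ⟨R, hR, h0⟩ := Finset.prod_eq_zero_iff.1 hP
    exact ⟨R, (Finset.mem_Icc.1 hR).1, sub_eq_zero.1 h0⟩
  obtain ⟨m, hm⟩ := Ideal.exists_maximal B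
  letI := Ideal.Quotient.field m
  set π := Ideal.Quotient.mk m
  obtain ⟨r, hr, hrN, hall, hfx⟩ := hloc m hm
  have hentries : ∀ g ∈ M, ∀ i j : D.Idx, ((g : Matrix D.Idx D.Idx B) i j) ^ p ^ (a * r) =
      (g : Matrix D.Idx D.Idx B) i j := by
    intro g hg i j
    obtain ⟨R, hR, hRe⟩ := halg g hg i j
    refine eq_of_map_eq π ⟨a * R, Nat.mul_pos ha hR, rfl⟩ ?_ hRe (by rw [map_pow, hfx g hg i j])
    rw [← pow_mul, mul_comm, pow_mul, hRe]
  refine ⟨r, hr, hrN, fun s t ht => ?_, hentries⟩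
  obtain ⟨g', hg', e⟩ := hall s t ht
  have he : g' = xU hC B s t := Units.ext (Matrix.ext fun i j =>
    eq_of_map_eq π ⟨a * r, Nat.mul_pos ha hr, rfl⟩ (hentries g' hg' i j) (xU_entry_fixed hC ht s i j)
      (entry_eq π e i j))
  exact he ▸ hg'

/-- The field-theoretic heart of the reduction. -/
theorem exists_sandwich {k : Type*} [Field k] [IsAlgClosed k] {p : ℕ} [Fact p.Prime] [CharP k p]
    (hD : D ∈ [chevG2, chevB2, chevD4, chevF4, chevE6, chevE7, chevE8]) {a : ℕ} (ha : 1 ≤ a)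
    {M : Subgroup (GL D.Idx k)} [Finite M] (hMG : M ≤ D.group k)
    (hLM : ∀ (s : ℕ) (t : k), t ^ p ^ a = t → ∀ g : GL D.Idx k,
      (g : Matrix D.Idx D.Idx k) = D.x k s t → g ∈ M) :
    ∃ r : ℕ, 1 ≤ r ∧ (∀ (s : ℕ) (t : k), t ^ p ^ (a * r) = t → ∀ g : GL D.Idx k,
      (g : Matrix D.Idx D.Idx k) = D.x k s t → g ∈ M) ∧
      ∀ g ∈ M, ∀ i j : D.Idx,
        ((g : Matrix D.Idx D.Idx k) i j) ^ p ^ (a * r) = (g : Matrix D.Idx D.Idx k) i j := by
  classical
  obtain ⟨A, h, -, -, -⟩ := exists_props hD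
  have hC := h.cert
  letI := Fintype.ofFinite M
  obtain ⟨S₀, hS₀⟩ := exists_params hC M hMG
  set N := Nat.card M
  have hp1 : 1 < p := (Fact.out : p.Prime).one_lt
  have hq1 : 1 < p ^ a := Nat.one_lt_pow (by omega) hp1
  set S : Finset k := S₀ ∪ (Finset.Icc 1 (N + 1)).biUnion
    fun R => ((X : k[X]) ^ p ^ (a * R) - X).roots.toFinset with hSdef
  letI : Algebra (ZMod p) k := ZMod.algebra k p
  set B : Subalgebra (ZMod p) k := Algebra.adjoin (ZMod p) (S : Set k) with hBdef
  have hSB : ∀ x ∈ S, x ∈ B := fun x hx => Algebra.subset_adjoin hx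
  have hroot : ∀ R, 1 ≤ R → R ≤ N + 1 → ∀ t : k, t ^ p ^ (a * R) = t → t ∈ B := by
    intro R h1 h2 t ht
    refine hSB t (Finset.mem_union_right _ (Finset.mem_biUnion.2 ⟨R, Finset.mem_Icc.2 ⟨h1, h2⟩, ?_⟩))
    rw [Multiset.mem_toFinset, mem_roots (FiniteField.X_pow_card_sub_X_ne_zero k
      (Nat.one_lt_pow (Nat.mul_pos ha h1).ne' hp1))]
    simp [ht]
  haveI : CharP B p := charP_of_injective_algebraMap (algebraMap (ZMod p) B).injective p
  haveI : Algebra.FiniteType (ZMod p) B := (Subalgebra.fg_iff_finiteType _).1 ⟨S, rfl⟩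
  haveI : IsJacobsonRing B := isJacobsonRing_of_finiteType (A := ZMod p)
  have hfin : ∀ m : Ideal B, m.IsMaximal → Finite (B ⧸ m) := fun m hm => by
    haveI : Module.Finite (ZMod p) (B ⧸ m) := by
      letI := Ideal.Quotient.field m
      exact finite_of_finite_type_of_isJacobsonRing _ _
    exact Module.finite_of_finite (ZMod p)
  set ι : B →+* k := B.val.toRingHom
  have hι : Function.Injective ι := Subtype.val_injective
  set f := Matrix.GeneralLinearGroup.map (n := D.Idx) ι
  set MB : Subgroup (GL D.Idx B) := M.comap f with hMB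
  have hmapinj : Function.Injective f := fun g g' e =>
    Units.ext (Matrix.ext fun i j => hι (entry_eq ι e i j))
  have hMBinj : Function.Injective fun g : MB => (⟨f g.1, g.2⟩ : M) :=
    fun g g' e => Subtype.ext (hmapinj (congrArg Subtype.val e))
  haveI : Finite MB := Finite.of_injective _ hMBinj
  have hMBN : Nat.card MB ≤ N := Nat.card_le_card_of_injective _ hMBinj
  have hlift : ∀ g ∈ M, ∃ g' ∈ MB, f g' = g ∧
      g' ∈ Subgroup.closure {w : GL D.Idx B | ∃ r t, w = xU hC B r t} := by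
    intro g hg
    have hg' : g ∈ (Subgroup.closure {w : GL D.Idx B | ∃ r t, w = xU hC B r t}).map f := by
      refine (Subgroup.closure_le _).2 ?_ (hS₀ g hg)
      rintro _ ⟨r, t, ht, rfl⟩
      exact ⟨xU hC B r ⟨t, hSB t (Finset.mem_union_left _ ht)⟩, Subgroup.subset_closure ⟨r, _, rfl⟩,
        (map_xU hC ι r _).trans (xU_eq_xG hC k r t)⟩
    obtain ⟨g', hg'mem, e⟩ := hg'
    exact ⟨g', by rw [hMB, Subgroup.mem_comap, e]; exact hg, e, hg'mem⟩
  have hgen : MB ≤ Subgroup.closure {w : GL D.Idx B | ∃ r t, w = xU hC B r t} := by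
    intro g hg
    obtain ⟨g', -, e, hg'⟩ := hlift _ hg
    exact hmapinj e ▸ hg'
  -- the solutions of `t ^ q = t`
  set T0 : Finset k := ((X : k[X]) ^ p ^ a - X).roots.toFinset
  have hT0 : ∀ t ∈ T0, t ^ p ^ a = t := fun t ht => by
    have := (mem_roots (FiniteField.X_pow_card_sub_X_ne_zero k hq1)).1 (Multiset.mem_toFinset.1 ht)
    simpa [sub_eq_zero] using this
  set T : Finset B := T0.preimage ι hι.injOn
  have hTimg : T.image ι = T0 := by
    ext t
    simp only [Finset.mem_image, T, Finset.mem_preimage]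
    exact ⟨fun ⟨u, hu, e⟩ => e ▸ hu, fun ht => ⟨⟨t, hroot 1 le_rfl (by omega) t
      (by rw [mul_one]; exact hT0 t ht)⟩, ht, rfl⟩⟩
  have hTcard : T.card = p ^ a := by
    rw [← Finset.card_image_of_injective T hι, hTimg,
      Multiset.toFinset_card_of_nodup (nodup_roots (galois_poly_separable p _ (dvd_pow_self p (by omega)))),
      IsAlgClosed.card_roots_eq_natDegree]
    exact FiniteField.X_pow_card_sub_X_natDegree_eq k hq1
  have hTfix : ∀ t ∈ T, t ^ p ^ a = t := fun t ht =>
    hι (by rw [map_pow]; exact hT0 _ (Finset.mem_preimage.1 ht))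
  have hTM : ∀ t ∈ T, ∀ s : Fin D.nroots, xU hC B s t ∈ MB := fun t ht s => by
    rw [hMB, Subgroup.mem_comap, map_xU, xU_eq_xG]
    exact hLM s _ (hT0 _ (Finset.mem_preimage.1 ht)) _ (coe_xG hC s _)
  obtain ⟨r, hr, hrN, hall, hent⟩ := exists_sandwich_ring hfin hD hC ha hgen T hTfix hTcard hTM
  refine ⟨r, hr, fun s t ht g hg => ?_, fun g hg i j => ?_⟩
  · rw [show g = xG hC s t from Units.ext (hg.trans (coe_xG hC s t).symm)]
    rcases lt_or_ge s D.nroots with hs | hs
    · have htB := hroot r hr (by omega) t ht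
      have h1 := hall ⟨s, hs⟩ ⟨t, htB⟩ (hι (by rw [map_pow]; exact ht))
      rw [hMB, Subgroup.mem_comap, map_xU, xU_eq_xG] at h1
      exact h1
    · rw [show xG hC s t = 1 from Units.ext (by simp [ChevalleyDatum.x, not_lt.2 hs])]
      exact one_mem _
  · obtain ⟨g', hg', rfl, -⟩ := hlift g hg
    exact (map_pow ι _ _).symm.trans (congrArg ι (hent g' hg' i j))

end CfsgLib.ClassK.Subfield
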